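import Mathlib

/-!
Finite facts about the action of the alternating group of degree five on subsets of five points,
and a centraliser in the symmetric group of degree eight. The even-weight permutation module of
dimension four is presented by the subsets of five points modulo complementation.
-/

set_option autoImplicit false
set_option maxRecDepth 50000

namespace CfsgLib.AEightThreeClasses

open Equiv Equiv.Perm

theorem subset_cases : ∀ s : Finset (Fin 5), s = ∅ ∨ s = Finset.univ ∨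
    (∃ i, s = {i} ∨ sᶜ = {i}) ∨ ∃ i j, i ≠ j ∧ (s = {i, j} ∨ sᶜ = {i, j}) := by
  decide

theorem even_perm_point : ∀ i : Fin 5, ∃ σ : Perm (Fin 5), sign σ = 1 ∧ σ 4 = i := by
  decide

theorem even_perm_pair : ∀ i j : Fin 5, i ≠ j →
    ∃ σ : Perm (Fin 5), sign σ = 1 ∧ ({σ 0, σ 1} : Finset (Fin 5)) = {i, j} := by
  decide

/-- Commuting with a double transposition fixing `4` forces membership in the four-group. -/
theorem commute_fix : ∀ σ τ : Perm (Fin 5), sign σ = 1 → σ * σ = 1 → σ ≠ 1 → σ 4 = 4 →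
    sign τ = 1 → σ * τ = τ * σ → τ 4 = 4 ∧ τ * τ = 1 := by
  decide

theorem four_fix : ∀ σ : Perm (Fin 5), sign σ = 1 → σ 4 = 4 → σ * σ * σ * σ = 1 → σ * σ = 1 := by
  decide

theorem four_group : ∀ σ : Perm (Fin 5), sign σ = 1 → σ 4 = 4 → σ * σ = 1 →
    σ = 1 ∨ σ = swap 0 1 * swap 2 3 ∨ σ = swap 0 2 * swap 1 3 ∨ σ = swap 0 3 * swap 1 2 := by
  decide

theorem involution_conj : ∀ σ τ : Perm (Fin 5), sign σ = 1 → sign τ = 1 → σ * σ = 1 → τ * τ = 1 →
    σ ≠ 1 → τ ≠ 1 → ∃ ρ : Perm (Fin 5), sign ρ = 1 ∧ ρ * σ * ρ⁻¹ = τ := by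
  decide

theorem order_five_product : ∀ σ : Perm (Fin 5), sign σ = 1 → σ * σ = 1 → σ ≠ 1 →
    ∃ ρ : Perm (Fin 5), sign ρ = 1 ∧ (σ * (ρ * σ * ρ⁻¹)) ^ 5 = 1 ∧ σ * (ρ * σ * ρ⁻¹) ≠ 1 := by
  decide

/-- The permutation `(0 1 2 3)(4 5)`. -/
def eightElt : Perm (Fin 8) := swap 0 1 * swap 1 2 * swap 2 3 * swap 4 5

theorem eightElt_sign : sign eightElt = 1 := by decide

theorem eightElt_pow : eightElt ^ 4 = 1 := by decide

theorem card_centralizer_eightElt :
    Nat.card (Subgroup.centralizer ({eightElt} : Set (Perm (Fin 8)))) = 16 := by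
  have h : eightElt.cycleType = {4, 2} := by decide
  rw [Equiv.Perm.nat_card_centralizer, h]
  decide

end CfsgLib.AEightThreeClasses
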