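import Cfsg.Agent.Lib.AEightThreeClasses.Core
import Cfsg.Agent.Lib.AEightThreeClasses.Coord
import Cfsg.Agent.Lib.PSolvable.FrattiniFacts

/-!
A normaliser `N` of an elementary abelian subgroup `A` of order sixteen acting on it as the
alternating group of degree five modulo `A O(N)`, inside a group with a Sylow 2-subgroup of the type
of that of the alternating group of degree eight: `C_N(A) = A O(N)`, elements of order five act
without fixed points, and involutions outside `A` fix exactly four elements of `A`.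
-/

set_option autoImplicit false

namespace CfsgLib.AEightThreeClasses

open Subgroup Cfsg Equiv.Perm

universe u

variable {G : Type u} [Group G] [Finite G]

/-- The data: `π` is the quotient map of the normaliser of `A` onto the alternating group. -/
structure Action (G : Type u) [Group G] where
  T : Sylow 2 G
  A : Subgroup G
  O : Subgroup G
  π : ↥(normalizer (A : Set G)) →* ↥(alternatingGroup (Fin 5))
  π_surj : Function.Surjective π
  π_eq_one : ∀ n, π n = 1 ↔ ∃ e ∈ A, ∃ o ∈ O, (n : G) = e * o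
  hA : IsElementaryAbelian 2 A
  hA16 : Nat.card A = 16
  hO : Odd (Nat.card O)
  hON : normalizer (A : Set G) ≤ normalizer (O : Set G)
  hOC : O ≤ centralizer (A : Set G)
  hT : Nat.card (T : Subgroup G) = 64
  hAT : A ≤ (T : Subgroup G)
  hTN : (T : Subgroup G) ≤ normalizer (A : Set G)
  hx : ∃ x ∈ (T : Subgroup G), Nat.card ↥((T : Subgroup G) ⊓ centralizer ({x} : Set G)) ≤ 16

namespace Action

variable (F : Action G)

theorem comm {a b : G} (ha : a ∈ F.A) (hb : b ∈ F.A) : a * b = b * a :=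
  congrArg Subtype.val (F.hA.1.is_comm.comm (⟨a, ha⟩ : F.A) ⟨b, hb⟩)

theorem sq {a : G} (ha : a ∈ F.A) : a * a = 1 := by rw [← pow_two]; exact F.hA.2 a ha

theorem inv_eq {a : G} (ha : a ∈ F.A) : a⁻¹ = a := inv_eq_of_mul_eq_one_left (F.sq ha)

theorem A_le : F.A ≤ normalizer (F.A : Set G) := le_normalizer

theorem O_le : F.O ≤ normalizer (F.A : Set G) :=
  F.hOC.trans (centralizer_le_normalizer _)

theorem mem_conj {n a : G} (hn : n ∈ normalizer (F.A : Set G)) (ha : a ∈ F.A) :
    n * a * n⁻¹ ∈ F.A :=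
  (mem_normalizer_iff.1 hn a).1 ha

/-- The action of the normaliser on `A`. -/
theorem fix_of_pi_eq_one {n : ↥(normalizer (F.A : Set G))} (hn : F.π n = 1) {a : G}
    (ha : a ∈ F.A) : (n : G) * a * (n : G)⁻¹ = a := by
  obtain ⟨e, he, o, ho, h⟩ := (F.π_eq_one n).1 hn
  have h1 : o * a = a * o := ((mem_centralizer_iff.1 (F.hOC ho)) a ha).symm
  rw [h, mul_inv_rev, show e * o * a * (o⁻¹ * e⁻¹) = e * (o * a) * o⁻¹ * e⁻¹ by group, h1,
    show e * (a * o) * o⁻¹ * e⁻¹ = e * a * e⁻¹ by group, F.comm he ha, mul_inv_cancel_right]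

theorem conj_eq_of_pi_eq {n m : ↥(normalizer (F.A : Set G))} (h : F.π n = F.π m) {a : G}
    (ha : a ∈ F.A) : (n : G) * a * (n : G)⁻¹ = (m : G) * a * (m : G)⁻¹ := by
  have h1 : F.π (m⁻¹ * n) = 1 := by rw [map_mul, map_inv, h, inv_mul_cancel]
  have h2 := F.fix_of_pi_eq_one h1 ha
  conv_rhs => rw [← h2]
  push_cast
  group

/-- `C_N(A) = A O`. -/
theorem pi_eq_one_of_centralizes {n : ↥(normalizer (F.A : Set G))}
    (hn : ∀ a ∈ F.A, (n : G) * a * (n : G)⁻¹ = a) : F.π n = 1 := by
  set C := (centralizer (F.A : Set G)).subgroupOf (normalizer (F.A : Set G)) with hC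
  have hmem : ∀ m : ↥(normalizer (F.A : Set G)),
      m ∈ C ↔ ∀ a ∈ F.A, (m : G) * a * (m : G)⁻¹ = a := fun m => by
    rw [hC, mem_subgroupOf, mem_centralizer_iff]
    exact forall₂_congr fun a _ => by rw [mul_inv_eq_iff_eq_mul]; exact eq_comm
  haveI : C.Normal := ⟨fun m hm g => (hmem _).2 fun a ha => by
    have h1 := (hmem m).1 hm _ (F.mem_conj (inv_mem g.2) ha)
    simp only [coe_mul, coe_inv, inv_inv] at h1 ⊢
    calc (g : G) * m * (g : G)⁻¹ * a * ((g : G) * m * (g : G)⁻¹)⁻¹
        = (g : G) * ((m : G) * ((g : G)⁻¹ * a * g) * (m : G)⁻¹) * (g : G)⁻¹ := by group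
      _ = _ := by rw [h1]; group⟩
  haveI : (C.map F.π).Normal := Subgroup.Normal.map inferInstance _ F.π_surj
  rcases IsSimpleGroup.eq_bot_or_eq_top_of_normal (C.map F.π) inferInstance with h | h
  · exact mem_bot.1 (h ▸ mem_map_of_mem _ ((hmem n).2 hn))
  · exfalso
    have hall : ∀ m : ↥(normalizer (F.A : Set G)), m ∈ C := by
      intro m
      obtain ⟨c, hc, hcm⟩ : F.π m ∈ C.map F.π := h ▸ mem_top _
      refine (hmem m).2 fun a ha => ?_
      rw [← F.conj_eq_of_pi_eq hcm ha]
      exact (hmem c).1 hc a ha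
    obtain ⟨x, hxT, hx⟩ := F.hx
    have hle : F.A ≤ (T F : Subgroup G) ⊓ centralizer ({x} : Set G) := fun a ha =>
      ⟨F.hAT ha, mem_cent.2 (mul_inv_eq_iff_eq_mul.1 ((hmem _).1 (hall ⟨x, F.hTN hxT⟩) a ha)).symm⟩
    have heq : F.A = (T F : Subgroup G) ⊓ centralizer ({x} : Set G) :=
      eq_of_le_of_card_ge hle (by rw [F.hA16]; exact hx)
    have hxA : x ∈ F.A := heq ▸ ⟨hxT, mem_cent.2 rfl⟩
    have hT : (T F : Subgroup G) ≤ (T F : Subgroup G) ⊓ centralizer ({x} : Set G) := fun t ht =>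
      ⟨ht, mem_cent.2 (mul_inv_eq_iff_eq_mul.1 ((hmem _).1 (hall ⟨t, F.hTN ht⟩) x hxA))⟩
    have := (card_le_of_le hT).trans hx
    rw [F.hT] at this
    omega

/-- An element whose image has order five fixes no nontrivial element of `A`. -/
theorem fix_five {r : ↥(normalizer (F.A : Set G))} (h5 : F.π r ^ 5 = 1) (h1 : F.π r ≠ 1) {a : G}
    (ha : a ∈ F.A) (hr : (r : G) * a * (r : G)⁻¹ = a) : a = 1 := by
  haveI : Fact (Nat.Prime 5) := ⟨by norm_num⟩
  by_contra ha1
  apply h1
  refine F.pi_eq_one_of_centralizes ?_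
  set φ : MulAut F.A := F.A.normalizerMonoidHom r with hφ
  have hφv : ∀ x : F.A, (φ x : G) = (r : G) * x * (r : G)⁻¹ := fun x => rfl
  have hφ5 : φ ^ 5 = 1 := by
    rw [hφ, ← map_pow]
    ext x
    exact F.fix_of_pi_eq_one (n := r ^ 5) (by rw [map_pow, h5]) x.2
  set K : Subgroup F.A := φ.toMonoidHom.eqLocus (MonoidHom.id _) with hK
  classical
  have hKmem : ∀ x, x ∈ K ↔ φ x = x := fun x => Iff.rfl
  suffices K = ⊤ by
    intro x hx
    have h := congrArg Subtype.val ((hKmem ⟨x, hx⟩).1 (this ▸ mem_top _))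
    rwa [hφv] at h
  have hKne : (⟨a, ha⟩ : F.A) ∈ K := Subtype.ext hr
  letI : Fintype F.A := Fintype.ofFinite _
  obtain ⟨j, hj, hKc⟩ := (Nat.dvd_prime_pow Nat.prime_two).1
    (show Nat.card K ∣ 2 ^ 4 by rw [show (2 : ℕ) ^ 4 = Nat.card F.A by rw [F.hA16]; norm_num]; exact card_subgroup_dvd_card K)
  have hj1 : j ≠ 0 := fun h => ha1 (by
    have hb : K = ⊥ := card_eq_one.1 (by rw [hKc, h, pow_zero])
    rw [hb, mem_bot] at hKne
    exact congrArg Subtype.val hKne)
  by_contra hKtop
  have hj4 : j ≠ 4 := fun h => hKtop (eq_top_of_card_eq _ (by rw [hKc, F.hA16, h]; norm_num))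
  -- the permutation induced on the complement of `K`
  have hpres : ∀ x, x ∉ K → φ x ∉ K := fun x hx h => hx ((hKmem x).2 (φ.injective h))
  let α := {x : F.A // x ∉ K}
  let σ : Equiv.Perm α := Equiv.Perm.subtypePerm φ.toEquiv (p := fun x => x ∉ K)
    (fun x => ⟨fun h hx => h (by
      have : φ x = x := (hKmem x).1 hx
      change φ x ∈ K
      rwa [this]), hpres x⟩)
  have hσv : ∀ x : α, ((σ x : α) : F.A) = φ x := fun x => rfl
  have hσ : σ ^ 5 ^ 1 = 1 := by
    refine Equiv.ext fun x => Subtype.ext ?_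
    have h := congrArg (fun ψ : MulAut F.A => ψ x.1) hφ5
    simpa [pow_succ, hσv] using h
  have hcard : ¬ 5 ∣ Fintype.card α := by
    rw [Fintype.card_subtype_compl, ← Nat.card_eq_fintype_card, ← Nat.card_eq_fintype_card,
      F.hA16, show Nat.card {x // x ∈ K} = Nat.card K from rfl, hKc]
    interval_cases j <;> omega
  obtain ⟨x, hx⟩ := exists_fixed_point_of_prime hcard hσ
  exact x.2 ((hKmem _).2 ((hσv x).symm.trans (congrArg Subtype.val hx)))

theorem pi_eq_one_of_involution_mem {u : G} (hu : u ∈ (F.T : Subgroup G))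
    (h : F.π ⟨u, F.hTN hu⟩ = 1) : u ∈ F.A := by
  obtain ⟨e, he, o, ho, h'⟩ := (F.π_eq_one _).1 h
  have h' : u = e * o := h'
  have hoT : o ∈ (F.T : Subgroup G) := by
    have := mul_mem (inv_mem (F.hAT he)) hu
    rwa [h', inv_mul_cancel_left] at this
  have hoo : orderOf o = 1 := by
    obtain ⟨k, hk⟩ := IsPGroup.iff_orderOf.1 F.T.2 ⟨o, hoT⟩
    rw [Subgroup.orderOf_mk] at hk
    refine Nat.eq_one_of_dvd_coprimes ?_ (dvd_of_eq hk) (orderOf_dvd_natCard F.O ho)
    exact Nat.Coprime.pow_left k (Nat.coprime_two_left.2 F.hO)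
  rw [h', orderOf_eq_one_iff.1 hoo, mul_one]
  exact he

theorem pi_ne_one {u : G} (hu : u ∈ (F.T : Subgroup G)) (hA : u ∉ F.A) :
    F.π ⟨u, F.hTN hu⟩ ≠ 1 := fun h => hA (F.pi_eq_one_of_involution_mem hu h)

/-- The commutator map `a ↦ a (u a u⁻¹)`. -/
def comMap (u : ↥(normalizer (F.A : Set G))) : F.A →* F.A where
  toFun a := a * F.A.normalizerMonoidHom u a
  map_one' := by rw [map_one, mul_one]
  map_mul' a b := by
    rw [map_mul]
    refine Subtype.ext ?_
    set p := ((F.A.normalizerMonoidHom u a : F.A) : G)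
    set q := ((F.A.normalizerMonoidHom u b : F.A) : G)
    have hp : p ∈ F.A := (F.A.normalizerMonoidHom u a).2
    change (a : G) * b * (p * q) = a * p * (b * q)
    calc (a : G) * b * (p * q) = a * (b * p) * q := by group
      _ = a * (p * b) * q := by rw [F.comm b.2 hp]
      _ = _ := by group

theorem comMap_val (u : ↥(normalizer (F.A : Set G))) (a : F.A) :
    ((F.comMap u a : F.A) : G) = a * ((u : G) * a * (u : G)⁻¹) := rfl

/-- An involution outside `A` fixes exactly four elements of `A`, which are the commutators. -/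
theorem fix_involution {u : G} (hu : u ∈ (F.T : Subgroup G)) (hA : u ∉ F.A)
    (hu2 : orderOf u = 2) :
    Nat.card ↥(F.A ⊓ centralizer ({u} : Set G)) = 4 ∧
      ∀ c ∈ F.A ⊓ centralizer ({u} : Set G), ∃ a ∈ F.A, a * (u * a * u⁻¹) = c := by
  set un : ↥(normalizer (F.A : Set G)) := ⟨u, F.hTN hu⟩
  have huu : u * u = 1 := CfsgLib.Involutions.mul_self_eq_one hu2
  have hui : u⁻¹ = u := inv_eq_of_mul_eq_one_left huu
  set f := F.comMap un
  set K := F.A ⊓ centralizer ({u} : Set G) with hK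
  have hker : Nat.card f.ker = Nat.card K := by
    rw [← card_map_of_injective (K := f.ker) F.A.subtype_injective]
    congr 2
    ext x
    simp only [mem_map, MonoidHom.mem_ker, hK, mem_inf, mem_cent_conj]
    constructor
    · rintro ⟨a, ha, rfl⟩
      have h : (a : G) * (u * a * u⁻¹) = 1 := congrArg Subtype.val ha
      refine ⟨a.2, ?_⟩
      have h' := eq_inv_of_mul_eq_one_right h
      rw [F.inv_eq a.2] at h'
      rw [coe_subtype]
      calc (a : G) * u * (a : G)⁻¹ = a * u * a := by rw [F.inv_eq a.2]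
        _ = a * (u * a * u⁻¹) * u := by group
        _ = u := by rw [h, one_mul]
    · rintro ⟨hx, hxu⟩
      refine ⟨⟨x, hx⟩, Subtype.ext ?_, rfl⟩
      rw [mul_inv_eq_iff_eq_mul] at hxu
      change x * (u * x * u⁻¹) = 1
      rw [show x * (u * x * u⁻¹) = (x * u) * x * u⁻¹ by group, hxu,
        show u * x * x * u⁻¹ = u * (x * x) * u⁻¹ by group, F.sq hx, mul_one, mul_inv_cancel]
  have hrange : f.range.map F.A.subtype ≤ K := by
    rintro _ ⟨_, ⟨a, rfl⟩, rfl⟩
    refine ⟨(f a).2, mem_cent_conj.2 ?_⟩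
    set b := u * a * u⁻¹ with hb
    have hbA : b ∈ F.A := F.mem_conj (F.hTN hu) a.2
    have hbu : u * b * u⁻¹ = a := by
      rw [hb, show u * (u * a * u⁻¹) * u⁻¹ = (u * u) * a * (u * u)⁻¹ by group, huu]; group
    have h : u * ((a : G) * b) * u⁻¹ = a * b := by
      rw [show u * ((a : G) * b) * u⁻¹ = (u * a * u⁻¹) * (u * b * u⁻¹) by group, ← hb, hbu,
        F.comm hbA a.2]
    change ((a : G) * b) * u * ((a : G) * b)⁻¹ = u
    rw [mul_inv_eq_iff_eq_mul] at h ⊢
    exact h.symm
  have hprod : Nat.card f.range * Nat.card K = 16 := by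
    rw [← hker, ← F.hA16, ← index_ker f, mul_comm, card_mul_index]
  have hle : Nat.card f.range ≤ Nat.card K := by
    rw [← card_map_of_injective (K := f.range) F.A.subtype_injective]
    exact card_le_of_le hrange
  have h4 : Nat.card K = 4 := by
    have h44 : 4 ≤ Nat.card K := by nlinarith
    by_contra hne
    have h8 : 8 ≤ Nat.card K := by
      obtain ⟨j, -, hj⟩ := (Nat.dvd_prime_pow Nat.prime_two).1
        (show Nat.card K ∣ 2 ^ 4 by
          norm_num; rw [← F.hA16]; exact card_dvd_of_le inf_le_left)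
      rw [hj] at h44 hne ⊢
      rcases Nat.lt_or_ge j 3 with h | h
      · interval_cases j <;> omega
      · exact le_trans (by norm_num) (Nat.pow_le_pow_right (by norm_num) h)
    -- a conjugate involution with product of order five
    have hs := F.pi_ne_one hu hA
    have hs2 : F.π un * F.π un = 1 := by
      rw [← map_mul, show un * un = 1 from Subtype.ext huu, map_one]
    obtain ⟨ρ, hρ, h5, hne1⟩ := order_five_product (F.π un : Equiv.Perm (Fin 5))
      (mem_alternatingGroup.1 (F.π un).2) (by simpa using congrArg Subtype.val hs2)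
      (fun h => hs (Subtype.ext h))
    obtain ⟨g, hg⟩ := F.π_surj ⟨ρ, mem_alternatingGroup.2 hρ⟩
    set u' : G := g * u * (g : G)⁻¹
    set K' := F.A ⊓ centralizer ({u'} : Set G)
    have hKK' : Nat.card K' = Nat.card K := by
      rw [← card_map_of_injective (K := K) (f := (MulAut.conj (g : G)).toMonoidHom) (MulAut.conj (g : G)).injective]
      congr 2
      ext x
      refine ⟨fun hx => ⟨(g : G)⁻¹ * x * g, ⟨?_, ?_⟩, ?_⟩, ?_⟩
      · have := F.mem_conj (inv_mem g.2) hx.1
        rwa [inv_inv] at this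
      · have h := mem_cent.1 hx.2
        refine mem_cent.2 ?_
        calc (g : G)⁻¹ * x * g * u = (g : G)⁻¹ * (x * u') * g := by simp only [u']; group
          _ = (g : G)⁻¹ * (u' * x) * g := by rw [h]
          _ = u * ((g : G)⁻¹ * x * g) := by simp only [u']; group
      · change (g : G) * ((g : G)⁻¹ * x * g) * (g : G)⁻¹ = x
        group
      · rintro ⟨y, hy, rfl⟩
        refine ⟨F.mem_conj g.2 hy.1, mem_cent.2 ?_⟩
        change (g : G) * y * (g : G)⁻¹ * u' = u' * ((g : G) * y * (g : G)⁻¹)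
        calc (g : G) * y * (g : G)⁻¹ * u' = g * (y * u) * (g : G)⁻¹ := by simp only [u']; group
          _ = g * (u * y) * (g : G)⁻¹ := by rw [mem_cent.1 hy.2]
          _ = _ := by simp only [u']; group
    obtain ⟨a, haK, haK', ha1⟩ : ∃ a ∈ K, a ∈ K' ∧ a ≠ 1 := by
      by_contra hcon
      push Not at hcon
      have hinj : Function.Injective (fun p : K × K' => ((⟨p.1, p.1.2.1⟩ : F.A) * ⟨p.2, p.2.2.1⟩)) := by
        rintro ⟨k, k'⟩ ⟨l, l'⟩ h
        have h' : (k : G) * k' = l * l' := congrArg Subtype.val h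
        have hh : (l : G)⁻¹ * k = (l' : G) * (k' : G)⁻¹ := by
          rw [eq_mul_inv_iff_mul_eq, mul_assoc, h', inv_mul_cancel_left]
        have hone := hcon _ (mul_mem (inv_mem l.2) k.2) (hh ▸ mul_mem l'.2 (inv_mem k'.2))
        refine Prod.ext (Subtype.ext (inv_mul_eq_one.1 hone).symm) (Subtype.ext ?_)
        rw [hh] at hone
        exact (mul_inv_eq_one.1 hone).symm
      have := Nat.card_le_card_of_injective _ hinj
      rw [Nat.card_prod, hKK', F.hA16] at this
      nlinarith
    have hau : u * a * u⁻¹ = a := by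
      rw [← mem_cent.1 haK.2, mul_inv_cancel_right]
    have hau' : u' * a * u'⁻¹ = a := by
      rw [← mem_cent.1 haK'.2, mul_inv_cancel_right]
    refine ha1 (F.fix_five (r := un * (g * un * g⁻¹)) ?_ ?_ haK.1 ?_)
    · refine Subtype.ext ?_
      simpa [map_mul, map_inv, hg] using h5
    · intro h
      refine hne1 ?_
      simpa [map_mul, map_inv, hg] using congrArg Subtype.val h
    · change u * u' * a * (u * u')⁻¹ = a
      rw [show u * u' * a * (u * u')⁻¹ = u * (u' * a * u'⁻¹) * u⁻¹ by group, hau', hau]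
  refine ⟨h4, fun c hc => ?_⟩
  have heq : f.range.map F.A.subtype = K := eq_of_le_of_card_ge hrange (by
    rw [card_map_of_injective F.A.subtype_injective]
    rw [h4] at hprod ⊢
    omega)
  rw [← heq] at hc
  obtain ⟨_, ⟨a, rfl⟩, rfl⟩ := hc
  exact ⟨a, a.2, rfl⟩

end Action

end CfsgLib.AEightThreeClasses
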