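import Cfsg.Agent.Lib.AEightThreeClasses.CentZ
import Cfsg.Agent.Lib.TwoFusion.IsolatedZStar
import Cfsg.Agent.Lib.Signalizer.ZStarInst

/-!
The centraliser of a pair `a = z₁ z₂`: the image of `z₁` is isolated modulo `⟨a⟩`, so the Z*
theorem reduces it to the centraliser of `z₁`. Then the global assembly.
-/

set_option autoImplicit false

namespace CfsgLib.AEightThreeClasses

open Subgroup Cfsg
open scoped symmDiff

universe u

variable {G : Type u} [Group G] [Finite G]

namespace Frame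

variable (F : Frame G)

theorem loc_single (i : Fin 5) : Loc (normalizer (F.A : Set G)) (F.cd {i}) := by
  obtain ⟨n, hn, h⟩ := F.exists_single_conj i
  have := F.loc_z.conj hn
  rwa [z, h] at this

/-- A singleton `y` commuting with `x` modulo `a`, where `a, x, a x` have types pair, singleton,
singleton, is `x` or `a x`. -/
theorem single_unique {x y : G} {p q : Fin 5} (hpq : p ≠ q) (hx : F.IsSingle x)
    (hxa : x * F.cd {p, q} = y) (hy : F.IsSingle y) : x = F.cd {p} ∨ x = F.cd {q} := by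
  obtain ⟨i, rfl⟩ := hx
  obtain ⟨j, rfl⟩ := hy
  rw [← F.cd_symm, F.cd_eq_iff] at hxa
  have key : ∀ p q i j : Fin 5, p ≠ q →
      (({i} : Finset (Fin 5)) ∆ {p, q} = {j} ∨ ({i} : Finset (Fin 5)) ∆ {p, q} = ({j} : Finset (Fin 5))ᶜ) →
        i = p ∨ i = q := by decide
  rcases key p q i j hpq hxa with rfl | rfl
  · exact Or.inl rfl
  · exact Or.inr rfl

theorem loc_pair : Loc (normalizer (F.A : Set G)) (F.cd {0, 1}) := by
  classical
  haveI : Fact (Nat.Prime 2) := ⟨Nat.prime_two⟩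
  set a := F.cd {0, 1} with ha
  set z1 := F.cd {0} with hz1
  set z2 := F.cd {1} with hz2
  have haA : a ∈ F.A := F.cd_mem _
  have haz : a = z1 * z2 := F.cd_pair (by decide)
  have hz1A : z1 ∈ F.A := F.cd_mem _
  have hz2A : z2 ∈ F.A := F.cd_mem _
  have haz1 : z1 * a = z2 := by rw [haz, ← mul_assoc, F.sq hz1A, one_mul]
  have haz2 : z2 * a = z1 := by
    rw [haz, F.comm hz1A hz2A, ← mul_assoc, F.sq hz2A, one_mul]
  set C := centralizer ({a} : Set G) with hC
  have hAC : ∀ e ∈ F.A, e ∈ C := fun e he => mem_cent.2 (F.comm he haA)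
  have hne : a ≠ 1 := fun h => by
    rcases (F.cd_eq_one _).1 h with h' | h' <;> revert h' <;> decide
  have haord : orderOf a = 2 := CfsgLib.Involutions.orderOf_eq_two_iff.2 ⟨F.sq haA, hne⟩
  set aC : C := ⟨a, mem_cent.2 rfl⟩ with haC
  have haCc : aC ∈ center C := mem_center_iff.2 fun c => Subtype.ext (mem_cent.1 c.2)
  set Z : Subgroup C := zpowers aC with hZ
  haveI : Z.Normal := ⟨fun x hx g => by
    have hxc : x ∈ center C := (zpowers_le.2 haCc) hx
    rw [mem_center_iff.1 hxc g, mul_inv_cancel_right]; exact hx⟩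
  have haa : aC * aC = 1 := Subtype.ext (F.sq haA)
  have hZmem : ∀ y : C, y ∈ Z → (y : G) = 1 ∨ (y : G) = a := by
    intro y hy
    obtain ⟨i, rfl⟩ := mem_zpowers_iff.1 hy
    rcases Int.even_or_odd i with ⟨j, rfl⟩ | ⟨j, rfl⟩
    · left; rw [← two_mul, zpow_mul, zpow_two, haa, one_zpow]; rfl
    · right; rw [zpow_add, zpow_mul, zpow_two, haa, one_zpow, one_mul, zpow_one]
  set f : C →* C ⧸ Z := QuotientGroup.mk' Z with hf
  set w : C := ⟨z1, hAC z1 hz1A⟩ with hw
  have hwi : w⁻¹ = w := Subtype.ext (F.inv_eq hz1A)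
  have hfa : f aC = 1 := (QuotientGroup.eq_one_iff _).2 (mem_zpowers _)
  -- the image of `z₁` is isolated
  have hiso : IsIsolatedInvolution (f w) := by
    refine ⟨CfsgLib.Involutions.orderOf_eq_two_iff.2 ⟨?_, fun h => ?_⟩, fun q hq => ?_⟩
    · rw [← map_mul, show w * w = 1 from Subtype.ext (F.sq hz1A), map_one]
    · have h1 : w ∈ Z := (QuotientGroup.eq_one_iff _).1 h
      rcases hZmem _ h1 with h2 | h2
      · exact F.single_ne_one ⟨0, rfl⟩ h2
      · rcases (F.cd_eq_iff {0} {0, 1}).1 h2 with h' | h' <;> revert h' <;> decide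
    · obtain ⟨g, rfl⟩ := QuotientGroup.mk'_surjective Z q
      set y : C := g * w * g⁻¹ with hy
      have hyv : (y : G) = (g : G) * z1 * (g : G)⁻¹ := rfl
      have hq' : f (w * y * w * y⁻¹) = 1 := by
        have hq : f w * (f g * f w * (f g)⁻¹) = f g * f w * (f g)⁻¹ * f w := hq
        rw [← map_inv, ← map_mul, ← map_mul, ← hy] at hq
        rw [map_mul, map_mul, map_mul, map_inv, hq, mul_assoc _ (f w) (f w), ← map_mul,
          show w * w = 1 from Subtype.ext (F.sq hz1A), map_one, mul_one, mul_inv_cancel]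
      have hyz : (y : G) * z1 * (y : G)⁻¹ = z1 ∨ (y : G) * z1 * (y : G)⁻¹ = z1 * a := by
        rcases hZmem _ ((QuotientGroup.eq_one_iff _).1 hq') with h | h
        · left
          have h : z1 * (y : G) * z1 * (y : G)⁻¹ = 1 := h
          have h' := eq_inv_of_mul_eq_one_right (show z1 * ((y : G) * z1 * (y : G)⁻¹) = 1 by
            rw [← h]; group)
          rwa [F.inv_eq hz1A] at h'
        · right
          have h : z1 * (y : G) * z1 * (y : G)⁻¹ = a := h
          rw [← h, show z1 * (z1 * (y : G) * z1 * (y : G)⁻¹) = (z1 * z1) * ((y : G) * z1 * (y : G)⁻¹)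
            by group, F.sq hz1A, one_mul]
      -- `y, z₁, a` generate a 2-group
      set E : Subgroup G := closure {z1, a} with hE
      have hEA : E ≤ F.A := (closure_le _).2 (by rintro x (rfl | rfl) <;> assumption)
      have hEp : IsPGroup 2 E := fun x => ⟨1, Subtype.ext (by
        rw [pow_one]; exact F.hA.2 _ (hEA x.2))⟩
      have hyE : (y : G) ∈ normalizer (E : Set G) := by
        refine CfsgLib.CoprimeAction.mem_normalizer_of_conj_mem fun x hx => ?_
        have hle : E ≤ E.comap (MulAut.conj (y : G)).toMonoidHom := by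
          refine (closure_le _).2 ?_
          rintro x (rfl | rfl)
          · change (y : G) * z1 * (y : G)⁻¹ ∈ E
            rcases hyz with h | h <;> rw [h]
            · exact subset_closure (Or.inl rfl)
            · exact mul_mem (subset_closure (Or.inl rfl)) (subset_closure (Or.inr rfl))
          · change (y : G) * a * (y : G)⁻¹ ∈ E
            rw [mem_cent_conj.1 y.2]
            exact subset_closure (Or.inr rfl)
        exact hle hx
      have hyo : orderOf (y : G) = 2 := by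
        rw [hy]; push_cast
        rw [CfsgLib.Involutions.orderOf_conj]
        exact F.single_orderOf ⟨0, rfl⟩
      have hp : IsPGroup 2 ↥(zpowers (y : G) ⊔ E) :=
        (IsPGroup.of_card (n := 1) (by rw [Nat.card_zpowers, hyo, pow_one])).to_sup_of_normal_right'
          hEp (zpowers_le.2 hyE)
      obtain ⟨Q, hQ⟩ := hp.exists_le_sylow
      obtain ⟨k, hk⟩ := MulAction.exists_smul_eq G Q F.T
      have hT : ∀ x ∈ zpowers (y : G) ⊔ E, k * x * k⁻¹ ∈ (F.T : Subgroup G) := fun x hx => by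
        rw [← hk]; exact ⟨x, hQ hx, rfl⟩
      have hz1' : k * z1 * k⁻¹ ∈ F.A :=
        F.strongly_closed.2 _ hz1A k (hT _ (mem_sup_right (subset_closure (Or.inl rfl))))
      have ha' : k * a * k⁻¹ ∈ F.A :=
        F.strongly_closed.2 _ haA k (hT _ (mem_sup_right (subset_closure (Or.inr rfl))))
      have hy' : k * (y : G) * k⁻¹ ∈ F.A := by
        have h := F.strongly_closed.2 _ hz1A (k * (g : G)) (by
          convert hT _ (mem_sup_left (mem_zpowers (y : G))) using 1
          rw [hyv]; group)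
        convert h using 1
        rw [hyv]; group
      have hsx : F.IsSingle (k * z1 * k⁻¹) :=
        F.single_of_isConj ⟨0, rfl⟩ hz1' (isConj_iff.2 ⟨k, rfl⟩)
      have hsxa : F.IsSingle (k * z1 * k⁻¹ * (k * a * k⁻¹)) :=
        F.single_of_isConj ⟨1, rfl⟩ (mul_mem hz1' ha') (isConj_iff.2 ⟨k, by
          rw [← hz2, ← haz1]; group⟩)
      have hsy : F.IsSingle (k * (y : G) * k⁻¹) :=
        F.single_of_isConj ⟨0, rfl⟩ hy' (isConj_iff.2 ⟨k * g, by
          rw [← hz1, hyv]; group⟩)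
      have hsya : F.IsSingle (k * (y : G) * k⁻¹ * (k * a * k⁻¹)) := by
        refine F.single_of_isConj ⟨1, rfl⟩ (mul_mem hy' ha') (isConj_iff.2 ⟨k * g, ?_⟩)
        rw [← hz2, ← haz1, hyv]
        conv_rhs => rw [show a = (g : G) * a * (g : G)⁻¹ from (mem_cent_conj.1 g.2).symm]
        group
      have hane : k * a * k⁻¹ ≠ 1 := fun h => hne (conj_eq_one_iff.1 h)
      obtain ⟨p, q, hpq, hpqe⟩ := (F.mem_cases ha' hane).resolve_left fun h => by
        have h01 := F.single_of_isConj h haA (isConj_iff.2 ⟨k⁻¹, by group⟩)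
        obtain ⟨i, hi⟩ := h01
        rw [ha, F.cd_eq_iff] at hi
        revert hi; revert i; decide
      have h1 := F.single_unique hpq hsx (by rw [← hpqe]) hsxa
      have h2 := F.single_unique hpq hsy (by rw [← hpqe]) hsya
      have hyc : k * (y : G) * k⁻¹ = k * z1 * k⁻¹ ∨
          k * (y : G) * k⁻¹ = k * z1 * k⁻¹ * (k * a * k⁻¹) := by
        rw [hpqe, F.cd_pair hpq]
        rcases h1 with h1 | h1 <;> rcases h2 with h2 | h2 <;> rw [h1, h2]
        · exact Or.inl rfl
        · exact Or.inr (by rw [← mul_assoc, F.sq (F.cd_mem _), one_mul])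
        · exact Or.inr (by rw [F.comm (F.cd_mem {p}) (F.cd_mem {q}), ← mul_assoc,
            F.sq (F.cd_mem _), one_mul])
        · exact Or.inl rfl
      change f g * f w * (f g)⁻¹ = f w
      rw [← map_inv, ← map_mul, ← map_mul, ← hy]
      rcases hyc with h | h
      · rw [show y = w from Subtype.ext (mul_left_cancel (mul_right_cancel h))]
      · have h' : (y : G) = z1 * a := by
          have : k * (y : G) * k⁻¹ = k * (z1 * a) * k⁻¹ := by rw [h]; group
          exact mul_left_cancel (mul_right_cancel this)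
        rw [show y = w * aC from Subtype.ext h', map_mul, hfa, mul_one]
  have hZS : CfsgLib.TwoFusion.ZStarStatement.{u} :=
    fun H _ _ P t ht htP h => CfsgLib.Signalizer.zStarTheorem H P t ht htP h
  -- every element permutes `z₁, z₂` modulo `O(C(a))`
  have hperm : ∀ g ∈ C, ∃ o ∈ Oc a, (o * g) * z1 * (o * g)⁻¹ = z1 ∨ (o * g) * z1 * (o * g)⁻¹ = z2 := by
    intro g hg
    have hmem := CfsgLib.TwoFusion.commutator_mem_oddCore hZS hiso (f ⟨g, hg⟩)
    rw [← map_inv, ← map_inv, ← map_mul, ← map_mul, ← map_mul] at hmem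
    obtain ⟨d, hd, hde⟩ := central_two_preimage (Z := Z) (c := aC) hZ
      (by rw [← Subgroup.orderOf_coe]; exact haord) haCc hmem
    have hdO : (d : G) ∈ Oc a := ⟨d, hd, rfl⟩
    -- `g z₁ g⁻¹ = d' w'` with `w' ∈ {z₁, z₂}`
    obtain ⟨w', hw', d', hd', hgw⟩ : ∃ w', (w' = z1 ∨ w' = z2) ∧ ∃ d' ∈ Oc a, g * z1 * g⁻¹ = d' * w' := by
      rcases hde with h | h
      · have h : z1 * g * z1⁻¹ * g⁻¹ = (d : G) := congrArg Subtype.val h
        refine ⟨z1, Or.inl rfl, z1 * d * z1⁻¹, (mem_normalizer_iff.1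
          (centralizer_le_normalizer_Oc a (hAC _ hz1A)) _).1 hdO, ?_⟩
        rw [← h, F.inv_eq hz1A]
        calc g * z1 * g⁻¹ = (z1 * z1) * g * z1 * g⁻¹ * (z1 * z1) := by
              rw [F.sq hz1A]; group
          _ = _ := by group
      · have h : z1 * g * z1⁻¹ * g⁻¹ = (d : G) * a := congrArg Subtype.val h
        refine ⟨z2, Or.inr rfl, z1 * d * z1⁻¹, (mem_normalizer_iff.1
          (centralizer_le_normalizer_Oc a (hAC _ hz1A)) _).1 hdO, ?_⟩
        rw [F.inv_eq hz1A] at h ⊢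
        calc g * z1 * g⁻¹ = (z1 * z1) * g * z1 * g⁻¹ := by rw [F.sq hz1A]; group
          _ = z1 * (z1 * g * z1 * g⁻¹) := by group
          _ = z1 * (d : G) * a := by rw [h]; group
          _ = z1 * (d : G) * z1 * (z1 * a) := by
              rw [show z1 * (d : G) * z1 * (z1 * a) = z1 * (d : G) * (z1 * z1) * a by group,
                F.sq hz1A, mul_one]
          _ = z1 * (d : G) * z1 * z2 := by rw [haz1]
    have hw2 : w' * w' = 1 := by rcases hw' with rfl | rfl; exacts [F.sq hz1A, F.sq hz2A]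
    obtain ⟨o, ho, hoe⟩ := exists_conj_of_mem_coset (odd_card_Oc a) hd' hw2 (by
      rw [← hgw, show g * z1 * g⁻¹ * (g * z1 * g⁻¹) = g * (z1 * z1) * g⁻¹ by group, F.sq hz1A]
      group)
    refine ⟨o⁻¹, inv_mem ho, ?_⟩
    have : o⁻¹ * g * z1 * (o⁻¹ * g)⁻¹ = w' := by
      calc o⁻¹ * g * z1 * (o⁻¹ * g)⁻¹ = o⁻¹ * (g * z1 * g⁻¹) * o := by group
        _ = o⁻¹ * (o * w' * o⁻¹) * o := by rw [hgw, hoe]
        _ = w' := by group
    rw [this]; exact hw'
  -- an element of `N` interchanging `z₁` and `z₂`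
  obtain ⟨n₀, hn₀⟩ := F.π_surj ⟨Equiv.swap 0 1 * Equiv.swap 2 3,
    Equiv.Perm.mem_alternatingGroup.2 (by decide)⟩
  have hn₀z : (n₀ : G) * z1 * (n₀ : G)⁻¹ = z2 ∧ (n₀ : G) * z2 * (n₀ : G)⁻¹ = z1 := by
    constructor <;> (simp only [hz1, hz2]; rw [F.cd_conj, hn₀, F.cd_eq_iff]; left; decide)
  have hn₀C : (n₀ : G) ∈ C := mem_cent_conj.2 (by
    conv_lhs => rw [haz, show (n₀ : G) * (z1 * z2) * (n₀ : G)⁻¹ =
      ((n₀ : G) * z1 * (n₀ : G)⁻¹) * ((n₀ : G) * z2 * (n₀ : G)⁻¹) by group, hn₀z.1, hn₀z.2,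
      F.comm hz2A hz1A, ← haz])
  -- the common centraliser
  set X := C ⊓ centralizer ({z1} : Set G) with hX
  set D := Oc z1 ⊓ C with hD
  have hXn : X ≤ normalizer (D : Set G) := fun x hx =>
    CfsgLib.CoprimeAction.mem_normalizer_of_conj_mem fun d hd =>
      ⟨(mem_normalizer_iff.1 (centralizer_le_normalizer_Oc z1 hx.2) d).1 hd.1,
        C.mul_mem (C.mul_mem hx.1 hd.2) (C.inv_mem hx.1)⟩
  have hX2 : ∀ x ∈ X, x * z2 * x⁻¹ = z2 := fun x hx => by
    rw [← haz1, show x * (z1 * a) * x⁻¹ = (x * z1 * x⁻¹) * (x * a * x⁻¹) by group,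
      mem_cent_conj.1 hx.2, mem_cent_conj.1 hx.1]
  have hn₀X : (n₀ : G) ∈ normalizer (X : Set G) :=
    CfsgLib.CoprimeAction.mem_normalizer_of_conj_mem fun x hx =>
      ⟨C.mul_mem (C.mul_mem hn₀C hx.1) (C.inv_mem hn₀C), mem_cent_conj.2 (by
        rw [show (n₀ : G) * x * (n₀ : G)⁻¹ * z1 * ((n₀ : G) * x * (n₀ : G)⁻¹)⁻¹ =
          n₀ * (x * ((n₀ : G)⁻¹ * z1 * n₀) * x⁻¹) * (n₀ : G)⁻¹ by group,
          show (n₀ : G)⁻¹ * z1 * n₀ = z2 by rw [← hn₀z.2]; group, hX2 x hx]
        exact hn₀z.2)⟩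
  -- `K₁ = O(C(a)) X` is normal in `C(a)`
  set K1 := Oc a ⊔ X with hK1
  have hK1C : K1 ≤ C := sup_le (Oc_le a) inf_le_left
  have hdec : ∀ g ∈ C, ∃ o ∈ Oc a, ∃ x ∈ X, g = o * x ∨ g = o * (n₀ * x) := by
    intro g hg
    obtain ⟨o, ho, hoz⟩ := hperm g hg
    have hog : o * g ∈ C := mul_mem (Oc_le a ho) hg
    rcases hoz with h | h
    · exact ⟨o⁻¹, inv_mem ho, o * g, ⟨hog, mem_cent_conj.2 h⟩, Or.inl (by group)⟩
    · refine ⟨o⁻¹, inv_mem ho, (n₀ : G)⁻¹ * (o * g),
        ⟨C.mul_mem (C.inv_mem hn₀C) hog, mem_cent_conj.2 ?_⟩, Or.inr (by group)⟩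
      calc (n₀ : G)⁻¹ * (o * g) * z1 * ((n₀ : G)⁻¹ * (o * g))⁻¹
          = (n₀ : G)⁻¹ * (o * g * z1 * (o * g)⁻¹) * n₀ := by group
        _ = (n₀ : G)⁻¹ * z2 * n₀ := by rw [h]
        _ = z1 := by rw [← hn₀z.1]; group
  have hCK1 : C ≤ normalizer (K1 : Set G) := by
    intro g hg
    have hn : ∀ m ∈ C, m ∈ normalizer (X : Set G) → m ∈ normalizer (K1 : Set G) := fun m hm hmX => by
      refine CfsgLib.CoprimeAction.mem_normalizer_of_conj_mem fun x hx => ?_
      have hle : K1 ≤ K1.comap (MulAut.conj m).toMonoidHom :=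
        sup_le (fun y hy => mem_sup_left
            ((mem_normalizer_iff.1 (centralizer_le_normalizer_Oc a hm) y).1 hy))
          (fun y hy => mem_sup_right ((mem_normalizer_iff.1 hmX y).1 hy))
      exact hle hx
    obtain ⟨o, ho, x, hx, rfl | rfl⟩ := hdec g hg
    · exact mul_mem (le_normalizer (mem_sup_left ho)) (hn x hx.1 (le_normalizer hx))
    · exact mul_mem (le_normalizer (mem_sup_left ho))
        (mul_mem (hn _ hn₀C hn₀X) (hn x hx.1 (le_normalizer hx)))
  have hDle : D ≤ Oc a := by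
    set L := Oc a ⊔ D with hL
    have hLK : L ≤ K1 := sup_le le_sup_left fun d hd => mem_sup_right ⟨hd.2, Oc_le z1 hd.1⟩
    have hDO : D ≤ normalizer (Oc a : Set G) := inf_le_right.trans (centralizer_le_normalizer_Oc a)
    have hLodd : Odd (Nat.card L) := by
      have := CfsgLib.Cores.card_sup_dvd (D.subgroupOf (normalizer (Oc a : Set G)))
        ((Oc a).subgroupOf (normalizer (Oc a : Set G)))
      rw [← subgroupOf_sup hDO le_normalizer,
        Nat.card_congr (subgroupOfEquivOfLe (sup_le hDO le_normalizer)).toEquiv,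
        Nat.card_congr (subgroupOfEquivOfLe hDO).toEquiv,
        Nat.card_congr (subgroupOfEquivOfLe (le_normalizer (H := Oc a))).toEquiv,
        sup_comm] at this
      exact (((odd_card_Oc z1).of_dvd_nat (card_dvd_of_le inf_le_left)).mul
        (odd_card_Oc a)).of_dvd_nat this
    have hLn : K1 ≤ normalizer (L : Set G) := sup_le
      (fun o ho => le_normalizer (mem_sup_left ho))
      (fun x hx => CfsgLib.CoprimeAction.mem_normalizer_of_conj_mem fun y hy => by
        have hle : L ≤ L.comap (MulAut.conj x).toMonoidHom :=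
          sup_le (fun e he => mem_sup_left
              ((mem_normalizer_iff.1 (centralizer_le_normalizer_Oc a hx.1) e).1 he))
            (fun e he => mem_sup_right ((mem_normalizer_iff.1 (hXn hx) e).1 he))
        exact hle hy)
    haveI := normal_subgroupOf_of_le_normalizer hLn
    have h1 : L.subgroupOf K1 ≤ oddCore K1 :=
      CfsgLib.Cores.le_oddCore (by rwa [Nat.card_congr (subgroupOfEquivOfLe hLK).toEquiv])
    have h2 : (oddCore K1).map K1.subtype ≤ Oc a := by
      refine le_Oc ((map_subtype_le _).trans hK1C) (hCK1.trans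
        (CfsgLib.Cores.normalizer_le_normalizer_map_subtype K1 (oddCore K1)
          (hC := CfsgLib.Cores.pPrimeCore_characteristic 2 K1))) ?_
      rw [card_map_of_injective K1.subtype_injective]; exact CfsgLib.Cores.odd_card_oddCore
    intro d hd
    exact h2 ⟨⟨d, hLK (mem_sup_right hd)⟩, h1 (mem_sup_right hd), rfl⟩
  have hXdec : ∀ x ∈ X, ∃ o ∈ Oc a, ∃ n ∈ normalizer (F.A : Set G), n ∈ C ∧ x = o * n := by
    intro x hx
    obtain ⟨o, ho, n, hn, rfl⟩ := F.loc_single 0 x hx.2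
    have hnz : n ∈ centralizer ({z1} : Set G) := by
      have := mul_mem (inv_mem (Oc_le z1 ho)) hx.2
      rwa [inv_mul_cancel_left] at this
    have hnA : n * a * n⁻¹ ∈ F.A := F.mem_conj hn haA
    -- `n` fixes `a`
    have hna : n * a * n⁻¹ * a = 1 := by
      have hE : ∀ e ∈ F.A, e ∈ centralizer ({z1} : Set G) := fun e he => mem_cent.2 (F.comm he hz1A)
      refine eq_one_of_div_mem_sub (Oc_le z1) (centralizer_le_normalizer_Oc z1)
        (odd_card_Oc z1) (hE _ (mul_mem hnA haA)) (one_mem _) (F.sq (mul_mem hnA haA)) (by simp) ?_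
      have h := mem_cent_conj.1 hx.1
      have he : n * a * n⁻¹ = o⁻¹ * a * o := by
        rw [show n * a * n⁻¹ = o⁻¹ * (o * n * a * (o * n)⁻¹) * o by group, h]
      rw [inv_one, mul_one, he]
      have : o⁻¹ * a * o * a = o⁻¹ * (a * o * a⁻¹) := by
        rw [F.inv_eq haA]; group
      rw [this]
      exact mul_mem (inv_mem ho)
        ((mem_normalizer_iff.1 (centralizer_le_normalizer_Oc z1 (hE a haA)) o).1 ho)
    have hnC : n ∈ C := mem_cent_conj.2 (by
      have := eq_inv_of_mul_eq_one_left hna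
      rwa [F.inv_eq haA] at this)
    have hoC : o ∈ C := by
      have := C.mul_mem hx.1 (C.inv_mem hnC)
      rwa [mul_inv_cancel_right] at this
    exact ⟨o, hDle ⟨ho, hoC⟩, n, hn, hnC, rfl⟩
  intro g hg
  obtain ⟨o, ho, x, hx, rfl | rfl⟩ := hdec g hg
  · obtain ⟨o', ho', n, hn, -, rfl⟩ := hXdec x hx
    exact ⟨o * o', mul_mem ho ho', n, hn, by group⟩
  · obtain ⟨o', ho', n, hn, -, rfl⟩ := hXdec x hx
    exact ⟨o * ((n₀ : G) * o' * (n₀ : G)⁻¹),
      mul_mem ho ((mem_normalizer_iff.1 (centralizer_le_normalizer_Oc a hn₀C) o').1 ho'),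
      (n₀ : G) * n, mul_mem n₀.2 hn, by group⟩

theorem loc_mem {x : G} (hx : x ∈ F.A) (hx1 : x ≠ 1) : Loc (normalizer (F.A : Set G)) x := by
  rcases F.mem_cases hx hx1 with ⟨i, rfl⟩ | ⟨i, j, hij, rfl⟩
  · exact F.loc_single i
  · obtain ⟨n, hn, h⟩ := F.exists_pair_conj hij
    rw [← h]
    exact F.loc_pair.conj hn

/-- `G = O(G) N(A)`. -/
theorem decomposition : ∀ g : G, ∃ w ∈ oddCore G, ∃ n ∈ normalizer (F.A : Set G), g = w * n := by
  refine exists_oddCore_mul_normalizer F.T F.hA (by rw [F.hA16]; norm_num) F.strongly_closed F.O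
    F.hO F.hON F.hOC (fun x hx => ?_) (fun a ha ha1 => F.loc_mem ha ha1)
    (fun t ht htA ht2 => ⟨F.loc_out ht htA ht2, ?_⟩) ?_
  · have hxN : x ∈ normalizer (F.A : Set G) := centralizer_le_normalizer _ hx
    have h := F.pi_eq_one_of_centralizes (n := ⟨x, hxN⟩) fun b hb => by
      change x * b * x⁻¹ = b
      rw [← mem_centralizer_iff.1 hx b hb, mul_inv_cancel_right]
    exact (F.π_eq_one _).1 h
  · obtain ⟨h4, -⟩ := F.fix_involution ht htA ht2
    intro hc
    obtain ⟨c, hc⟩ := hc.exists_generator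
    have h1 : Nat.card ↥(F.A ⊓ centralizer ({t} : Set G)) = orderOf c :=
      (orderOf_eq_card_of_forall_mem_zpowers hc).symm
    have h2 : orderOf c ∣ 2 := orderOf_dvd_of_pow_eq_one (Subtype.ext (F.hA.2 _ c.2.1))
    have h3 := Nat.le_of_dvd (by norm_num) h2
    omega
  · exact ⟨F.cd {4}, F.cd {0, 1}, F.z_orderOf,
      CfsgLib.Involutions.orderOf_eq_two_iff.2 ⟨F.sq (F.cd_mem _), fun h => by
        rcases (F.cd_eq_one _).1 h with h' | h' <;> revert h' <;> decide⟩, F.not_conj_pair⟩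

end Frame

end CfsgLib.AEightThreeClasses
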