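import Cfsg.Agent.Lib.AEightThreeClasses.Four
import Cfsg.Agent.Lib.AEightThreeClasses.Closed
import Cfsg.Agent.Lib.Transfer.Abelian

/-!
The centraliser of a singleton: transfer gives a normal subgroup `K` with Sylow subgroup `M`; in
`K / ⟨z⟩` every involution centraliser has a normal 2-complement, so `M` is normal modulo the odd
core.
-/

set_option autoImplicit false

namespace CfsgLib.AEightThreeClasses

open Subgroup Cfsg
open scoped commutatorElement

universe u

variable {G : Type u} [Group G] [Finite G]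

namespace Frame

variable (F : Frame G)

theorem Half.T_inf_commutator (H : F.Half) :
    ∀ x ∈ (F.T : Subgroup G),
      x ∈ ⁅centralizer ({F.z} : Set G), centralizer ({F.z} : Set G)⁆ → x ∈ H.M := by
  haveI : Fact (Nat.Prime 2) := ⟨Nat.prime_two⟩
  intro x hx hxc
  set C := centralizer ({F.z} : Set G) with hC
  let P : Sylow 2 C := F.T.subtype F.T_le_cent
  rw [← map_subtype_commutator] at hxc
  obtain ⟨y, hy, rfl⟩ := hxc
  have hyP : y ∈ (P : Subgroup C) := hx
  have hfoc : y ∈ (P : Subgroup C).focalSubgroup := by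
    rw [← commutator_inf_eq_focalSubgroup]; exact ⟨hy, hyP⟩
  rw [focalSubgroup_def] at hfoc
  suffices hle : closure {g | g ∈ (P : Subgroup C) ∧ ∃ x ∈ (P : Subgroup C), ∃ u : C, g = ⁅x, u⁆} ≤
      H.M.subgroupOf C from hle hfoc
  rw [closure_le]
  rintro g ⟨hg, a, ha, u, rfl⟩
  change (a : G) * u * (a : G)⁻¹ * (u : G)⁻¹ ∈ H.M
  have hga : (a : G) * u * (a : G)⁻¹ * (u : G)⁻¹ ∈ (F.T : Subgroup G) := hg
  have hb : (u : G) * (a : G)⁻¹ * (u : G)⁻¹ ∈ (F.T : Subgroup G) := by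
    have := mul_mem (inv_mem (show (a : G) ∈ (F.T : Subgroup G) from ha)) hga
    rwa [show (a : G)⁻¹ * ((a : G) * u * (a : G)⁻¹ * (u : G)⁻¹) = (u : G) * (a : G)⁻¹ * (u : G)⁻¹
      by group] at this
  have huz : (u : G) * F.z * (u : G)⁻¹ = F.z := mem_cent_conj.1 u.2
  obtain ⟨n, hn, hnB⟩ := F.control {(a : G)⁻¹, F.z}
    (by rintro b (rfl | rfl); exacts [inv_mem ha, F.hAT F.z_mem]) (u : G)
    (by rintro b (rfl | rfl); exacts [hb, by rw [huz]; exact F.hAT F.z_mem])
  have hnz : n * F.z * n⁻¹ = F.z := (hnB _ (Or.inr rfl)).trans huz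
  rw [show (a : G) * u * (a : G)⁻¹ * (u : G)⁻¹ = (a : G) * (n * (a : G)⁻¹ * n⁻¹) by
    rw [hnB _ (Or.inl rfl)]; group]
  rw [← hnB _ (Or.inl rfl)] at hb
  by_cases haM : (a : G) ∈ H.M
  · exact mul_mem haM (H.invariant n hn hnz _ (inv_mem haM) hb)
  · have hbM : n * (a : G)⁻¹ * n⁻¹ ∉ H.M := fun h => by
      have hz' : n⁻¹ * F.z * n⁻¹⁻¹ = F.z := by
        conv_lhs => rw [← hnz]
        group
      have hainv : n⁻¹ * (n * (a : G)⁻¹ * n⁻¹) * n⁻¹⁻¹ = (a : G)⁻¹ := by group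
      have := H.invariant n⁻¹ (inv_mem hn) hz' _ h (by rw [hainv]; exact inv_mem ha)
      rw [hainv] at this
      exact haM (inv_mem_iff.1 this)
    have h1 := H.split _ hb hbM
    have h2 := H.split _ (inv_mem (show (a : G) ∈ (F.T : Subgroup G) from ha))
      (fun h => haM (inv_mem_iff.1 h))
    have := mul_mem (inv_mem h2) h1
    rwa [show (F.cd {0} * (a : G)⁻¹)⁻¹ * (F.cd {0} * (n * (a : G)⁻¹ * n⁻¹)) =
      (a : G) * (n * (a : G)⁻¹ * n⁻¹) by group] at this

/-- An element normalising `M` and fixing an element of `M \ ⟨z⟩` modulo `⟨z⟩` acts on `M` as an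
element of `T`. -/
theorem Half.acts_as_T (H : F.Half) {g x : G} (hg : g ∈ centralizer ({F.z} : Set G))
    (hgM : ∀ m ∈ H.M, g * m * g⁻¹ ∈ H.M) (hx : x ∈ H.M) (hx1 : x ≠ 1) (hxz : x ≠ F.z)
    (hfix : g * x * g⁻¹ = x ∨ g * x * g⁻¹ = x * F.z) :
    ∃ t ∈ (F.T : Subgroup G), ∀ m ∈ H.M, g * m * g⁻¹ = t * m * t⁻¹ := by
  obtain ⟨n, hn, hnM⟩ := F.control (H.M : Set G) H.M_le g fun b hb => H.M_le (hgM b hb)
  have hnz : n * F.z * n⁻¹ = F.z := (hnM _ H.z_mem).trans (mem_cent_conj.1 hg)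
  have h4 := F.pi_fix_four hn hnz
  have h2 : (F.π ⟨n, hn⟩ : Equiv.Perm (Fin 5)) * F.π ⟨n, hn⟩ = 1 := by
    rw [← hnM x hx] at hfix
    by_cases hxA : x ∈ F.A
    · obtain ⟨s, hs, rfl⟩ := H.inf_A x hx hxA
      have hz : F.z = F.cd {4} := rfl
      rw [F.cd_conj' hn, hz, ← F.cd_symm, F.cd_eq_iff, F.cd_eq_iff] at hfix
      refine partition_stab _ (Equiv.Perm.mem_alternatingGroup.1 (F.π ⟨n, hn⟩).2) h4 s hs
        (fun h => hx1 ((F.cd_eq_one _).2 (Or.inl h)))
        (fun h => hx1 ((F.cd_eq_one _).2 (Or.inr h))) (fun h => hxz (by rw [h]; rfl))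
        (fun h => hxz (by rw [h, F.cd_compl]; rfl)) ?_
      rcases hfix with (h | h) | (h | h)
      · exact Or.inl h
      · exact Or.inr (Or.inl h)
      · exact Or.inr (Or.inr (Or.inl h))
      · exact Or.inr (Or.inr (Or.inr h))
    · have hxT := H.M_le hx
      have hzA : (F.π ⟨F.z, F.A_le F.z_mem⟩ : Equiv.Perm (Fin 5)) = 1 := congrArg Subtype.val
        ((F.π_eq_one ⟨F.z, F.A_le F.z_mem⟩).2 ⟨F.z, F.z_mem, 1, one_mem _, (mul_one _).symm⟩)
      have hcomm : (F.π ⟨x, F.hTN hxT⟩ : Equiv.Perm (Fin 5)) * F.π ⟨n, hn⟩ =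
          F.π ⟨n, hn⟩ * F.π ⟨x, F.hTN hxT⟩ := by
        have hπ : (F.π (⟨n, hn⟩ * ⟨x, F.hTN hxT⟩ * ⟨n, hn⟩⁻¹) : Equiv.Perm (Fin 5)) =
            F.π ⟨x, F.hTN hxT⟩ := by
          rcases hfix with h | h
          · rw [show (⟨n, hn⟩ * ⟨x, F.hTN hxT⟩ * ⟨n, hn⟩⁻¹ : ↥(normalizer (F.A : Set G))) =
              ⟨x, F.hTN hxT⟩ from Subtype.ext h]
          · rw [show (⟨n, hn⟩ * ⟨x, F.hTN hxT⟩ * ⟨n, hn⟩⁻¹ : ↥(normalizer (F.A : Set G))) =
              ⟨x, F.hTN hxT⟩ * ⟨F.z, F.A_le F.z_mem⟩ from Subtype.ext h, map_mul,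
              Subgroup.coe_mul, hzA, mul_one]
        simp only [map_mul, map_inv, Subgroup.coe_mul, Subgroup.coe_inv] at hπ
        exact (mul_inv_eq_iff_eq_mul.1 hπ).symm
      exact (commute_fix _ _ (Equiv.Perm.mem_alternatingGroup.1 (F.π ⟨x, F.hTN hxT⟩).2)
        (F.T_pi_sq hxT) (fun h => F.pi_ne_one hxT hxA (Subtype.ext h)) (F.T_fix x hxT)
        (Equiv.Perm.mem_alternatingGroup.1 (F.π ⟨n, hn⟩).2) hcomm).2
  obtain ⟨t, ht, o, ho, rfl⟩ := F.exists_T_O hn h4 h2
  refine ⟨t, ht, fun m hm => ?_⟩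
  have hom : o * m * o⁻¹ = m := by
    refine F.O_fix ho (H.M_le hm) ?_
    rw [show o * m * o⁻¹ = t⁻¹ * (t * o * m * (t * o)⁻¹) * t by group, hnM m hm]
    exact mul_mem (mul_mem (inv_mem ht) (H.M_le (hgM m hm))) ht
  rw [← hnM m hm, show t * o * m * (t * o)⁻¹ = t * (o * m * o⁻¹) * t⁻¹ by group, hom]

/-- The structure of `C(z)`. -/
theorem loc_z : Loc (normalizer (F.A : Set G)) F.z := by
  classical
  haveI : Fact (Nat.Prime 2) := ⟨Nat.prime_two⟩
  obtain ⟨H⟩ := F.exists_half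
  set C := centralizer ({F.z} : Set G) with hC
  have hTC : (F.T : Subgroup G) ≤ C := F.T_le_cent
  have hMC : H.M ≤ C := H.M_le.trans hTC
  set K : Subgroup G := ⁅C, C⁆ ⊔ H.M with hK
  have hKC : K ≤ C := sup_le (commutator_le.2 fun a ha b hb => by
    rw [commutatorElement_def]
    exact mul_mem (mul_mem (mul_mem ha hb) (inv_mem ha)) (inv_mem hb)) hMC
  have hMK : H.M ≤ K := le_sup_right
  have hKn : C ≤ normalizer (K : Set G) := by
    intro c hc
    refine CfsgLib.CoprimeAction.mem_normalizer_of_conj_mem fun x hx => ?_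
    have h : c * x * c⁻¹ = ⁅c, x⁆ * x := by rw [commutatorElement_def]; group
    rw [h]
    exact mul_mem (mem_sup_left (commutator_mem_commutator hc (hKC hx))) hx
  have hDn : C ≤ normalizer ((⁅C, C⁆ : Subgroup G) : Set G) := fun c hc =>
    CfsgLib.CoprimeAction.mem_normalizer_of_conj_mem fun x hx => by
      have hxC : x ∈ C := (commutator_le.2 fun a ha b hb => by
        rw [commutatorElement_def]
        exact mul_mem (mul_mem (mul_mem ha hb) (inv_mem ha)) (inv_mem hb)) hx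
      rw [show c * x * c⁻¹ = ⁅c, x⁆ * x by rw [commutatorElement_def]; group]
      exact mul_mem (commutator_mem_commutator hc hxC) hx
  have hKT : ∀ x ∈ K, x ∈ (F.T : Subgroup G) → x ∈ H.M := by
    intro x hx hxT
    rw [hK, ← SetLike.mem_coe, sup_comm, coe_mul_of_left_le_normalizer_right H.M ⁅C, C⁆
      (hMC.trans hDn), Set.mem_mul] at hx
    obtain ⟨m, hm, d, hd, rfl⟩ := hx
    have hdT : d ∈ (F.T : Subgroup G) := by
      have := mul_mem (inv_mem (H.M_le hm)) hxT
      rwa [inv_mul_cancel_left] at this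
    exact mul_mem hm (H.T_inf_commutator F d hdT hd)
  -- `M` is a Sylow subgroup of `K`
  obtain ⟨PK, hPK⟩ := ((F.T.2.to_le H.M_le).comap_of_injective K.subtype
    K.subtype_injective).exists_le_sylow
  have hPKeq : (PK : Subgroup K) = H.M.subgroupOf K := by
    refine le_antisymm ?_ hPK
    obtain ⟨T', hT'⟩ := (PK.2.map K.subtype).exists_le_sylow
    have hT'C : IsPGroup 2 ↥(((PK : Subgroup K).map K.subtype).subgroupOf C) :=
      (PK.2.map K.subtype).comap_of_injective C.subtype C.subtype_injective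
    obtain ⟨Q, hQ⟩ := hT'C.exists_le_sylow
    obtain ⟨⟨c, hc⟩, hcQ⟩ := MulAction.exists_smul_eq C Q (F.T.subtype hTC)
    have hmap : ∀ p ∈ (PK : Subgroup K), c * (p : G) * c⁻¹ ∈ H.M := by
      intro p hp
      refine hKT _ ((mem_normalizer_iff.1 (hKn hc) _).1 p.2) ?_
      have : (⟨c, hc⟩ : C) * ⟨p, hKC p.2⟩ * (⟨c, hc⟩ : C)⁻¹ ∈ (F.T.subtype hTC : Subgroup C) := by
        rw [← hcQ]
        exact ⟨_, hQ (show (⟨p, hKC p.2⟩ : C) ∈ ((PK : Subgroup K).map K.subtype).subgroupOf C from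
          ⟨p, hp, rfl⟩), rfl⟩
      exact this
    have hle := Nat.card_le_card_of_injective
      (fun p : (PK : Subgroup K) => (⟨_, hmap _ p.2⟩ : H.M)) (fun p q h => by
        have h' := congrArg Subtype.val h
        exact Subtype.ext (Subtype.ext (mul_left_cancel (mul_right_cancel h'))))
    refine (eq_of_le_of_card_ge hPK ?_).ge
    change _ ≤ Nat.card (H.M.subgroupOf K)
    rwa [Nat.card_congr (subgroupOfEquivOfLe hMK).toEquiv]
  -- the quotient by `⟨z⟩`
  set zK : K := ⟨F.z, hMK H.z_mem⟩ with hzK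
  have hzKc : zK ∈ center K := mem_center_iff.2 fun k => Subtype.ext (mem_cent.1 (hKC k.2))
  set Z : Subgroup K := zpowers zK with hZ
  haveI : Z.Normal := ⟨fun x hx g => by
    have hxc : x ∈ center K := (zpowers_le.2 hzKc) hx
    rw [mem_center_iff.1 hxc g, mul_inv_cancel_right]; exact hx⟩
  have hzz : zK * zK = 1 := Subtype.ext (F.sq F.z_mem)
  have hZmem : ∀ y : K, y ∈ Z → (y : G) = 1 ∨ (y : G) = F.z := by
    intro y hy
    obtain ⟨i, rfl⟩ := mem_zpowers_iff.1 hy
    rcases Int.even_or_odd i with ⟨j, rfl⟩ | ⟨j, rfl⟩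
    · left; rw [← two_mul, zpow_mul, zpow_two, hzz, one_zpow]; rfl
    · right; rw [zpow_add, zpow_mul, zpow_two, hzz, one_zpow, one_mul, zpow_one]
  set f : K →* K ⧸ Z := QuotientGroup.mk' Z with hf
  have hfsurj : Function.Surjective f := QuotientGroup.mk'_surjective Z
  have hfeq : ∀ a b : K, f a = f b → (a : G) = b ∨ (a : G) = b * F.z := by
    intro a b h
    have h1 : b⁻¹ * a ∈ Z := QuotientGroup.eq.1 h.symm
    rcases hZmem _ h1 with h2 | h2
    · left
      have h2 : (b : G)⁻¹ * a = 1 := h2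
      exact (inv_mul_eq_one.1 h2).symm
    · right
      have h2 : (b : G)⁻¹ * a = F.z := h2
      rw [← h2, mul_inv_cancel_left]
  let S : Sylow 2 (K ⧸ Z) := PK.mapSurjective hfsurj
  have hSmem : ∀ y, y ∈ (S : Subgroup (K ⧸ Z)) ↔ ∃ k : K, (k : G) ∈ H.M ∧ f k = y := fun y => by
    rw [Sylow.coe_mapSurjective, mem_map, hPKeq]
    exact ⟨fun ⟨k, hk, h⟩ => ⟨k, hk, h⟩, fun ⟨k, hk, h⟩ => ⟨k, hk, h⟩⟩
  have hSA : IsElementaryAbelian 2 (S : Subgroup (K ⧸ Z)) := by
    have hexp : ∀ y ∈ (S : Subgroup (K ⧸ Z)), y ^ 2 = 1 := fun y hy => by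
      obtain ⟨k, hk, rfl⟩ := (hSmem y).1 hy
      rw [← map_pow, hf, QuotientGroup.mk'_apply, QuotientGroup.eq_one_iff]
      rcases H.sq_mem _ hk with h | h
      · rw [show k ^ 2 = 1 from Subtype.ext (by rw [pow_two]; exact h)]; exact one_mem _
      · rw [show k ^ 2 = zK from Subtype.ext (by rw [pow_two]; exact h)]; exact mem_zpowers _
    refine ⟨⟨⟨fun a b => ?_⟩⟩, hexp⟩
    have ha := hexp _ a.2
    have hb := hexp _ b.2
    have hab := hexp _ (a * b).2
    refine Subtype.ext ?_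
    rw [pow_two] at ha hb hab
    have h' := eq_inv_of_mul_eq_one_left hab
    rw [Subgroup.coe_mul, mul_inv_rev, inv_eq_of_mul_eq_one_left ha,
      inv_eq_of_mul_eq_one_left hb] at h'
    rw [Subgroup.coe_mul, Subgroup.coe_mul]
    exact h'
  have hS8 : 8 ≤ Nat.card (S : Subgroup (K ⧸ Z)) := by
    -- `|M| = 32`
    have hM : 32 ≤ Nat.card H.M := by
      have hcov : ∀ t : (F.T : Subgroup G), (t : G) ∈ H.M ∨ F.cd {0} * t ∈ H.M := fun t =>
        (em ((t : G) ∈ H.M)).imp id (H.split _ t.2)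
      have hinj : Function.Injective (fun t : (F.T : Subgroup G) =>
          (if h : (t : G) ∈ H.M then ((⟨t, h⟩ : H.M), false)
           else ((⟨_, (hcov t).resolve_left h⟩ : H.M), true))) := by
        intro a b h
        by_cases ha : (a : G) ∈ H.M <;> by_cases hb : (b : G) ∈ H.M <;> simp [ha, hb] at h
        · exact h
        · exact h
      have := Nat.card_le_card_of_injective _ hinj
      rw [F.hT, Nat.card_prod, show Nat.card Bool = 2 by simp] at this
      omega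
    have hker : Nat.card H.M ≤ Nat.card (S : Subgroup (K ⧸ Z)) * 2 := by
      have hinj : Function.Injective (fun m : H.M =>
          ((⟨f ⟨m, hMK m.2⟩, (hSmem _).2 ⟨_, m.2, rfl⟩⟩ : (S : Subgroup (K ⧸ Z))),
            decide ((Classical.choose (hfsurj (f ⟨m, hMK m.2⟩)) : K) = (m : G)))) := by
        intro a b h
        simp only [Prod.mk.injEq, Subtype.mk.injEq, decide_eq_decide] at h
        obtain ⟨h1, h2⟩ := h
        have hca := hfeq _ _ (Classical.choose_spec (hfsurj (f ⟨(a : G), hMK a.2⟩)))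
        have hcb := hfeq _ _ (Classical.choose_spec (hfsurj (f ⟨(b : G), hMK b.2⟩)))
        rw [h1] at h2 hca
        refine Subtype.ext ?_
        set c : G := ((Classical.choose (hfsurj (f ⟨(b : G), hMK b.2⟩)) : K) : G)
        by_cases hc : c = a
        · exact hc.symm.trans (h2.1 hc)
        · have hc' : c ≠ b := fun h => hc (h2.2 h)
          have ea : c = a * F.z := hca.resolve_left hc
          have eb : c = b * F.z := hcb.resolve_left hc'
          exact mul_right_cancel (ea.symm.trans eb)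
      have := Nat.card_le_card_of_injective _ hinj
      rwa [Nat.card_prod, show Nat.card Bool = 2 by simp] at this
    omega
  set Cn : Subgroup (K ⧸ Z) := centralizer ((S : Subgroup (K ⧸ Z)) : Set (K ⧸ Z)) with hCn
  have hSsc : IsStronglyClosed (S : Subgroup (K ⧸ Z)) (S : Subgroup (K ⧸ Z)) :=
    ⟨le_rfl, fun _ _ _ h => h⟩
  have hSCn : (S : Subgroup (K ⧸ Z)) ≤ Cn := fun s hs => mem_centralizer_iff.2 fun t ht =>
    congrArg Subtype.val (hSA.1.is_comm.comm (⟨t, ht⟩ : (S : Subgroup (K ⧸ Z))) ⟨s, hs⟩)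
  have hburn : ∀ Y : Subgroup (K ⧸ Z), ∀ hY : (S : Subgroup (K ⧸ Z)) ≤ Y,
      (∀ h ∈ Y, h ∈ normalizer ((S : Subgroup (K ⧸ Z)) : Set (K ⧸ Z)) → h ∈ Cn) →
      ∀ y ∈ Y, ∃ o ∈ (oddCore Y).map Y.subtype, ∃ r ∈ (S : Subgroup (K ⧸ Z)), y = o * r := by
    intro Y hY hN y hy
    let P : Sylow 2 Y := S.subtype hY
    have hPn : normalizer ((P : Subgroup Y) : Set Y) ≤ centralizer ((P : Subgroup Y) : Set Y) := by
      intro h hh
      have hh' : (h : K ⧸ Z) ∈ normalizer ((S : Subgroup (K ⧸ Z)) : Set (K ⧸ Z)) :=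
        CfsgLib.CoprimeAction.mem_normalizer_of_conj_mem fun s hs =>
          (mem_normalizer_iff.1 hh ⟨s, hY hs⟩).1 hs
      refine mem_centralizer_iff.2 fun p hp => Subtype.ext ?_
      exact mem_centralizer_iff.1 (hN h h.2 hh') p hp
    have hsup := CfsgLib.NormalPComplement.pPrimeCore_sup_sylow
      (CfsgLib.Transfer.hasNormalPComplement_of_le_centralizer P hPn) P
    have hmem : (⟨y, hy⟩ : Y) ∈ pPrimeCore 2 Y ⊔ (P : Subgroup Y) := hsup ▸ mem_top _
    obtain ⟨o, ho, r, hr, hor⟩ := mem_sup_of_normal_left.1 hmem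
    exact ⟨o, ⟨o, ho, rfl⟩, r, hr, congrArg Subtype.val hor.symm⟩
  set D0 : Subgroup (K ⧸ Z) := (oddCore Cn).map Cn.subtype with hD0
  have hXloc : ∀ a ∈ (S : Subgroup (K ⧸ Z)), a ≠ 1 → ∀ y ∈ centralizer ({a} : Set (K ⧸ Z)),
      ∃ o ∈ Oc a, ∃ n ∈ normalizer ((S : Subgroup (K ⧸ Z)) : Set (K ⧸ Z)), y = o * n := by
    intro a ha ha1 y hy
    have hSY : (S : Subgroup (K ⧸ Z)) ≤ centralizer ({a} : Set (K ⧸ Z)) := fun s hs =>
      mem_cent.2 (congrArg Subtype.val
        (hSA.1.is_comm.comm (⟨s, hs⟩ : (S : Subgroup (K ⧸ Z))) ⟨a, ha⟩))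
    have hNC : ∀ h ∈ centralizer ({a} : Set (K ⧸ Z)),
        h ∈ normalizer ((S : Subgroup (K ⧸ Z)) : Set (K ⧸ Z)) → h ∈ Cn := by
      intro h hhY hhN
      obtain ⟨k, hk, hka⟩ := (hSmem a).1 ha
      obtain ⟨g, rfl⟩ := hfsurj h
      obtain ⟨d₁, d₂, hd, ⟨j, hj⟩, hodd⟩ :=
        CfsgLib.NormalPComplement.exists_pParts (p := 2) (isOfFinOrder_of_finite (f g))
      -- the 2-part lies in `S`
      have h2S : f g ^ d₁ ∈ (S : Subgroup (K ⧸ Z)) := by
        have hp : IsPGroup 2 ↥(zpowers (f g ^ d₁) ⊔ (S : Subgroup (K ⧸ Z))) := by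
          obtain ⟨i, -, hi⟩ := (Nat.dvd_prime_pow Nat.prime_two).1 hj
          exact (IsPGroup.of_card (n := i) (by rw [Nat.card_zpowers, hi])).to_sup_of_normal_right'
            S.2 (zpowers_le.2 (pow_mem hhN _))
        rw [← S.3 hp le_sup_right]
        exact mem_sup_left (mem_zpowers _)
      rw [← hd]
      refine mul_mem (hSCn h2S) ?_
      obtain ⟨g', hg'⟩ := hfsurj (f g ^ d₂)
      have hg'N : f g' ∈ normalizer ((S : Subgroup (K ⧸ Z)) : Set (K ⧸ Z)) := hg' ▸ pow_mem hhN _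
      have hg'Y : f g' ∈ centralizer ({a} : Set (K ⧸ Z)) := hg' ▸ pow_mem hhY _
      have hgM : ∀ m ∈ H.M, (g' : G) * m * (g' : G)⁻¹ ∈ H.M := by
        intro m hm
        have h1 := (mem_normalizer_iff.1 hg'N _).1 ((hSmem _).2 ⟨⟨m, hMK hm⟩, hm, rfl⟩)
        rw [← map_inv, ← map_mul, ← map_mul] at h1
        obtain ⟨k', hk', hke⟩ := (hSmem _).1 h1
        rcases hfeq _ _ hke with h2 | h2
        · rwa [h2] at hk'
        · rw [h2] at hk'
          have := mul_mem hk' (inv_mem H.z_mem)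
          rwa [mul_inv_cancel_right] at this
      have hk1 : (k : G) ≠ 1 := fun h => ha1 (by
        rw [← hka, show k = 1 from Subtype.ext h, map_one])
      have hkz : (k : G) ≠ F.z := fun h => ha1 (by
        rw [← hka, show k = zK from Subtype.ext h, hf, QuotientGroup.mk'_apply,
          QuotientGroup.eq_one_iff]
        exact mem_zpowers _)
      obtain ⟨t, ht, hact⟩ := H.acts_as_T F (hKC g'.2) hgM hk hk1 hkz (by
        have h1 := mem_cent_conj.1 hg'Y
        rw [← hka, ← map_inv, ← map_mul, ← map_mul] at h1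
        exact hfeq _ _ h1)
      have hpow : ∀ i : ℕ, ∀ m ∈ H.M,
          (g' : G) ^ i * m * ((g' : G) ^ i)⁻¹ = t ^ i * m * (t ^ i)⁻¹ := by
        intro i
        induction i with
        | zero => simp
        | succ i ih =>
          intro m hm
          rw [pow_succ, pow_succ, show (g' : G) ^ i * g' * m * ((g' : G) ^ i * g')⁻¹ =
            (g' : G) ^ i * (g' * m * (g' : G)⁻¹) * ((g' : G) ^ i)⁻¹ by group, ih _ (hgM m hm),
            hact m hm]
          group
      have ht64 : t ^ 64 = 1 := by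
        have : (⟨t, ht⟩ : (F.T : Subgroup G)) ^ 64 = 1 := by rw [← F.hT]; exact pow_card_eq_one'
        exact congrArg Subtype.val this
      have h64 : (f g') ^ 64 ∈ Cn := by
        refine mem_centralizer_iff.2 fun s hs => ?_
        obtain ⟨m, hm, rfl⟩ := (hSmem s).1 hs
        rw [← map_pow, ← map_mul, ← map_mul]
        congr 1
        refine Subtype.ext ?_
        have h := hpow 64 m hm
        rw [ht64, inv_one, mul_one, one_mul, mul_inv_eq_iff_eq_mul] at h
        exact h.symm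
      rw [← hg']
      obtain ⟨i, hi⟩ := exists_pow_eq_self_of_coprime (x := f g') (n := 64)
        ((Nat.Coprime.pow_left 6 (hg' ▸ hodd).symm : (2 ^ 6).Coprime _))
      rw [← hi]
      exact pow_mem h64 _
    obtain ⟨o, ho, r, hr, rfl⟩ := hburn _ hSY hNC y hy
    exact ⟨o, ho, r, le_normalizer hr, rfl⟩
  have hXcl : ∃ s t : K ⧸ Z, orderOf s = 2 ∧ orderOf t = 2 ∧ ¬ IsConj s t := by
    obtain ⟨u, hu, huA, hu2⟩ := F.out
    have huM := H.out_mem u hu huA hu2
    have hsM : F.cd {0, 1} ∈ H.M := H.A0_le_M ⟨{0, 1}, by decide, rfl⟩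
    have hord : ∀ m (hm : m ∈ H.M), m * m = 1 → m ≠ 1 → m ≠ F.z →
        orderOf (f ⟨m, hMK hm⟩) = 2 := fun m hm hmm h1 hz => by
      refine CfsgLib.Involutions.orderOf_eq_two_iff.2 ⟨?_, fun h => ?_⟩
      · rw [← map_mul, show (⟨m, hMK hm⟩ * ⟨m, hMK hm⟩ : K) = 1 from Subtype.ext hmm, map_one]
      · rw [← map_one f] at h
        rcases hfeq _ _ h with h' | h'
        · exact h1 h'
        · exact hz (h'.trans (one_mul _))
    refine ⟨f ⟨u, hMK huM⟩, f ⟨_, hMK hsM⟩,
      hord u huM (CfsgLib.Involutions.mul_self_eq_one hu2) (CfsgLib.Involutions.ne_one hu2)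
        (fun h => huA (h ▸ F.z_mem)),
      hord _ hsM (F.sq (F.cd_mem _))
        (fun h => by rcases (F.cd_eq_one _).1 h with h' | h' <;> revert h' <;> decide)
        (fun h => by rcases (F.cd_eq_iff _ _).1 h with h' | h' <;> revert h' <;> decide), ?_⟩
    intro h
    obtain ⟨q, hq⟩ := isConj_iff.1 h
    obtain ⟨g, rfl⟩ := hfsurj q
    rw [← map_inv, ← map_mul, ← map_mul] at hq
    rcases hfeq _ _ hq with h' | h'
    · exact F.not_conj_out u hu huA hu2 _ (F.cd_mem {0, 1}) (isConj_iff.2 ⟨(g : G), h'⟩).symm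
    · exact F.not_conj_out u hu huA hu2 _ (mul_mem (F.cd_mem {0, 1}) F.z_mem)
        (isConj_iff.2 ⟨(g : G), h'⟩).symm
  have hX := exists_oddCore_mul_normalizer S hSA hS8 hSsc D0
    (by rw [hD0, card_map_of_injective Cn.subtype_injective]; exact CfsgLib.Cores.odd_card_oddCore)
    (le_trans (fun n hn => by
      refine CfsgLib.CoprimeAction.mem_normalizer_of_conj_mem fun x hx => ?_
      refine mem_centralizer_iff.2 fun s hs => ?_
      have h1 := mem_centralizer_iff.1 hx (n⁻¹ * s * n) (by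
        have := (mem_normalizer_iff.1 (inv_mem hn) s).1 hs
        rwa [inv_inv] at this)
      calc s * (n * x * n⁻¹) = n * ((n⁻¹ * s * n) * x) * n⁻¹ := by group
        _ = n * (x * (n⁻¹ * s * n)) * n⁻¹ := by rw [h1]
        _ = _ := by group)
      (CfsgLib.Cores.normalizer_le_normalizer_map_subtype Cn (oddCore Cn)
        (hC := CfsgLib.Cores.pPrimeCore_characteristic 2 Cn)))
    (map_subtype_le _)
    (fun x hx => by
      obtain ⟨o, ho, r, hr, rfl⟩ := hburn Cn hSCn (fun h hh _ => hh) x hx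
      exact ⟨r, hr, o, ho, (mem_centralizer_iff.1 (map_subtype_le _ ho) r hr).symm⟩)
    hXloc (fun t ht ht' => absurd ht ht') hXcl
  -- the core of `K` lies in that of `C`
  have hcore : ∀ d : K, d ∈ oddCore K → (d : G) ∈ Oc F.z := by
    intro d hd
    refine le_Oc (K := (oddCore K).map K.subtype) ((map_subtype_le _).trans hKC)
      (hKn.trans (CfsgLib.Cores.normalizer_le_normalizer_map_subtype K (oddCore K)
        (hC := CfsgLib.Cores.pPrimeCore_characteristic 2 K))) ?_ ⟨d, hd, rfl⟩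
    rw [card_map_of_injective K.subtype_injective]; exact CfsgLib.Cores.odd_card_oddCore
  have hKdec : ∀ k : K, ∃ o ∈ Oc F.z, ∃ m : G, (∀ x ∈ H.M, m * x * m⁻¹ ∈ H.M) ∧ m ∈ C ∧
      (k : G) = o * m := by
    intro k
    obtain ⟨w, hw, n, hn, hkn⟩ := hX (f k)
    obtain ⟨w', rfl⟩ := hfsurj w
    obtain ⟨d, hd, hdw⟩ := central_two_preimage (Z := Z) (c := zK) hZ
      (by rw [← F.z_orderOf, ← Subgroup.orderOf_coe]) hzKc hw
    have hdm : f d = f w' := by
      rcases hdw with h | h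
      · rw [h]
      · rw [h, map_mul, show f zK = 1 from (QuotientGroup.eq_one_iff _).2 (mem_zpowers _), mul_one]
    have hfn : f (d⁻¹ * k) = n := by rw [map_mul, map_inv, hdm, hkn, inv_mul_cancel_left]
    refine ⟨(d : G), hcore d hd, ((d⁻¹ * k : K) : G), fun x hx => ?_, hKC (d⁻¹ * k).2,
      by push_cast; group⟩
    have h1 := (mem_normalizer_iff.1 hn _).1 ((hSmem _).2 ⟨⟨x, hMK hx⟩, hx, rfl⟩)
    rw [← hfn, ← map_inv, ← map_mul, ← map_mul] at h1
    obtain ⟨k', hk', hke⟩ := (hSmem _).1 h1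
    rcases hfeq _ _ hke with h2 | h2
    · rwa [h2] at hk'
    · rw [h2] at hk'
      have := mul_mem hk' (inv_mem H.z_mem)
      rwa [mul_inv_cancel_right] at this
  -- the Frattini argument
  have hCdec : ∀ g ∈ C, ∃ o ∈ Oc F.z, ∃ m : G, (∀ x ∈ H.M, m * x * m⁻¹ ∈ H.M) ∧ m ∈ C ∧
      g = o * m := by
    intro g hg
    have hgK : ∀ x ∈ H.M, g * x * g⁻¹ ∈ K := fun x hx =>
      (mem_normalizer_iff.1 (hKn hg) x).1 (hMK hx)
    set M' : Subgroup K := (H.M.map (MulAut.conj g).toMonoidHom).subgroupOf K with hM'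
    have hM'p : IsPGroup 2 M' := ((F.T.2.to_le H.M_le).map _).comap_of_injective _ K.subtype_injective
    obtain ⟨Q, hQ⟩ := hM'p.exists_le_sylow
    obtain ⟨k, hk⟩ := MulAction.exists_smul_eq K Q PK
    have hkg : ∀ x ∈ H.M, (k : G) * g * x * ((k : G) * g)⁻¹ ∈ H.M := by
      intro x hx
      have hxM' : (⟨_, hgK x hx⟩ : K) ∈ M' := ⟨x, hx, rfl⟩
      have h : k * ⟨_, hgK x hx⟩ * k⁻¹ ∈ (PK : Subgroup K) := by
        rw [← hk]; exact ⟨_, hQ hxM', rfl⟩
      rw [hPKeq] at h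
      have h : (k : G) * (g * x * g⁻¹) * (k : G)⁻¹ ∈ H.M := h
      convert h using 1
      group
    obtain ⟨o, ho, m, hm, hmC, hkm⟩ := hKdec k⁻¹
    refine ⟨o, ho, m * ((k : G) * g), fun x hx => ?_, mul_mem hmC (mul_mem (hKC k.2) hg), ?_⟩
    · convert hm _ (hkg x hx) using 1; group
    · rw [← mul_assoc o, ← hkm]; push_cast; group
  -- the centraliser of `M`
  set CM := centralizer (H.M : Set G) with hCM
  have hCMC : CM ≤ C := fun c hc => mem_cent.2 (mem_centralizer_iff.1 hc _ H.z_mem).symm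
  have hCNM : ∀ n ∈ normalizer (F.A : Set G), n ∈ CM →
      ∃ t ∈ (F.T : Subgroup G) ⊓ CM, ∃ o ∈ F.O, n = t * o := by
    intro n hn hnM
    have hfix : ∀ x ∈ H.M, n * x * n⁻¹ = x := fun x hx => by
      rw [← mem_centralizer_iff.1 hnM x hx, mul_inv_cancel_right]
    have h4 := F.pi_fix_four hn (hfix _ H.z_mem)
    have h1 : (F.π ⟨n, hn⟩ : Equiv.Perm (Fin 5)) = 1 := by
      refine moves_even _ (Equiv.Perm.mem_alternatingGroup.1 (F.π ⟨n, hn⟩).2) h4 fun s hs => ?_
      rw [← F.cd_eq_iff, ← F.cd_conj' hn]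
      exact hfix _ (H.A0_le_M ⟨s, hs, rfl⟩)
    obtain ⟨t, ht, o, ho, rfl⟩ := F.exists_T_O hn h4 (by rw [h1, one_mul])
    refine ⟨t, ⟨ht, mem_centralizer_iff.2 fun x hx => ?_⟩, o, ho, rfl⟩
    have hox : o * x * o⁻¹ = x := by
      refine F.O_fix ho (H.M_le hx) ?_
      rw [show o * x * o⁻¹ = t⁻¹ * (t * o * x * (t * o)⁻¹) * t by group, hfix x hx]
      exact mul_mem (mul_mem (inv_mem ht) (H.M_le hx)) ht
    have h := hfix x hx
    rw [show t * o * x * (t * o)⁻¹ = t * (o * x * o⁻¹) * t⁻¹ by group, hox,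
      mul_inv_eq_iff_eq_mul] at h
    exact h.symm
  obtain ⟨PM⟩ : Nonempty (Sylow 2 CM) := inferInstance
  have hTM : (F.T : Subgroup G) ⊓ CM ≤ zpowers F.z := fun t ht => by
    rcases H.cent t ht.1 ht.2 with rfl | rfl
    · exact one_mem _
    · exact mem_zpowers _
  have hzM : F.z ∈ CM := mem_centralizer_iff.2 fun x hx =>
    (mem_cent.1 (hMC hx))
  have hPM2 : Nat.card (PM : Subgroup CM) ≤ 2 := by
    have h := F.card_le_of_centralizes H.M H.M_le hCNM ((PM : Subgroup CM).map CM.subtype)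
      (PM.2.map _) (map_subtype_le _)
    rw [card_map_of_injective CM.subtype_injective] at h
    refine h.trans ((card_le_of_le hTM).trans ?_)
    rw [Nat.card_zpowers, F.z_orderOf]
  have hPMeq : ∀ p ∈ (PM : Subgroup CM), (p : G) = 1 ∨ (p : G) = F.z := by
    intro p hp
    set zc : CM := ⟨F.z, hzM⟩
    have hzc : ∀ c : CM, c * zc = zc * c := fun c => Subtype.ext (mem_cent.1 (hCMC c.2))
    have hzP : zc ∈ (PM : Subgroup CM) := by
      have hn : zc ∈ normalizer ((PM : Subgroup CM) : Set CM) :=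
        mem_normalizer_iff.2 fun y => by rw [← hzc y, mul_inv_cancel_right]
      have hpg : IsPGroup 2 ↥(zpowers zc ⊔ (PM : Subgroup CM)) :=
        (IsPGroup.of_card (n := 1) (by
          rw [Nat.card_zpowers, Subgroup.orderOf_mk, F.z_orderOf, pow_one])).to_sup_of_normal_right'
          PM.2 (zpowers_le.2 hn)
      rw [← PM.3 hpg le_sup_right]
      exact mem_sup_left (mem_zpowers _)
    have heq : zpowers zc = (PM : Subgroup CM) := eq_of_le_of_card_ge (zpowers_le.2 hzP) (by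
      rwa [Nat.card_zpowers, Subgroup.orderOf_mk, F.z_orderOf])
    rw [← heq] at hp
    obtain ⟨i, rfl⟩ := mem_zpowers_iff.1 hp
    have h2 : zc ^ (2 : ℤ) = 1 := by
      rw [zpow_two]; exact Subtype.ext (F.sq F.z_mem)
    rcases Int.even_or_odd i with ⟨j, rfl⟩ | ⟨j, rfl⟩
    · left; rw [← two_mul, zpow_mul, h2, one_zpow]; rfl
    · right; rw [zpow_add, zpow_mul, h2, one_zpow, one_mul, zpow_one]
  have hPMn : normalizer ((PM : Subgroup CM) : Set CM) ≤
      centralizer ((PM : Subgroup CM) : Set CM) := fun c _ => mem_centralizer_iff.2 fun p hp => by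
    refine Subtype.ext ?_
    rcases hPMeq p hp with h | h
    · simp [h]
    · simp only [Subgroup.coe_mul, h]
      exact (mem_cent.1 (hCMC c.2)).symm
  have hD' : ∀ d : CM, d ∈ oddCore CM → (d : G) ∈ Oc F.z := by
    intro d hd
    set D' : Subgroup G := (oddCore CM).map CM.subtype with hD'
    have hD'C : D' ≤ C := (map_subtype_le _).trans hCMC
    have hnorm : ∀ m : G, (∀ x ∈ H.M, m * x * m⁻¹ ∈ H.M) → m ∈ normalizer (D' : Set G) := fun m hm => by
      refine CfsgLib.Cores.normalizer_le_normalizer_map_subtype CM (oddCore CM)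
        (hC := CfsgLib.Cores.pPrimeCore_characteristic 2 CM) ?_
      refine CfsgLib.CoprimeAction.mem_normalizer_of_conj_mem fun y hy => ?_
      refine mem_centralizer_iff.2 fun x hx => ?_
      have hmN : m ∈ normalizer (H.M : Set G) :=
        CfsgLib.CoprimeAction.mem_normalizer_of_conj_mem hm
      have h1 := mem_centralizer_iff.1 hy (m⁻¹ * x * m) (by
        have := (mem_normalizer_iff.1 (inv_mem hmN) x).1 hx
        rwa [inv_inv] at this)
      calc x * (m * y * m⁻¹) = m * ((m⁻¹ * x * m) * y) * m⁻¹ := by group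
        _ = m * (y * (m⁻¹ * x * m)) * m⁻¹ := by rw [h1]
        _ = _ := by group
    have hOD : D' ≤ normalizer (Oc F.z : Set G) := hD'C.trans (centralizer_le_normalizer_Oc _)
    suffices Oc F.z ⊔ D' ≤ Oc F.z from this (mem_sup_right ⟨d, hd, rfl⟩)
    refine le_Oc (sup_le (Oc_le _) hD'C) ?_ ?_
    · intro g hg
      obtain ⟨o, ho, m, hm, hmC, rfl⟩ := hCdec g hg
      refine mul_mem (le_normalizer (mem_sup_left ho)) ?_
      refine CfsgLib.CoprimeAction.mem_normalizer_of_conj_mem fun x hx => ?_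
      have hle : Oc F.z ⊔ D' ≤ (Oc F.z ⊔ D').comap (MulAut.conj m).toMonoidHom :=
        sup_le (fun y hy => mem_sup_left
            ((mem_normalizer_iff.1 (centralizer_le_normalizer_Oc _ hmC) y).1 hy))
          (fun y hy => mem_sup_right ((mem_normalizer_iff.1 (hnorm m hm) y).1 hy))
      exact hle hx
    · have := CfsgLib.Cores.card_sup_dvd (D'.subgroupOf (normalizer (Oc F.z : Set G)))
        ((Oc F.z).subgroupOf (normalizer (Oc F.z : Set G)))
      rw [← subgroupOf_sup hOD le_normalizer,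
        Nat.card_congr (subgroupOfEquivOfLe (sup_le hOD le_normalizer)).toEquiv,
        Nat.card_congr (subgroupOfEquivOfLe hOD).toEquiv,
        Nat.card_congr (subgroupOfEquivOfLe (le_normalizer (H := Oc F.z))).toEquiv,
        sup_comm] at this
      refine Odd.of_dvd_nat (Odd.mul ?_ (odd_card_Oc F.z)) this
      rw [hD', card_map_of_injective CM.subtype_injective]
      exact CfsgLib.Cores.odd_card_oddCore
  intro g hg
  obtain ⟨o, ho, m, hm, hmC, rfl⟩ := hCdec g hg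
  obtain ⟨n, hn, hnM⟩ := F.control (H.M : Set G) H.M_le m fun b hb => H.M_le (hm b hb)
  have hnz : n ∈ C := mem_cent_conj.2 ((hnM _ H.z_mem).trans (mem_cent_conj.1 hmC))
  have hc : n⁻¹ * m ∈ CM := mem_centralizer_iff.2 fun x hx => by
    have h := hnM x hx
    calc x * (n⁻¹ * m) = n⁻¹ * (n * x * n⁻¹) * m := by group
      _ = n⁻¹ * (m * x * m⁻¹) * m := by rw [h]
      _ = _ := by group
  have hsup := CfsgLib.NormalPComplement.pPrimeCore_sup_sylow
    (CfsgLib.Transfer.hasNormalPComplement_of_le_centralizer PM hPMn) PM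
  have hmem : (⟨_, hc⟩ : CM) ∈ pPrimeCore 2 CM ⊔ (PM : Subgroup CM) := hsup ▸ mem_top _
  obtain ⟨d, hd, r, hr, hdr⟩ := mem_sup_of_normal_left.1 hmem
  have hdr' : (d : G) * r = n⁻¹ * m := congrArg Subtype.val hdr
  refine ⟨o * (n * d * n⁻¹), mul_mem ho
    ((mem_normalizer_iff.1 (centralizer_le_normalizer_Oc _ hnz) _).1 (hD' d hd)),
    n * (r : G), mul_mem hn ?_, ?_⟩
  · rcases hPMeq r hr with h | h <;> rw [h]
    · exact one_mem _
    · exact F.A_le F.z_mem
  · calc o * m = o * (n * (n⁻¹ * m)) := by group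
      _ = _ := by rw [← hdr']; group

end Frame

end CfsgLib.AEightThreeClasses
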