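import Cfsg.Agent.Lib.AEightThreeClasses.Frame
import Cfsg.Agent.Lib.NormalPComplement.Frobenius

/-!
Consequences of a frame: `A` is strongly closed, its normaliser controls fusion, and the centraliser
of an involution outside `A` has a normal 2-complement.
-/

set_option autoImplicit false

namespace CfsgLib.AEightThreeClasses

open Subgroup Cfsg
open scoped symmDiff

universe u

variable {G : Type u} [Group G]

/-- The centraliser of `x` is generated by its odd core and its part in `N`. -/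
def Loc (N : Subgroup G) (x : G) : Prop :=
  ∀ g ∈ centralizer ({x} : Set G), ∃ o ∈ Oc x, ∃ n ∈ N, g = o * n

variable [Finite G]

theorem Loc.conj {N : Subgroup G} {x n : G} (h : Loc N x) (hn : n ∈ N) : Loc N (n * x * n⁻¹) := by
  intro g hg
  have hg' : n⁻¹ * g * n ∈ centralizer ({x} : Set G) := by
    rw [mem_cent] at hg ⊢
    calc n⁻¹ * g * n * x = n⁻¹ * (g * (n * x * n⁻¹)) * n := by group
      _ = n⁻¹ * (n * x * n⁻¹ * g) * n := by rw [hg]
      _ = _ := by group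
  obtain ⟨o, ho, m, hm, he⟩ := h _ hg'
  refine ⟨n * o * n⁻¹, conj_mem_Oc n ho, n * m * n⁻¹, mul_mem (mul_mem hn hm) (inv_mem hn), ?_⟩
  rw [show n * o * n⁻¹ * (n * m * n⁻¹) = n * (o * m) * n⁻¹ by group, ← he]
  group

namespace Frame

variable (F : Frame G)

/-- The singleton type. -/
def IsSingle (x : G) : Prop := ∃ i, x = F.cd {i}

theorem cd_compl (s : Finset (Fin 5)) : F.cd sᶜ = F.cd s := by
  rw [show sᶜ = s ∆ Finset.univ by ext i; simp [Finset.mem_symmDiff], F.cd_symm,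
    (F.cd_eq_one _).2 (Or.inr rfl), mul_one]

theorem cd_eq_iff (s t : Finset (Fin 5)) : F.cd s = F.cd t ↔ s = t ∨ s = tᶜ := by
  constructor
  · intro h
    have h1 : F.cd (s ∆ t) = 1 := by rw [F.cd_symm, h]; exact F.sq (F.cd_mem t)
    rcases (F.cd_eq_one _).1 h1 with h' | h'
    · exact Or.inl (symmDiff_eq_bot.1 h')
    · refine Or.inr (Finset.ext fun i => ?_)
      have := Finset.mem_univ i
      rw [← h', Finset.mem_symmDiff] at this
      rw [Finset.mem_compl]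
      tauto
  · rintro (rfl | rfl)
    · rfl
    · exact F.cd_compl t

theorem cd_conj' {n : G} (hn : n ∈ normalizer (F.A : Set G)) (s : Finset (Fin 5)) :
    n * F.cd s * n⁻¹ = F.cd (s.image (F.π ⟨n, hn⟩ : Equiv.Perm (Fin 5))) :=
  F.cd_conj ⟨n, hn⟩ s

theorem cd_pair {i j : Fin 5} (hij : i ≠ j) : F.cd {i, j} = F.cd {i} * F.cd {j} := by
  rw [← F.cd_symm]
  congr 1
  ext k
  simp only [Finset.mem_insert, Finset.mem_singleton, Finset.mem_symmDiff]
  constructor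
  · rintro (rfl | rfl)
    · exact Or.inl ⟨rfl, hij⟩
    · exact Or.inr ⟨rfl, hij.symm⟩
  · rintro (⟨h, -⟩ | ⟨h, -⟩) <;> simp [h]

/-- Every nontrivial element of `A` is a singleton or a pair. -/
theorem mem_cases {x : G} (hx : x ∈ F.A) (hx1 : x ≠ 1) :
    F.IsSingle x ∨ ∃ i j, i ≠ j ∧ x = F.cd {i, j} := by
  obtain ⟨s, rfl⟩ := F.cd_surj x hx
  rcases subset_cases s with rfl | rfl | ⟨i, hi⟩ | ⟨i, j, hij, h⟩
  · exact absurd ((F.cd_eq_one _).2 (Or.inl rfl)) hx1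
  · exact absurd ((F.cd_eq_one _).2 (Or.inr rfl)) hx1
  · refine Or.inl ⟨i, ?_⟩
    rcases hi with rfl | h
    · rfl
    · rw [← h, F.cd_compl]
  · refine Or.inr ⟨i, j, hij, ?_⟩
    rcases h with rfl | h
    · rfl
    · rw [← h, F.cd_compl]

theorem exists_single_conj (i : Fin 5) :
    ∃ n ∈ normalizer (F.A : Set G), n * F.cd {4} * n⁻¹ = F.cd {i} := by
  obtain ⟨σ, hσ, hσ4⟩ := even_perm_point i
  obtain ⟨⟨n, hn⟩, hne⟩ := F.π_surj ⟨σ, Equiv.Perm.mem_alternatingGroup.2 hσ⟩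
  refine ⟨n, hn, ?_⟩
  rw [F.cd_conj' hn, hne]
  simp [hσ4]

theorem exists_pair_conj {i j : Fin 5} (hij : i ≠ j) :
    ∃ n ∈ normalizer (F.A : Set G), n * F.cd {0, 1} * n⁻¹ = F.cd {i, j} := by
  obtain ⟨σ, hσ, hσe⟩ := even_perm_pair i j hij
  obtain ⟨⟨n, hn⟩, hne⟩ := F.π_surj ⟨σ, Equiv.Perm.mem_alternatingGroup.2 hσ⟩
  refine ⟨n, hn, ?_⟩
  rw [F.cd_conj' hn, hne, ← hσe]
  simp

theorem single_ne_one {x : G} (h : F.IsSingle x) : x ≠ 1 := by
  obtain ⟨i, rfl⟩ := h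
  intro h
  rcases (F.cd_eq_one _).1 h with h | h
  · exact Finset.singleton_ne_empty i h
  · have := congrArg Finset.card h
    simp at this

theorem single_orderOf {x : G} (h : F.IsSingle x) : orderOf x = 2 := by
  refine CfsgLib.Involutions.orderOf_eq_two_iff.2 ⟨?_, F.single_ne_one h⟩
  obtain ⟨i, rfl⟩ := h
  exact F.sq (F.cd_mem _)

/-- Conjugate elements of `A` have the same type. -/
theorem single_of_isConj {x y : G} (hx : F.IsSingle x) (hy : y ∈ F.A) (h : IsConj x y) :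
    F.IsSingle y := by
  obtain ⟨i, rfl⟩ := hx
  have hy1 : y ≠ 1 := fun h1 => by
    have := CfsgLib.Involutions.orderOf_eq_of_isConj h
    rw [h1, orderOf_one, F.single_orderOf ⟨i, rfl⟩] at this
    omega
  refine (F.mem_cases hy hy1).resolve_right ?_
  rintro ⟨k, l, hkl, rfl⟩
  obtain ⟨n, -, hn⟩ := F.exists_single_conj i
  obtain ⟨m, -, hm⟩ := F.exists_pair_conj hkl
  exact F.not_conj_pair ((isConj_iff.2 ⟨n, hn⟩).trans (h.trans (isConj_iff.2 ⟨m, hm⟩).symm))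

theorem strongly_closed : IsStronglyClosed F.A (F.T : Subgroup G) := by
  refine ⟨F.hAT, fun x hx g hg => ?_⟩
  by_cases hx1 : x = 1
  · subst hx1; simp
  · by_contra hgA
    refine F.not_conj_out _ hg hgA ?_ x hx (isConj_iff.2 ⟨g, rfl⟩)
    rw [CfsgLib.Involutions.orderOf_conj]
    exact CfsgLib.Involutions.orderOf_eq_two_iff.2 ⟨F.sq hx, hx1⟩

theorem control (B : Set G) (hB : B ⊆ (F.T : Subgroup G)) (g : G)
    (hg : ∀ b ∈ B, g * b * g⁻¹ ∈ (F.T : Subgroup G)) :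
    ∃ n ∈ normalizer (F.A : Set G), ∀ b ∈ B, n * b * n⁻¹ = g * b * g⁻¹ := by
  haveI : Fact (Nat.Prime 2) := ⟨Nat.prime_two⟩
  exact strong_control F.T F.hA.1 F.strongly_closed B hB g hg

theorem eq_one_of_mem_T_O {x : G} (hT : x ∈ (F.T : Subgroup G)) (hO : x ∈ F.O) : x = 1 := by
  obtain ⟨k, hk⟩ := IsPGroup.iff_orderOf.1 F.T.2 ⟨x, hT⟩
  rw [Subgroup.orderOf_mk] at hk
  rw [← orderOf_eq_one_iff]
  exact Nat.eq_one_of_dvd_coprimes (Nat.Coprime.pow_left k (Nat.coprime_two_left.2 F.hO))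
    (dvd_of_eq hk) (orderOf_dvd_natCard F.O hO)

/-- An element of `O` carrying an element of `T` into `T` fixes it. -/
theorem O_fix {o x : G} (ho : o ∈ F.O) (hx : x ∈ (F.T : Subgroup G))
    (h : o * x * o⁻¹ ∈ (F.T : Subgroup G)) : o * x * o⁻¹ = x := by
  have h1 : o * x * o⁻¹ * x⁻¹ ∈ F.O := by
    rw [show o * x * o⁻¹ * x⁻¹ = o * (x * o⁻¹ * x⁻¹) by group]
    exact mul_mem ho ((mem_normalizer_iff.1 (F.hON (F.hTN hx)) o⁻¹).1 (inv_mem ho))
  exact mul_inv_eq_one.1 (F.eq_one_of_mem_T_O (mul_mem h (inv_mem hx)) h1)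

theorem T_pi_sq {t : G} (ht : t ∈ (F.T : Subgroup G)) :
    (F.π ⟨t, F.hTN ht⟩ : Equiv.Perm (Fin 5)) * F.π ⟨t, F.hTN ht⟩ = 1 := by
  refine four_fix _ (Equiv.Perm.mem_alternatingGroup.1 (F.π ⟨t, F.hTN ht⟩).2) (F.T_fix t ht) ?_
  have h64 : F.π ⟨t, F.hTN ht⟩ ^ 64 = 1 := by
    have h : (⟨t, ht⟩ : (F.T : Subgroup G)) ^ 64 = 1 := by rw [← F.hT]; exact pow_card_eq_one'
    rw [← map_pow]
    convert map_one F.π using 2
    exact Subtype.ext (congrArg Subtype.val h : _)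
  have h60 : F.π ⟨t, F.hTN ht⟩ ^ 60 = 1 := by
    have h := pow_card_eq_one' (G := ↥(alternatingGroup (Fin 5))) (x := F.π ⟨t, F.hTN ht⟩)
    rwa [nat_card_alternatingGroup, Nat.card_fin] at h
  have h4 := pow_gcd_eq_one.2 ⟨h64, h60⟩
  have h4' := congrArg Subtype.val (show F.π ⟨t, F.hTN ht⟩ ^ 4 = 1 from h4)
  simpa [pow_succ] using h4'

/-- Every element of the four-group fixing `4` comes from `T`. -/
theorem exists_T_of_fix {σ : Equiv.Perm (Fin 5)} (h1 : Equiv.Perm.sign σ = 1) (h2 : σ 4 = 4)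
    (h3 : σ * σ = 1) :
    ∃ t, ∃ ht : t ∈ (F.T : Subgroup G), (F.π ⟨t, F.hTN ht⟩ : Equiv.Perm (Fin 5)) = σ := by
  classical
  set ρ : (F.T : Subgroup G) →* Equiv.Perm (Fin 5) :=
    (alternatingGroup (Fin 5)).subtype.comp (F.π.comp (inclusion F.hTN)) with hρ
  have hker : ρ.ker = F.A.subgroupOf (F.T : Subgroup G) := by
    ext ⟨t, ht⟩
    exact ⟨fun h => F.pi_eq_one_of_involution_mem ht (Subtype.ext h),
      fun h => congrArg Subtype.val
        ((F.π_eq_one ⟨t, F.hTN ht⟩).2 ⟨t, h, 1, one_mem _, (mul_one t).symm⟩)⟩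
  have hcard : Nat.card ρ.range = 4 := by
    have h := ρ.ker.card_mul_index
    rw [index_ker, hker, Nat.card_congr (subgroupOfEquivOfLe F.hAT).toEquiv, F.hA16, F.hT] at h
    omega
  let V : Finset (Equiv.Perm (Fin 5)) :=
    {1, Equiv.swap 0 1 * Equiv.swap 2 3, Equiv.swap 0 2 * Equiv.swap 1 3,
      Equiv.swap 0 3 * Equiv.swap 1 2}
  have hsub : (ρ.range : Set (Equiv.Perm (Fin 5))) ⊆ (V : Set (Equiv.Perm (Fin 5))) := by
    rintro _ ⟨⟨t, ht⟩, rfl⟩
    have h := four_group _ (Equiv.Perm.mem_alternatingGroup.1 (F.π ⟨t, F.hTN ht⟩).2) (F.T_fix t ht)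
      (F.T_pi_sq ht)
    simp only [V, Finset.coe_insert, Finset.coe_singleton, Set.mem_insert_iff, Set.mem_singleton_iff]
    exact h
  have heq := Set.eq_of_subset_of_ncard_le hsub (by
    rw [Set.ncard_coe_finset, ← Nat.card_coe_set_eq]
    calc V.card ≤ 4 := Finset.card_le_four
      _ = _ := hcard.symm)
  have hσ : σ ∈ (ρ.range : Set (Equiv.Perm (Fin 5))) := by
    rw [heq]
    simpa [V] using four_group σ h1 h2 h3
  obtain ⟨⟨t, ht⟩, he⟩ := hσ
  exact ⟨t, ht, he⟩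

/-- An element of `N(A)` inducing an element of the four-group is in `T O`. -/
theorem exists_T_O {n : G} (hn : n ∈ normalizer (F.A : Set G))
    (h4 : (F.π ⟨n, hn⟩ : Equiv.Perm (Fin 5)) 4 = 4)
    (h2 : (F.π ⟨n, hn⟩ : Equiv.Perm (Fin 5)) * F.π ⟨n, hn⟩ = 1) :
    ∃ t ∈ (F.T : Subgroup G), ∃ o ∈ F.O, n = t * o := by
  obtain ⟨t, ht, he⟩ :=
    F.exists_T_of_fix (Equiv.Perm.mem_alternatingGroup.1 (F.π ⟨n, hn⟩).2) h4 h2
  have h : F.π (⟨t, F.hTN ht⟩⁻¹ * ⟨n, hn⟩) = 1 := by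
    rw [map_mul, map_inv, Subtype.ext he, inv_mul_cancel]
  obtain ⟨e, hee, o, ho, heo⟩ := (F.π_eq_one _).1 h
  have heo : t⁻¹ * n = e * o := heo
  refine ⟨t * e, mul_mem ht (F.hAT hee), o, ho, ?_⟩
  rw [show n = t * (t⁻¹ * n) by group, heo]
  group

/-- A 2-subgroup centralising `M ≤ T` is no larger than `C_T(M)`. -/
theorem card_le_of_centralizes (M : Subgroup G) (hM : M ≤ (F.T : Subgroup G))
    (hCN : ∀ n ∈ normalizer (F.A : Set G), n ∈ centralizer (M : Set G) →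
      ∃ t ∈ (F.T : Subgroup G) ⊓ centralizer (M : Set G), ∃ o ∈ F.O, n = t * o)
    (Q : Subgroup G) (hQp : IsPGroup 2 Q) (hQ : Q ≤ centralizer (M : Set G)) :
    Nat.card Q ≤ Nat.card ↥((F.T : Subgroup G) ⊓ centralizer (M : Set G)) := by
  classical
  haveI : Fact (Nat.Prime 2) := ⟨Nat.prime_two⟩
  have hMQ : IsPGroup 2 ↥(M ⊔ Q) :=
    (F.T.2.to_le hM).to_sup_of_normal_left' hQp (hQ.trans (centralizer_le_normalizer _))
  obtain ⟨T', hT'⟩ := hMQ.exists_le_sylow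
  obtain ⟨g, hg⟩ := MulAction.exists_smul_eq G T' F.T
  have hgT : ∀ x ∈ M ⊔ Q, g * x * g⁻¹ ∈ (F.T : Subgroup G) := fun x hx => by
    rw [← hg]; exact ⟨x, hT' hx, rfl⟩
  obtain ⟨n, hn, hnM⟩ := F.control M hM g fun b hb => hgT b (mem_sup_left hb)
  have hmem : ∀ q ∈ Q, n⁻¹ * (g * q * g⁻¹) * n ∈ normalizer (F.A : Set G) ∧
      n⁻¹ * (g * q * g⁻¹) * n ∈ centralizer (M : Set G) := by
    intro q hq
    refine ⟨mul_mem (mul_mem (inv_mem hn) (F.hTN (hgT q (mem_sup_right hq)))) hn, ?_⟩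
    refine mem_centralizer_iff.2 fun b hb => ?_
    have hqb : b * q = q * b := mem_centralizer_iff.1 (hQ hq) b hb
    have hb' : b = n⁻¹ * (g * b * g⁻¹) * n := by rw [← hnM b hb]; group
    calc b * (n⁻¹ * (g * q * g⁻¹) * n) = n⁻¹ * (g * (b * q) * g⁻¹) * n := by
          conv_lhs => arg 1; rw [hb']
          group
      _ = n⁻¹ * (g * (q * b) * g⁻¹) * n := by rw [hqb]
      _ = n⁻¹ * (g * q * g⁻¹) * n * b := by
          conv_rhs => arg 2; rw [hb']
          group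
  choose f hf o ho hfo using fun q : Q => hCN _ (hmem q q.2).1 (hmem q q.2).2
  refine Nat.card_le_card_of_injective (fun q => (⟨f q, hf q⟩ : ↥((F.T : Subgroup G) ⊓ _))) ?_
  intro q r hqr
  have h : f q = f r := congrArg Subtype.val hqr
  have hd : (o q)⁻¹ * o r ∈ F.O := mul_mem (inv_mem (ho q)) (ho r)
  have he : (o q)⁻¹ * o r = n⁻¹ * g * ((q : G)⁻¹ * r) * (n⁻¹ * g)⁻¹ := by
    calc (o q)⁻¹ * o r = (f q * o q)⁻¹ * (f r * o r) := by rw [h]; group
      _ = _ := by rw [← hfo q, ← hfo r]; group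
  obtain ⟨k, hk⟩ := IsPGroup.iff_orderOf.1 hQp (q⁻¹ * r)
  have ho1 : orderOf ((o q)⁻¹ * o r) = 2 ^ k := by
    rw [he, CfsgLib.Involutions.orderOf_conj, ← hk, ← Subgroup.orderOf_coe]
    rfl
  have h1 : orderOf ((o q)⁻¹ * o r) = 1 := Nat.eq_one_of_dvd_coprimes
    (Nat.Coprime.pow_left k (Nat.coprime_two_left.2 F.hO)) (dvd_of_eq ho1)
    (orderOf_dvd_natCard F.O hd)
  rw [h1, ← hk] at ho1
  exact inv_mul_eq_one.1 (orderOf_eq_one_iff.1 (h1.symm.trans (h1.trans (hk ▸ ho1))).symm)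

/-- Involutions of `T` outside `A` have centralisers generated by the odd core and `T`. -/
theorem loc_out {u : G} (hu : u ∈ (F.T : Subgroup G)) (huA : u ∉ F.A) (hu2 : orderOf u = 2) :
    Loc (normalizer (F.A : Set G)) u := by
  haveI : Fact (Nat.Prime 2) := ⟨Nat.prime_two⟩
  set C := centralizer ({u} : Set G) with hC
  set R : Subgroup G := (F.T : Subgroup G) ⊓ C with hR
  have hCN : ∀ n ∈ normalizer (F.A : Set G), n ∈ C → ∃ t ∈ R, ∃ o ∈ F.O, n = t * o := by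
    intro n hn hnu
    have hcomm : (⟨n, hn⟩ : ↥(normalizer (F.A : Set G))) * ⟨u, F.hTN hu⟩ =
        ⟨u, F.hTN hu⟩ * ⟨n, hn⟩ := Subtype.ext (mem_cent.1 hnu)
    have hπ := congrArg (fun x => (F.π x : Equiv.Perm (Fin 5))) hcomm
    simp only [map_mul, Subgroup.coe_mul] at hπ
    obtain ⟨h4, h2⟩ := commute_fix _ _ (Equiv.Perm.mem_alternatingGroup.1 (F.π ⟨u, F.hTN hu⟩).2)
      (F.T_pi_sq hu) (fun h => F.pi_ne_one hu huA (Subtype.ext h)) (F.T_fix u hu)
      (Equiv.Perm.mem_alternatingGroup.1 (F.π ⟨n, hn⟩).2) hπ.symm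
    obtain ⟨t, ht, o, ho, rfl⟩ := F.exists_T_O hn h4 h2
    have hou : o * u * o⁻¹ = u := by
      refine F.O_fix ho hu ?_
      have h := mem_cent_conj.1 hnu
      rw [show o * u * o⁻¹ = t⁻¹ * (t * o * u * (t * o)⁻¹) * t by group, h]
      exact mul_mem (mul_mem (inv_mem ht) hu) ht
    refine ⟨t, ⟨ht, ?_⟩, o, ho, rfl⟩
    have := mul_mem hnu (inv_mem (mem_cent_conj.2 hou : o ∈ C))
    rwa [mul_inv_cancel_right] at this
  have hCz : centralizer ((zpowers u : Subgroup G) : Set G) = C := by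
    rw [hC, zpowers_eq_closure, centralizer_closure]
  have hRC : R ≤ C := inf_le_right
  obtain ⟨P, hP⟩ := ((F.T.2.to_le (inf_le_left : R ≤ _)).comap_of_injective C.subtype
    C.subtype_injective).exists_le_sylow
  have hPR : (P : Subgroup C) = R.subgroupOf C := (eq_of_le_of_card_ge hP (by
    have h := F.card_le_of_centralizes (zpowers u) (zpowers_le.2 hu) (by rw [hCz]; exact hCN)
      ((P : Subgroup C).map C.subtype) (P.2.map _) (by rw [hCz]; exact map_subtype_le _)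
    rw [hCz, card_map_of_injective C.subtype_injective] at h
    change _ ≤ Nat.card (R.subgroupOf C)
    rw [Nat.card_congr (subgroupOfEquivOfLe hRC).toEquiv]
    exact h)).symm
  have hfrob : CfsgLib.NormalPComplement.FrobeniusCondition 2 C := by
    intro Q hQ g hg hcop
    obtain ⟨P', hP'⟩ := hQ.exists_le_sylow
    obtain ⟨y, hy⟩ := MulAction.exists_smul_eq C P' P
    have hyQ : ∀ q ∈ Q, ((y * q * y⁻¹ : C) : G) ∈ R := fun q hq => by
      have : y * q * y⁻¹ ∈ (P : Subgroup C) := by rw [← hy]; exact ⟨q, hP' hq, rfl⟩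
      rw [hPR] at this
      exact this
    set g' : G := ((y * g * y⁻¹ : C) : G) with hg'
    set B : Set G := insert u ((fun q : C => ((y * q * y⁻¹ : C) : G)) '' (Q : Set C)) with hB
    have hBT : B ⊆ (F.T : Subgroup G) := by
      rintro b (rfl | ⟨q, hq, rfl⟩)
      · exact hu
      · exact (hyQ q hq).1
    have hgu : g' * u * g'⁻¹ = u := mem_cent_conj.1 (y * g * y⁻¹ : C).2
    have hgq : ∀ q ∈ Q, g' * ((y * q * y⁻¹ : C) : G) * g'⁻¹ =
        ((y * (g * q * g⁻¹) * y⁻¹ : C) : G) := fun q _ => by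
      simp only [hg', Subgroup.coe_mul, Subgroup.coe_inv]; group
    have hgB : ∀ b ∈ B, g' * b * g'⁻¹ ∈ B := by
      rintro b (rfl | ⟨q, hq, rfl⟩)
      · exact Or.inl hgu
      · exact Or.inr ⟨g * q * g⁻¹, (mem_normalizer_iff.1 hg q).1 hq, (hgq q hq).symm⟩
    obtain ⟨n, hn, hnB⟩ := F.control B hBT g' fun b hb => hBT (hgB b hb)
    obtain ⟨t, ht, o, ho, rfl⟩ := hCN n hn (mem_cent_conj.2 ((hnB u (Or.inl rfl)).trans hgu))
    have hact : ∀ b ∈ B, g' * b * g'⁻¹ = t * b * t⁻¹ := fun b hb => by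
      have hob : o * b * o⁻¹ = b := by
        refine F.O_fix ho (hBT hb) ?_
        rw [show o * b * o⁻¹ = t⁻¹ * (t * o * b * (t * o)⁻¹) * t by group, hnB b hb]
        exact mul_mem (mul_mem (inv_mem ht.1) (hBT (hgB b hb))) ht.1
      rw [← hnB b hb, show t * o * b * (t * o)⁻¹ = t * (o * b * o⁻¹) * t⁻¹ by group, hob]
    have hpow : ∀ k : ℕ, ∀ b ∈ B, g' ^ k * b * (g' ^ k)⁻¹ = t ^ k * b * (t ^ k)⁻¹ := by
      intro k
      induction k with
      | zero => simp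
      | succ k ih =>
        intro b hb
        rw [pow_succ, pow_succ,
          show g' ^ k * g' * b * (g' ^ k * g')⁻¹ = g' ^ k * (g' * b * g'⁻¹) * (g' ^ k)⁻¹ by group,
          ih _ (hgB b hb), hact b hb]
        group
    have ht64 : t ^ 64 = 1 := by
      have : (⟨t, ht.1⟩ : (F.T : Subgroup G)) ^ 64 = 1 := by rw [← F.hT]; exact pow_card_eq_one'
      exact congrArg Subtype.val this
    refine mem_centralizer_iff.2 fun q hq => ?_
    have hq' : ((y * q * y⁻¹ : C) : G) ∈ B := Or.inr ⟨q, hq, rfl⟩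
    have h64 := hpow 64 _ hq'
    rw [ht64, inv_one, mul_one, one_mul] at h64
    have hcomm : Commute ((y * g * y⁻¹) ^ 64) (y * q * y⁻¹) := by
      refine Subtype.ext ?_
      simp only [Subgroup.coe_mul, SubgroupClass.coe_pow]
      exact mul_inv_eq_iff_eq_mul.1 h64
    rw [conj_pow] at hcomm
    have h2 : Commute (g ^ 64) q := by
      have := congrArg (fun x => y⁻¹ * x * y) hcomm.eq
      simpa [mul_assoc, Commute, SemiconjBy] using this
    obtain ⟨m, hm⟩ := exists_pow_eq_self_of_coprime (x := g) (n := 64)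
      (show (64 : ℕ).Coprime (orderOf g) from (Nat.Coprime.pow_left 6 hcop.symm : (2 ^ 6).Coprime _))
    have h3 := h2.pow_left m
    rw [hm] at h3
    exact h3.eq.symm
  intro g hg
  have hsup := CfsgLib.NormalPComplement.pPrimeCore_sup_sylow
    (CfsgLib.NormalPComplement.hasNormalPComplement_of_frobeniusCondition hfrob) P
  have hmem : (⟨g, hg⟩ : C) ∈ pPrimeCore 2 C ⊔ (P : Subgroup C) := hsup ▸ mem_top _
  obtain ⟨o, ho, r, hr, hor⟩ := mem_sup_of_normal_left.1 hmem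
  refine ⟨(o : G), ⟨o, ho, rfl⟩, (r : G), ?_, congrArg Subtype.val hor.symm⟩
  rw [hPR] at hr
  exact F.hTN hr.1

end Frame

end CfsgLib.AEightThreeClasses
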