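import Cfsg.Agent.Lib.AEightThreeClasses.Facts

/-!
The subgroup `M = A₀ V₀` of index two in the Sylow 2-subgroup fixing `4`: `A₀` is the even part of
`A` with respect to `4` and `V₀` a four-group complement to `A`.
-/

set_option autoImplicit false
set_option maxRecDepth 50000
set_option synthInstance.maxSize 4096
set_option synthInstance.maxHeartbeats 200000

namespace CfsgLib.AEightThreeClasses

open Subgroup Cfsg
open scoped symmDiff

universe u

/-- Even with respect to `4`. -/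
abbrev EvenAt (s : Finset (Fin 5)) : Prop := (s.erase 4).card % 2 = 0

theorem evenAt_symm : ∀ s t : Finset (Fin 5), EvenAt s → EvenAt t → EvenAt (s ∆ t) := by decide

theorem odd_split : ∀ s : Finset (Fin 5), ¬ EvenAt s → EvenAt (({0} : Finset (Fin 5)) ∆ s) := by
  decide

theorem evenAt_of_fixed : ∀ σ : Equiv.Perm (Fin 5), Equiv.Perm.sign σ = 1 → σ 4 = 4 → σ * σ = 1 →
    σ ≠ 1 → ∀ s : Finset (Fin 5), (s.image σ = s ∨ s.image σ = sᶜ) → EvenAt s := by
  decide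

theorem symm_image : ∀ σ : Equiv.Perm (Fin 5), Equiv.Perm.sign σ = 1 → σ 4 = 4 → σ * σ = 1 →
    ∀ s : Finset (Fin 5), EvenAt s →
      s ∆ (s.image σ) = ∅ ∨ s ∆ (s.image σ) = Finset.univ ∨ s ∆ (s.image σ) = {4} ∨
        s ∆ (s.image σ) = ({4} : Finset (Fin 5))ᶜ := by
  decide

theorem fixed_both : ∀ s : Finset (Fin 5),
    (s.image (Equiv.swap 0 1 * Equiv.swap 2 3 : Equiv.Perm (Fin 5)) = s ∨
      s.image (Equiv.swap 0 1 * Equiv.swap 2 3 : Equiv.Perm (Fin 5)) = sᶜ) →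
    (s.image (Equiv.swap 0 2 * Equiv.swap 1 3 : Equiv.Perm (Fin 5)) = s ∨
      s.image (Equiv.swap 0 2 * Equiv.swap 1 3 : Equiv.Perm (Fin 5)) = sᶜ) →
    s = ∅ ∨ s = Finset.univ ∨ s = {4} ∨ s = ({4} : Finset (Fin 5))ᶜ := by
  decide

theorem partition_stab : ∀ σ : Equiv.Perm (Fin 5), Equiv.Perm.sign σ = 1 → σ 4 = 4 →
    ∀ s : Finset (Fin 5), EvenAt s → s ≠ ∅ → s ≠ Finset.univ → s ≠ {4} →
      s ≠ ({4} : Finset (Fin 5))ᶜ →
      (s.image σ = s ∨ s.image σ = sᶜ ∨ s.image σ = s ∆ {4} ∨ s.image σ = (s ∆ {4})ᶜ) →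
        σ * σ = 1 := by
  decide

theorem moves_even : ∀ σ : Equiv.Perm (Fin 5), Equiv.Perm.sign σ = 1 → σ 4 = 4 →
    (∀ s : Finset (Fin 5), EvenAt s → (s.image σ = s ∨ s.image σ = sᶜ)) → σ = 1 := by
  decide

variable {G : Type u} [Group G] [Finite G]

namespace Frame

variable (F : Frame G)

/-- The central element of `T` in `A`. -/
def z : G := F.cd {4}

theorem z_mem : F.z ∈ F.A := F.cd_mem _

theorem z_single : F.IsSingle F.z := ⟨4, rfl⟩

theorem z_orderOf : orderOf F.z = 2 := F.single_orderOf F.z_single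

theorem T_le_cent : (F.T : Subgroup G) ≤ centralizer ({F.z} : Set G) := fun t ht => by
  refine mem_cent_conj.2 ?_
  rw [z, F.cd_conj' (F.hTN ht)]
  simp [F.T_fix t ht]

theorem pi_fix_four {n : G} (hn : n ∈ normalizer (F.A : Set G))
    (hz : n * F.z * n⁻¹ = F.z) : (F.π ⟨n, hn⟩ : Equiv.Perm (Fin 5)) 4 = 4 := by
  rw [z, F.cd_conj' hn, F.cd_eq_iff, Finset.image_singleton] at hz
  rcases hz with h | h
  · exact Finset.singleton_injective h
  · have := congrArg Finset.card h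
    simp [Finset.card_compl] at this

/-- The even part of `A`. -/
def A0 : Subgroup G where
  carrier := {x | ∃ s, EvenAt s ∧ F.cd s = x}
  one_mem' := ⟨∅, rfl, (F.cd_eq_one _).2 (Or.inl rfl)⟩
  mul_mem' := by
    rintro _ _ ⟨s, hs, rfl⟩ ⟨t, ht, rfl⟩
    exact ⟨s ∆ t, evenAt_symm s t hs ht, F.cd_symm s t⟩
  inv_mem' := by
    rintro _ ⟨s, hs, rfl⟩
    exact ⟨s, hs, (F.inv_eq (F.cd_mem s)).symm⟩

theorem A0_le : F.A0 ≤ F.A := by
  rintro _ ⟨s, -, rfl⟩; exact F.cd_mem s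

theorem z_mem_A0 : F.z ∈ F.A0 := ⟨{4}, rfl, rfl⟩

theorem cd_zero_notMem : F.cd {0} ∉ F.A0 := by
  rintro ⟨s, hs, he⟩
  rcases (F.cd_eq_iff _ _).1 he with rfl | rfl <;> revert hs <;> decide

theorem A0_conj {n : G} (hn : n ∈ normalizer (F.A : Set G)) (hz : n * F.z * n⁻¹ = F.z) {x : G}
    (hx : x ∈ F.A0) : n * x * n⁻¹ ∈ F.A0 := by
  obtain ⟨s, hs, rfl⟩ := hx
  refine ⟨s.image (F.π ⟨n, hn⟩ : Equiv.Perm (Fin 5)), ?_, (F.cd_conj' hn s).symm⟩
  have h4 := F.pi_fix_four hn hz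
  have he : (s.image (F.π ⟨n, hn⟩ : Equiv.Perm (Fin 5))).erase 4 =
      (s.erase 4).image (F.π ⟨n, hn⟩ : Equiv.Perm (Fin 5)) := by
    rw [Finset.image_erase (Equiv.injective _), h4]
  rw [EvenAt, he, Finset.card_image_of_injective _ (Equiv.injective _)]
  exact hs

/-- An involution of `T` over a given element of the four-group. -/
theorem exists_involution {σ : Equiv.Perm (Fin 5)} (h1 : Equiv.Perm.sign σ = 1) (h2 : σ 4 = 4)
    (h3 : σ * σ = 1) (h4 : σ ≠ 1) :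
    ∃ t, ∃ ht : t ∈ (F.T : Subgroup G), t ∉ F.A ∧ orderOf t = 2 ∧
      (F.π ⟨t, F.hTN ht⟩ : Equiv.Perm (Fin 5)) = σ := by
  obtain ⟨u, hu, huA, hu2⟩ := F.out
  obtain ⟨ρ, hρ, hρe⟩ := involution_conj _ σ
    (Equiv.Perm.mem_alternatingGroup.1 (F.π ⟨u, F.hTN hu⟩).2) h1 (F.T_pi_sq hu) h3
    (fun h => F.pi_ne_one hu huA (Subtype.ext h)) h4
  obtain ⟨n, hn⟩ := F.π_surj ⟨ρ, Equiv.Perm.mem_alternatingGroup.2 hρ⟩
  have hxN : (n : G) * u * (n : G)⁻¹ ∈ normalizer (F.A : Set G) :=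
    mul_mem (mul_mem n.2 (F.hTN hu)) (inv_mem n.2)
  have hπ : (F.π ⟨_, hxN⟩ : Equiv.Perm (Fin 5)) = σ := by
    rw [F.pi_conj hu hxN]
    simpa [hn] using hρe
  obtain ⟨t, ht, o, ho, hto⟩ := F.exists_T_O hxN (by rw [hπ]; exact h2) (by rw [hπ]; exact h3)
  have hπo : F.π ⟨o, F.O_le ho⟩ = 1 :=
    (F.π_eq_one _).2 ⟨1, one_mem _, o, ho, (one_mul o).symm⟩
  have hπt : (F.π ⟨t, F.hTN ht⟩ : Equiv.Perm (Fin 5)) = σ := by
    rw [← hπ, show (⟨_, hxN⟩ : ↥(normalizer (F.A : Set G))) = ⟨t, F.hTN ht⟩ * ⟨o, F.O_le ho⟩ from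
      Subtype.ext hto, map_mul, hπo, mul_one]
  have htA : t ∉ F.A := fun h => h4 (by
    rw [← hπt, (F.π_eq_one _).2 ⟨t, h, 1, one_mem _, (mul_one t).symm⟩]; rfl)
  have hxx : (n : G) * u * (n : G)⁻¹ * ((n : G) * u * (n : G)⁻¹) = 1 := by
    rw [show (n : G) * u * (n : G)⁻¹ * ((n : G) * u * (n : G)⁻¹) = n * (u * u) * (n : G)⁻¹ by group,
      CfsgLib.Involutions.mul_self_eq_one hu2, mul_one, mul_inv_cancel]
  have htt : t * t = 1 := by
    refine F.eq_one_of_mem_T_O (mul_mem ht ht) ?_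
    have h : t * t = (t * o * t⁻¹)⁻¹ * (t * o * (t * o)) * o⁻¹ := by group
    have hxx' : t * o * (t * o) = 1 := by rw [← hto]; exact hxx
    rw [h, hxx', mul_one]
    exact mul_mem (inv_mem ((mem_normalizer_iff.1 (F.hON (F.hTN ht)) o).1 ho)) (inv_mem ho)
  exact ⟨t, ht, htA, CfsgLib.Involutions.orderOf_eq_two_iff.2
    ⟨htt, fun h => htA (by rw [h]; exact one_mem _)⟩, hπt⟩

/-- Commuting involutions over `(01)(23)` and `(02)(13)`. -/
theorem exists_four :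
    ∃ u v, ∃ (hu : u ∈ (F.T : Subgroup G)) (hv : v ∈ (F.T : Subgroup G)),
      u * u = 1 ∧ v * v = 1 ∧ u * v = v * u ∧
      (F.π ⟨u, F.hTN hu⟩ : Equiv.Perm (Fin 5)) = Equiv.swap 0 1 * Equiv.swap 2 3 ∧
      (F.π ⟨v, F.hTN hv⟩ : Equiv.Perm (Fin 5)) = Equiv.swap 0 2 * Equiv.swap 1 3 := by
  obtain ⟨u, hu, -, hu2, hπu⟩ := F.exists_involution (σ := Equiv.swap 0 1 * Equiv.swap 2 3)
    (by decide) (by decide) (by decide) (by decide)
  obtain ⟨v, hv, -, hv2, hπv⟩ := F.exists_involution (σ := Equiv.swap 0 2 * Equiv.swap 1 3)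
    (by decide) (by decide) (by decide) (by decide)
  have huu := CfsgLib.Involutions.mul_self_eq_one hu2
  have hvv := CfsgLib.Involutions.mul_self_eq_one hv2
  have hui : u⁻¹ = u := inv_eq_of_mul_eq_one_left huu
  have hvi : v⁻¹ = v := inv_eq_of_mul_eq_one_left hvv
  set k := u * v * (u * v) with hk
  have hkA : k ∈ F.A := by
    have hkT : k ∈ (F.T : Subgroup G) := mul_mem (mul_mem hu hv) (mul_mem hu hv)
    refine F.pi_eq_one_of_involution_mem hkT (Subtype.ext ?_)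
    rw [show (⟨k, F.hTN hkT⟩ : ↥(normalizer (F.A : Set G))) =
      ⟨u, F.hTN hu⟩ * ⟨v, F.hTN hv⟩ * (⟨u, F.hTN hu⟩ * ⟨v, F.hTN hv⟩) from Subtype.ext rfl,
      map_mul, map_mul, Subgroup.coe_mul, Subgroup.coe_mul, hπu, hπv]
    decide
  have hku : u * k * u⁻¹ = k := by
    have h : u * k * u⁻¹ = k⁻¹ := by
      rw [hk]
      calc u * (u * v * (u * v)) * u⁻¹ = (u * u) * v * u * v * u⁻¹ := by group
        _ = v⁻¹ * u⁻¹ * v⁻¹ * u⁻¹ := by rw [huu, one_mul, hui, hvi]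
        _ = (u * v * (u * v))⁻¹ := by group
    rw [h, F.inv_eq hkA]
  have hkv : v * k * v⁻¹ = k := by
    have h : v * k * v⁻¹ = k⁻¹ := by
      rw [hk]
      calc v * (u * v * (u * v)) * v⁻¹ = v * u * v * u := by group
        _ = v⁻¹ * u⁻¹ * v⁻¹ * u⁻¹ := by rw [hui, hvi]
        _ = (u * v * (u * v))⁻¹ := by group
    rw [h, F.inv_eq hkA]
  obtain ⟨s, hs⟩ := F.cd_surj k hkA
  rw [← hs] at hku hkv
  rw [F.cd_conj' (F.hTN hu), hπu, F.cd_eq_iff] at hku
  rw [F.cd_conj' (F.hTN hv), hπv, F.cd_eq_iff] at hkv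
  have hk' : k = 1 ∨ k = F.z := by
    rcases fixed_both s hku hkv with rfl | rfl | rfl | rfl
    · exact Or.inl (hs.symm.trans ((F.cd_eq_one _).2 (Or.inl rfl)))
    · exact Or.inl (hs.symm.trans ((F.cd_eq_one _).2 (Or.inr rfl)))
    · exact Or.inr hs.symm
    · exact Or.inr (by rw [← hs, F.cd_compl]; rfl)
  rcases hk' with hk1 | hkz
  · refine ⟨u, v, hu, hv, huu, hvv, ?_, hπu, hπv⟩
    have h := eq_inv_of_mul_eq_one_right (hk.symm.trans hk1)
    rw [mul_inv_rev, hui, hvi] at h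
    exact h
  · set d := F.cd {0, 2} with hd
    have hdA : d ∈ F.A := F.cd_mem _
    have hdd : d * d = 1 := F.sq hdA
    have hvd : v * d * v⁻¹ = d := by
      rw [hd, F.cd_conj' (F.hTN hv), hπv, F.cd_eq_iff]
      left; decide
    have hud : u * d * u⁻¹ = F.cd {1, 3} := by
      rw [hd, F.cd_conj' (F.hTN hu), hπu, F.cd_eq_iff]
      left; decide
    have hvd' : v * d = d * v := mul_inv_eq_iff_eq_mul.1 hvd
    have hv' : v * d * (v * d) = 1 := by
      calc v * d * (v * d) = v * d * (d * v) := by rw [← hvd']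
        _ = v * (d * d) * v := by group
        _ = 1 := by rw [hdd, mul_one, hvv]
    have hdi : d⁻¹ = d := F.inv_eq hdA
    have hsq : u * (v * d) * (u * (v * d)) = 1 := by
      calc u * (v * d) * (u * (v * d)) = u * v * u * (u⁻¹ * d * u) * (v * d) := by group
        _ = u * v * u * F.cd {1, 3} * (v * d) := by
            rw [hui, show u * d * u = u * d * u⁻¹ by rw [hui], hud]
        _ = u * v * u * v * (v⁻¹ * F.cd {1, 3} * v) * d := by group
        _ = k * F.cd {1, 3} * d := by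
            rw [show v⁻¹ * F.cd {1, 3} * v = v * F.cd {1, 3} * v⁻¹ by rw [hvi],
              F.cd_conj' (F.hTN hv) {1, 3}, hπv, hk]
            rw [show ({1, 3} : Finset (Fin 5)).image
              (Equiv.swap 0 2 * Equiv.swap 1 3 : Equiv.Perm (Fin 5)) = {1, 3} by decide]
            group
        _ = 1 := by
            rw [hkz, z, hd, ← F.cd_symm, ← F.cd_symm]
            exact (F.cd_eq_one _).2 (Or.inr (by decide))
    refine ⟨u, v * d, hu, mul_mem hv (F.hAT hdA), huu, hv', ?_, hπu, ?_⟩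
    · have h := eq_inv_of_mul_eq_one_right hsq
      rw [mul_inv_rev, hui, inv_eq_of_mul_eq_one_left hv'] at h
      exact h
    · rw [show (⟨v * d, F.hTN (mul_mem hv (F.hAT hdA))⟩ : ↥(normalizer (F.A : Set G))) =
        ⟨v, F.hTN hv⟩ * ⟨d, F.A_le hdA⟩ from Subtype.ext rfl, map_mul,
        (F.π_eq_one ⟨d, F.A_le hdA⟩).2 ⟨d, hdA, 1, one_mem _, (mul_one d).symm⟩, mul_one, hπv]

/-- The data of `M`. -/
structure Half (F : Frame G) where
  M : Subgroup G
  M_le : M ≤ (F.T : Subgroup G)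
  z_mem : F.z ∈ M
  notMem : F.cd {0} ∉ M
  inf_A : ∀ x ∈ M, x ∈ F.A → x ∈ F.A0
  A0_le_M : F.A0 ≤ M
  out_mem : ∀ x ∈ (F.T : Subgroup G), x ∉ F.A → orderOf x = 2 → x ∈ M
  split : ∀ t ∈ (F.T : Subgroup G), t ∉ M → F.cd {0} * t ∈ M
  sq_mem : ∀ x ∈ M, x * x = 1 ∨ x * x = F.z
  invariant : ∀ n ∈ normalizer (F.A : Set G), n * F.z * n⁻¹ = F.z → ∀ x ∈ M,
    n * x * n⁻¹ ∈ (F.T : Subgroup G) → n * x * n⁻¹ ∈ M
  cent : ∀ t ∈ (F.T : Subgroup G), t ∈ centralizer (M : Set G) → t = 1 ∨ t = F.z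

theorem exists_half : Nonempty F.Half := by
  obtain ⟨u, v, hu, hv, huu, hvv, huv, hπu, hπv⟩ := F.exists_four
  set V0 : Subgroup G := closure {u, v} with hV0
  have hV : ∀ s ∈ V0, s = 1 ∨ s = u ∨ s = v ∨ s = u * v := by
    intro s hs
    induction hs using closure_induction with
    | mem x hx =>
      rcases hx with rfl | rfl
      · exact Or.inr (Or.inl rfl)
      · exact Or.inr (Or.inr (Or.inl rfl))
    | one => exact Or.inl rfl
    | mul a b _ _ ha hb =>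
      have e1 : v * u = u * v := huv.symm
      have e2 : ∀ x, v * (u * x) = u * (v * x) := fun x => by rw [← mul_assoc, e1, mul_assoc]
      have e3 : ∀ x, u * (u * x) = x := fun x => by rw [← mul_assoc, huu, one_mul]
      have e4 : ∀ x, v * (v * x) = x := fun x => by rw [← mul_assoc, hvv, one_mul]
      rcases ha with rfl | rfl | rfl | rfl <;> rcases hb with rfl | rfl | rfl | rfl <;>
        simp [mul_assoc, e1, e2, e3, e4, huu, hvv]
    | inv a _ ha =>
      have e1 : v * u = u * v := huv.symm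
      rcases ha with rfl | rfl | rfl | rfl
      · simp
      · simp [inv_eq_of_mul_eq_one_left huu]
      · simp [inv_eq_of_mul_eq_one_left hvv]
      · simp [mul_inv_rev, inv_eq_of_mul_eq_one_left huu, inv_eq_of_mul_eq_one_left hvv, e1]
  have hV0T : V0 ≤ (F.T : Subgroup G) := (closure_le _).2 (by rintro x (rfl | rfl) <;> assumption)
  have hVsq : ∀ s ∈ V0, s * s = 1 := fun s hs => by
    rcases hV s hs with rfl | rfl | rfl | rfl
    · simp
    · exact huu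
    · exact hvv
    · rw [show u * v * (u * v) = u * (v * u) * v by group, ← huv,
        show u * (u * v) * v = (u * u) * (v * v) by group, huu, hvv, one_mul]
  have hV1 : ∀ s (hs : s ∈ V0), s ∈ F.A → s = 1 := by
    intro s hs hsA
    have h1 : F.π ⟨s, F.hTN (hV0T hs)⟩ = 1 :=
      (F.π_eq_one _).2 ⟨s, hsA, 1, one_mem _, (mul_one s).symm⟩
    rcases hV s hs with rfl | rfl | rfl | rfl
    · rfl
    · exact absurd (hπu.symm.trans (congrArg Subtype.val h1)) (by decide)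
    · exact absurd (hπv.symm.trans (congrArg Subtype.val h1)) (by decide)
    · rw [show (⟨u * v, F.hTN (hV0T hs)⟩ : ↥(normalizer (F.A : Set G))) =
        ⟨u, F.hTN hu⟩ * ⟨v, F.hTN hv⟩ from Subtype.ext rfl, map_mul] at h1
      have := congrArg Subtype.val h1
      rw [Subgroup.coe_mul, hπu, hπv] at this
      exact absurd this (by decide)
  have hVz : ∀ s ∈ V0, s * F.z * s⁻¹ = F.z := fun s hs => mem_cent_conj.1 (F.T_le_cent (hV0T hs))
  have hVn : V0 ≤ normalizer (F.A0 : Set G) := fun s hs =>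
    CfsgLib.CoprimeAction.mem_normalizer_of_conj_mem fun x hx =>
      F.A0_conj (F.hTN (hV0T hs)) (hVz s hs) hx
  set M : Subgroup G := V0 ⊔ F.A0 with hM
  have hmemM : ∀ x, x ∈ M ↔ ∃ s ∈ V0, ∃ e ∈ F.A0, x = s * e := fun x => by
    rw [hM, ← SetLike.mem_coe, coe_mul_of_left_le_normalizer_right V0 F.A0 hVn, Set.mem_mul]
    exact ⟨fun ⟨s, hs, e, he, h⟩ => ⟨s, hs, e, he, h.symm⟩,
      fun ⟨s, hs, e, he, h⟩ => ⟨s, hs, e, he, h.symm⟩⟩
  have hMT : M ≤ (F.T : Subgroup G) := sup_le hV0T (F.A0_le.trans F.hAT)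
  have hinfA : ∀ x ∈ M, x ∈ F.A → x ∈ F.A0 := by
    intro x hx hxA
    obtain ⟨s, hs, e, he, rfl⟩ := (hmemM x).1 hx
    have : s ∈ F.A := by
      have := mul_mem hxA (inv_mem (F.A0_le he))
      rwa [mul_inv_cancel_right] at this
    rw [hV1 s hs this, one_mul]; exact he
  -- every element of `T` is in `V₀ A`
  have hsplit : ∀ t ∈ (F.T : Subgroup G), ∃ s ∈ V0, ∃ a ∈ F.A, t = s * a := by
    intro t ht
    obtain ⟨s, hsm, hπs⟩ : ∃ s, ∃ hs : s ∈ V0,
        (F.π ⟨s, F.hTN (hV0T hs)⟩ : Equiv.Perm (Fin 5)) = F.π ⟨t, F.hTN ht⟩ := by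
      have hu' : u ∈ V0 := subset_closure (Or.inl rfl)
      have hv' : v ∈ V0 := subset_closure (Or.inr rfl)
      rcases four_group _ (Equiv.Perm.mem_alternatingGroup.1 (F.π ⟨t, F.hTN ht⟩).2) (F.T_fix t ht)
        (F.T_pi_sq ht) with h | h | h | h
      · exact ⟨1, one_mem _, by rw [h]; exact congrArg Subtype.val (map_one F.π)⟩
      · exact ⟨u, hu', hπu.trans h.symm⟩
      · exact ⟨v, hv', hπv.trans h.symm⟩
      · refine ⟨u * v, mul_mem hu' hv', ?_⟩
        rw [show (⟨u * v, F.hTN (hV0T (mul_mem hu' hv'))⟩ : ↥(normalizer (F.A : Set G))) =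
          ⟨u, F.hTN hu⟩ * ⟨v, F.hTN hv⟩ from Subtype.ext rfl, map_mul, Subgroup.coe_mul, hπu, hπv, h]
        decide
    refine ⟨s, hsm, s⁻¹ * t, ?_, by group⟩
    refine F.pi_eq_one_of_involution_mem (mul_mem (inv_mem (hV0T hsm)) ht) ?_
    rw [show (⟨s⁻¹ * t, F.hTN (mul_mem (inv_mem (hV0T hsm)) ht)⟩ :
      ↥(normalizer (F.A : Set G))) = ⟨s, F.hTN (hV0T hsm)⟩⁻¹ * ⟨t, F.hTN ht⟩ from Subtype.ext rfl,
      map_mul, map_inv, Subtype.ext hπs, inv_mul_cancel]
  have hout : ∀ x ∈ (F.T : Subgroup G), x ∉ F.A → orderOf x = 2 → x ∈ M := by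
    intro x hx hxA hx2
    obtain ⟨s, hs, a, ha, rfl⟩ := hsplit x hx
    refine (hmemM _).2 ⟨s, hs, a, ?_, rfl⟩
    have hxx := CfsgLib.Involutions.mul_self_eq_one hx2
    have hss := hVsq s hs
    have hfix : s * a * s⁻¹ = a := by
      have h1 : s * a * s * a = 1 := by rw [← hxx]; group
      rw [inv_eq_of_mul_eq_one_left hss]
      rw [← F.inv_eq ha]
      exact (eq_inv_of_mul_eq_one_left (by rw [F.inv_eq ha]; exact h1))
    have hs1 : F.π ⟨s, F.hTN (hV0T hs)⟩ ≠ 1 := F.pi_ne_one (hV0T hs)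
      fun h => hxA (mul_mem h ha)
    obtain ⟨r, rfl⟩ := F.cd_surj a ha
    refine ⟨r, ?_, rfl⟩
    rw [F.cd_conj' (F.hTN (hV0T hs)), F.cd_eq_iff] at hfix
    exact evenAt_of_fixed _ (Equiv.Perm.mem_alternatingGroup.1 (F.π ⟨s, F.hTN (hV0T hs)⟩).2)
      (F.T_fix s (hV0T hs)) (F.T_pi_sq (hV0T hs)) (fun h => hs1 (Subtype.ext h)) r hfix
  refine ⟨{ M := M
            M_le := hMT
            z_mem := mem_sup_right F.z_mem_A0
            notMem := fun h => F.cd_zero_notMem (hinfA _ h (F.cd_mem _))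
            inf_A := hinfA
            A0_le_M := le_sup_right
            out_mem := hout
            split := ?_
            sq_mem := ?_
            invariant := ?_
            cent := ?_ }⟩
  · intro t ht htM
    obtain ⟨s, hs, a, ha, rfl⟩ := hsplit t ht
    obtain ⟨r, rfl⟩ := F.cd_surj a ha
    have hr : ¬ EvenAt r := fun h => htM ((hmemM _).2 ⟨s, hs, _, ⟨r, h, rfl⟩, rfl⟩)
    refine (hmemM _).2 ⟨s, hs, s⁻¹ * F.cd {0} * s * F.cd r, ?_, by group⟩
    have hs' : s⁻¹ ∈ normalizer (F.A : Set G) := inv_mem (F.hTN (hV0T hs))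
    have hsz : s⁻¹ * F.z * s⁻¹⁻¹ = F.z := hVz _ (inv_mem hs)
    have h0 : F.cd {0} * (s * F.cd r * s⁻¹) ∈ F.A0 := by
      rw [F.cd_conj' (F.hTN (hV0T hs)), ← F.cd_symm]
      refine ⟨_, odd_split _ ?_, rfl⟩
      rw [EvenAt, show ((r.image (F.π ⟨s, F.hTN (hV0T hs)⟩ : Equiv.Perm (Fin 5))).erase 4) =
        (r.erase 4).image (F.π ⟨s, F.hTN (hV0T hs)⟩ : Equiv.Perm (Fin 5)) by
          rw [Finset.image_erase (Equiv.injective _), F.T_fix s (hV0T hs)],
        Finset.card_image_of_injective _ (Equiv.injective _)]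
      exact hr
    have := F.A0_conj hs' hsz h0
    rw [inv_inv] at this
    convert this using 1
    group
  · intro x hx
    obtain ⟨s, hs, e, ⟨r, hr, rfl⟩, rfl⟩ := (hmemM x).1 hx
    have hss := hVsq s hs
    have hsi : s⁻¹ = s := inv_eq_of_mul_eq_one_left hss
    rw [show s * F.cd r * (s * F.cd r) = (s * F.cd r * s⁻¹) * (s * s) * F.cd r by group, hss,
      mul_one, F.cd_conj' (F.hTN (hV0T hs)), ← F.cd_symm, symmDiff_comm]
    rcases symm_image _ (Equiv.Perm.mem_alternatingGroup.1 (F.π ⟨s, F.hTN (hV0T hs)⟩).2)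
      (F.T_fix s (hV0T hs)) (F.T_pi_sq (hV0T hs)) r hr with h | h | h | h <;> rw [h]
    · exact Or.inl ((F.cd_eq_one _).2 (Or.inl rfl))
    · exact Or.inl ((F.cd_eq_one _).2 (Or.inr rfl))
    · exact Or.inr rfl
    · exact Or.inr (F.cd_compl _)
  · intro n hn hnz x hx hxT
    obtain ⟨s, hs, e, he, rfl⟩ := (hmemM x).1 hx
    have he' : n * e * n⁻¹ ∈ F.A0 := F.A0_conj hn hnz he
    have heq : n * (s * e) * n⁻¹ = n * s * n⁻¹ * (n * e * n⁻¹) := by group
    by_cases hs1 : s = 1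
    · rw [hs1, one_mul]; exact mem_sup_right he'
    have hy : n * s * n⁻¹ ∈ (F.T : Subgroup G) := by
      have := mul_mem hxT (inv_mem (F.hAT (F.A0_le he')))
      rwa [heq, mul_inv_cancel_right] at this
    rw [heq]
    refine mul_mem (hout _ hy ?_ ?_) (mem_sup_right he')
    · intro h
      have h' := F.mem_conj (inv_mem hn) h
      rw [show n⁻¹ * (n * s * n⁻¹) * n⁻¹⁻¹ = s by group] at h'
      exact hs1 (hV1 s hs h')
    · rw [CfsgLib.Involutions.orderOf_conj]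
      exact CfsgLib.Involutions.orderOf_eq_two_iff.2 ⟨hVsq s hs, hs1⟩
  · intro t ht htM
    obtain ⟨s, hs, a, ha, rfl⟩ := hsplit t ht
    have hfix : ∀ m ∈ M, s * a * m * (s * a)⁻¹ = m := fun m hm => by
      rw [← mem_centralizer_iff.1 htM m hm, mul_inv_cancel_right]
    have hσ : (F.π ⟨s, F.hTN (hV0T hs)⟩ : Equiv.Perm (Fin 5)) = 1 := by
      refine moves_even _ (Equiv.Perm.mem_alternatingGroup.1 (F.π ⟨s, F.hTN (hV0T hs)⟩).2)
        (F.T_fix s (hV0T hs)) fun r hr => ?_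
      rw [← F.cd_eq_iff, ← F.cd_conj' (F.hTN (hV0T hs))]
      have h := hfix (F.cd r) (mem_sup_right ⟨r, hr, rfl⟩)
      rw [show s * a * F.cd r * (s * a)⁻¹ = s * (a * F.cd r * a⁻¹) * s⁻¹ by group,
        F.comm ha (F.cd_mem r), mul_inv_cancel_right] at h
      exact h
    have hs1 : s = 1 := hV1 s hs (F.pi_eq_one_of_involution_mem (hV0T hs) (Subtype.ext hσ))
    subst hs1
    obtain ⟨r, rfl⟩ := F.cd_surj a ha
    rw [one_mul] at hfix ⊢
    have key : ∀ w ∈ V0, ∀ hwT : w ∈ (F.T : Subgroup G),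
        r.image (F.π ⟨w, F.hTN hwT⟩ : Equiv.Perm (Fin 5)) = r ∨
          r.image (F.π ⟨w, F.hTN hwT⟩ : Equiv.Perm (Fin 5)) = rᶜ := fun w hw hwT => by
      rw [← F.cd_eq_iff, ← F.cd_conj' (F.hTN hwT)]
      have h := mul_inv_eq_iff_eq_mul.1 (hfix w (mem_sup_left hw))
      rw [← h, mul_inv_cancel_right]
    have hu' := key u (subset_closure (Or.inl rfl)) hu
    have hv' := key v (subset_closure (Or.inr rfl)) hv
    rw [hπu] at hu'
    rw [hπv] at hv'
    rcases fixed_both r hu' hv' with rfl | rfl | rfl | rfl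
    · exact Or.inl ((F.cd_eq_one _).2 (Or.inl rfl))
    · exact Or.inl ((F.cd_eq_one _).2 (Or.inr rfl))
    · exact Or.inr rfl
    · exact Or.inr (F.cd_compl _)

end Frame

end CfsgLib.AEightThreeClasses
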