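import Cfsg.Agent.Lib.AEightThreeClasses.Action

/-!
With exactly three classes of involutions the action of `N(A)` on `A` is that on the subsets of five
points modulo complementation: the classes are represented by a singleton, a pair and an involution
outside `A`, so `A` is strongly closed.
-/

set_option autoImplicit false

namespace CfsgLib.AEightThreeClasses

open Subgroup Cfsg Equiv.Perm
open scoped symmDiff

universe u

variable {G : Type u} [Group G] [Finite G]

/-- `A` labelled by the subsets of five points modulo complementation. -/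
structure Frame (G : Type u) [Group G] extends Action G where
  cd : Finset (Fin 5) → G
  cd_mem : ∀ s, cd s ∈ A
  cd_symm : ∀ s t, cd (s ∆ t) = cd s * cd t
  cd_eq_one : ∀ s, cd s = 1 ↔ s = ∅ ∨ s = Finset.univ
  cd_surj : ∀ a ∈ A, ∃ s, cd s = a
  cd_conj : ∀ (n : ↥(normalizer (A : Set G))) (s : Finset (Fin 5)),
    (n : G) * cd s * (n : G)⁻¹ = cd (s.image (π n : Equiv.Perm (Fin 5)))
  T_fix : ∀ t (ht : t ∈ (T : Subgroup G)), (π ⟨t, hTN ht⟩ : Equiv.Perm (Fin 5)) 4 = 4
  out : ∃ u ∈ (T : Subgroup G), u ∉ A ∧ orderOf u = 2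
  not_conj_pair : ¬ IsConj (cd {4}) (cd {0, 1})
  not_conj_out : ∀ u ∈ (T : Subgroup G), u ∉ A → orderOf u = 2 → ∀ a ∈ A, ¬ IsConj a u

namespace Action

variable (F : Action G)

theorem pi_conj {n : ↥(normalizer (F.A : Set G))} {v : G} (hv : v ∈ (F.T : Subgroup G)) :
    ∀ h : (n : G) * v * (n : G)⁻¹ ∈ normalizer (F.A : Set G),
      F.π ⟨_, h⟩ = F.π n * F.π ⟨v, F.hTN hv⟩ * (F.π n)⁻¹ := by
  intro h
  rw [show (⟨_, h⟩ : ↥(normalizer (F.A : Set G))) = n * ⟨v, F.hTN hv⟩ * n⁻¹ from Subtype.ext rfl,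
    map_mul, map_mul, map_inv]

/-- All involutions of `T` outside `A` are conjugate in the normaliser of `A`. -/
theorem out_conj {u v : G} (hu : u ∈ (F.T : Subgroup G)) (huA : u ∉ F.A) (hu2 : orderOf u = 2)
    (hv : v ∈ (F.T : Subgroup G)) (hvA : v ∉ F.A) (hv2 : orderOf v = 2) : IsConj u v := by
  have hsq : ∀ {w : G} (hw : w ∈ (F.T : Subgroup G)), orderOf w = 2 →
      ((F.π ⟨w, F.hTN hw⟩ : Equiv.Perm (Fin 5)) * (F.π ⟨w, F.hTN hw⟩ : Equiv.Perm (Fin 5))) = 1 :=
    fun {w} hw hw2 => by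
      rw [← Subgroup.coe_mul, ← map_mul, show (⟨w, F.hTN hw⟩ * ⟨w, F.hTN hw⟩ :
        ↥(normalizer (F.A : Set G))) = 1 from Subtype.ext (CfsgLib.Involutions.mul_self_eq_one hw2),
        map_one]
      rfl
  have hne : ∀ {w : G} (hw : w ∈ (F.T : Subgroup G)), w ∉ F.A →
      (F.π ⟨w, F.hTN hw⟩ : Equiv.Perm (Fin 5)) ≠ 1 := fun {w} hw hwA h =>
    F.pi_ne_one hw hwA (Subtype.ext h)
  obtain ⟨ρ, hρ, hρe⟩ := involution_conj _ _ (mem_alternatingGroup.1 (F.π ⟨u, F.hTN hu⟩).2)
    (mem_alternatingGroup.1 (F.π ⟨v, F.hTN hv⟩).2) (hsq hu hu2) (hsq hv hv2) (hne hu huA)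
    (hne hv hvA)
  obtain ⟨n, hn⟩ := F.π_surj ⟨ρ, mem_alternatingGroup.2 hρ⟩
  set x : G := (n : G) * u * (n : G)⁻¹ with hx
  have hxN : x ∈ normalizer (F.A : Set G) := mul_mem (mul_mem n.2 (F.hTN hu)) (inv_mem n.2)
  have hπ : F.π ⟨x, hxN⟩ = F.π ⟨v, F.hTN hv⟩ := by
    rw [F.pi_conj hu hxN]
    refine Subtype.ext ?_
    simpa [hn] using hρe
  have h1 : F.π (⟨x, hxN⟩ * ⟨v, F.hTN hv⟩⁻¹) = 1 := by rw [map_mul, map_inv, hπ, mul_inv_cancel]
  obtain ⟨e, he, o, ho, heo⟩ := (F.π_eq_one _).1 h1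
  have hvv := CfsgLib.Involutions.mul_self_eq_one hv2
  have hvi : v⁻¹ = v := inv_eq_of_mul_eq_one_left hvv
  have hxeq : x = o * (e * v) := by
    have h : x * v⁻¹ = e * o := heo
    rw [show x = x * v⁻¹ * v by group, h,
      (mem_centralizer_iff.1 (F.hOC ho) e he : e * o = o * e)]
    group
  have hw : e * v * (e * v) = 1 := by
    refine eq_one_of_mem_odd (K := F.O) F.hO ?_ ?_
    · -- `(e v)²` lies in `A`, as does its square
      refine F.sq ?_
      have : e * v * (e * v) = e * (v * e * v⁻¹) := by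
        rw [hvi]; group
      rw [this]
      exact mul_mem he (F.mem_conj (F.hTN hv) he)
    · have hxx : x * x = 1 := by
        rw [hx, show (n : G) * u * (n : G)⁻¹ * ((n : G) * u * (n : G)⁻¹) = n * (u * u) * (n : G)⁻¹
          by group, CfsgLib.Involutions.mul_self_eq_one hu2, mul_one, mul_inv_cancel]
      rw [hxeq] at hxx
      have hev : e * v * o * (e * v)⁻¹ ∈ F.O :=
        (mem_normalizer_iff.1 (F.hON (mul_mem (F.A_le he) (F.hTN hv))) o).1 ho
      have : e * v * (e * v) = (o * (e * v * o * (e * v)⁻¹))⁻¹ := by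
        refine eq_inv_of_mul_eq_one_right ?_
        calc o * (e * v * o * (e * v)⁻¹) * (e * v * (e * v)) = o * (e * v) * (o * (e * v)) := by
              group
          _ = 1 := hxx
      rw [this]
      exact inv_mem (mul_mem ho hev)
  obtain ⟨d, -, hd⟩ := exists_conj_of_mem_coset (L := F.O) F.hO ho hw (by
    rw [← hxeq, hx, show (n : G) * u * (n : G)⁻¹ * ((n : G) * u * (n : G)⁻¹) = n * (u * u) * (n : G)⁻¹
      by group, CfsgLib.Involutions.mul_self_eq_one hu2, mul_one, mul_inv_cancel])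
  -- `e v` is an `A`-conjugate of `v`
  obtain ⟨-, hc⟩ := F.fix_involution hv hvA hv2
  obtain ⟨a, ha, hae⟩ := hc e ⟨he, mem_cent.2 (by
    have h := eq_inv_of_mul_eq_one_right hw
    rw [mul_inv_rev, hvi, F.inv_eq he] at h
    exact h)⟩
  refine (isConj_iff.2 ⟨(n : G), hx.symm⟩).trans ?_
  rw [hxeq, ← hd]
  refine (isConj_iff.2 ⟨d, rfl⟩).symm.trans ?_
  refine (isConj_iff.2 ⟨a, ?_⟩).symm
  rw [← hae]
  calc a * v * a⁻¹ = a * (v * a * v⁻¹) * v := by rw [F.inv_eq ha]; group
    _ = a * (v * a * v⁻¹) * v := rfl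

/-- The frame of a group with three classes of involutions. -/
theorem exists_frame
    (h3 : Nat.card {c : ConjClasses G // ∃ x ∈ c.carrier, orderOf x = 2} = 3) :
    ∃ F' : Frame G, F'.A = F.A := by
  classical
  haveI : Fact (Nat.Prime 2) := ⟨Nat.prime_two⟩
  haveI : Fact (Nat.Prime 5) := ⟨by norm_num⟩
  letI : CommGroup F.A := { (inferInstance : Group F.A) with
    mul_comm := fun a b => Subtype.ext (F.comm a.2 b.2) }
  -- a fixed element of `A`
  haveI : Group.IsNilpotent (F.T : Subgroup G) := F.T.2.isNilpotent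
  haveI : (F.A.subgroupOf (F.T : Subgroup G)).Normal :=
    normal_subgroupOf_of_le_normalizer F.hTN
  obtain ⟨⟨z, hzT⟩, hzA, hz1⟩ := (bot_or_exists_ne_one
      (F.A.subgroupOf (F.T : Subgroup G) ⊓ center (F.T : Subgroup G))).resolve_left
    (CfsgLib.PSolvable.inf_center_ne_bot (N := F.A.subgroupOf (F.T : Subgroup G)) (by
      intro h
      have hc := F.hA16
      rw [← Nat.card_congr (subgroupOfEquivOfLe F.hAT).toEquiv, h, card_bot] at hc
      omega))
  have hzfix : ∀ t ∈ (F.T : Subgroup G), t * z * t⁻¹ = z := fun t ht => by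
    rw [mul_inv_eq_iff_eq_mul]
    exact congrArg Subtype.val (mem_center_iff.1 hzA.2 ⟨t, ht⟩)
  have hz : z ∈ F.A := hzA.1
  have hz1' : z ≠ 1 := fun h => hz1 (Subtype.ext h)
  -- the action on `A` and the orbit of `z`
  letI : MulAction ↥(normalizer (F.A : Set G)) F.A := MulAction.compHom F.A F.A.normalizerMonoidHom
  have hsmul : ∀ (n : ↥(normalizer (F.A : Set G))) (a : F.A),
      ((n • a : F.A) : G) = (n : G) * a * (n : G)⁻¹ := fun n a => rfl
  set St := MulAction.stabilizer ↥(normalizer (F.A : Set G)) (⟨z, hz⟩ : F.A) with hSt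
  have hker : F.π.ker ≤ St := fun n hn => Subtype.ext (F.fix_of_pi_eq_one hn hz)
  have hidx : (St.map F.π).index = (MulAction.orbit ↥(normalizer (F.A : Set G))
      (⟨z, hz⟩ : F.A)).ncard := by
    rw [index_map_eq _ F.π_surj hker, hSt, MulAction.index_stabilizer]
  set ρT : (F.T : Subgroup G) →* ↥(alternatingGroup (Fin 5)) :=
    F.π.comp (inclusion F.hTN) with hρT
  have hρker : ρT.ker = F.A.subgroupOf (F.T : Subgroup G) := by
    ext ⟨t, ht⟩
    exact ⟨fun h => F.pi_eq_one_of_involution_mem ht h,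
      fun h => (F.π_eq_one _).2 ⟨t, h, 1, one_mem _, (mul_one t).symm⟩⟩
  have hρcard : Nat.card ρT.range = 4 := by
    have h := ρT.ker.card_mul_index
    rw [index_ker, hρker, Nat.card_congr (subgroupOfEquivOfLe F.hAT).toEquiv, F.hA16, F.hT] at h
    omega
  have hle : ρT.range ≤ St.map F.π := by
    rintro _ ⟨⟨t, ht⟩, rfl⟩
    exact ⟨⟨t, F.hTN ht⟩, Subtype.ext (hzfix t ht), rfl⟩
  have h5 : ¬ 5 ∣ Nat.card (St.map F.π) := by
    intro h
    obtain ⟨⟨_, r, hr, rfl⟩, hx⟩ := exists_prime_orderOf_dvd_card' 5 h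
    replace hx : orderOf (F.π r) = 5 := by rw [← Subgroup.orderOf_coe] at hx; exact hx
    exact hz1' (F.fix_five (by have := pow_orderOf_eq_one (F.π r); rwa [hx] at this)
      (fun h => by rw [h, orderOf_one] at hx; omega) hz (congrArg Subtype.val hr))
  have horb : (MulAction.orbit ↥(normalizer (F.A : Set G)) (⟨z, hz⟩ : F.A)).ncard = 5 ∨
      (MulAction.orbit ↥(normalizer (F.A : Set G)) (⟨z, hz⟩ : F.A)).ncard = 15 := by
    rw [← hidx]
    have h60 : Nat.card (St.map F.π) * (St.map F.π).index = 60 := by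
      rw [card_mul_index, nat_card_alternatingGroup, Nat.card_fin]; rfl
    have h4 : 4 ∣ Nat.card (St.map F.π) := hρcard ▸ card_dvd_of_le hle
    obtain ⟨k, hk⟩ := h4
    rw [hk] at h60 h5
    have hki : k * (St.map F.π).index = 15 := by nlinarith
    have hk15 : k ∣ 15 := Dvd.intro _ hki
    have hk1 : k ≤ 15 := Nat.le_of_dvd (by norm_num) hk15
    interval_cases k <;> omega
  -- the class count
  have hcount : ∀ r₁ r₂ r₃ : G, (∀ x : G, orderOf x = 2 → x ∈ (F.T : Subgroup G) →
      IsConj r₁ x ∨ IsConj r₂ x ∨ IsConj r₃ x) →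
      ¬ IsConj r₁ r₂ ∧ ¬ IsConj r₁ r₃ ∧ ¬ IsConj r₂ r₃ := by
    intro r₁ r₂ r₃ hall
    have hsub : {c : ConjClasses G | ∃ x ∈ c.carrier, orderOf x = 2} ⊆
        (({ConjClasses.mk r₁, ConjClasses.mk r₂, ConjClasses.mk r₃} : Finset (ConjClasses G)) :
          Set (ConjClasses G)) := by
      rintro c ⟨x, hx, hx2⟩
      have hxc : ConjClasses.mk x = c := ConjClasses.mem_carrier_iff_mk_eq.1 hx
      obtain ⟨Q, hQ⟩ := (IsPGroup.of_card (n := 1) (G := zpowers x)
        (by rw [Nat.card_zpowers, hx2, pow_one])).exists_le_sylow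
      obtain ⟨g, hg⟩ := MulAction.exists_smul_eq G Q F.T
      have hgx : g * x * g⁻¹ ∈ (F.T : Subgroup G) := by
        rw [← hg]; exact ⟨x, hQ (mem_zpowers x), rfl⟩
      have hc' : ConjClasses.mk (g * x * g⁻¹) = c :=
        (ConjClasses.mk_eq_mk_iff_isConj.2 (isConj_iff.2 ⟨g, rfl⟩).symm).trans hxc
      simp only [Finset.coe_insert, Finset.coe_singleton, Set.mem_insert_iff, Set.mem_singleton_iff,
        ← hc', ConjClasses.mk_eq_mk_iff_isConj]
      rcases hall _ (by rw [CfsgLib.Involutions.orderOf_conj, hx2]) hgx with h | h | h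
      · exact Or.inl h.symm
      · exact Or.inr (Or.inl h.symm)
      · exact Or.inr (Or.inr h.symm)
    have hc3 := Set.ncard_le_ncard hsub (Finset.finite_toSet _)
    rw [← Nat.card_coe_set_eq, Set.coe_setOf, h3, Set.ncard_coe_finset] at hc3
    refine ⟨fun h => ?_, fun h => ?_, fun h => ?_⟩ <;>
    · rw [← ConjClasses.mk_eq_mk_iff_isConj] at h
      simp only [h] at hc3
      have := Finset.card_le_two (a := ConjClasses.mk r₂) (b := ConjClasses.mk r₃)
      simp at hc3
      first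
        | omega
        | (have h' := hc3.trans Finset.card_le_two; omega)
  rcases horb with horb | horb
  swap
  · -- one orbit on `A` leaves at most two classes
    exfalso
    have hAconj : ∀ a ∈ F.A, a ≠ 1 → IsConj z a := by
      intro a ha ha1
      have hsub : MulAction.orbit ↥(normalizer (F.A : Set G)) (⟨z, hz⟩ : F.A) ⊆ {1}ᶜ := by
        rintro _ ⟨n, rfl⟩ h
        exact hz1' (by simpa [hsmul] using congrArg Subtype.val (Set.mem_singleton_iff.1 h))
      have heq := Set.eq_of_subset_of_ncard_le hsub (by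
        rw [horb, Set.ncard_compl, Set.ncard_singleton, F.hA16])
      have hmem : (⟨a, ha⟩ : F.A) ∈ ({1}ᶜ : Set F.A) := fun h => ha1 (congrArg Subtype.val h)
      rw [← heq] at hmem
      obtain ⟨n, hn⟩ := hmem
      exact isConj_iff.2 ⟨n, congrArg Subtype.val hn⟩
    by_cases hu : ∃ u ∈ (F.T : Subgroup G), u ∉ F.A ∧ orderOf u = 2
    · obtain ⟨u, huT, huA, hu2⟩ := hu
      refine (hcount z z u fun x hx hxT => ?_).1 (IsConj.refl z)
      by_cases hxA : x ∈ F.A
      · exact Or.inl (hAconj x hxA (CfsgLib.Involutions.ne_one hx))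
      · exact Or.inr (Or.inr (F.out_conj huT huA hu2 hxT hxA hx))
    · refine (hcount z z z fun x hx hxT => Or.inl ?_).1 (IsConj.refl z)
      refine hAconj x ?_ (CfsgLib.Involutions.ne_one hx)
      by_contra hxA
      exact hu ⟨x, hxT, hxA, hx⟩
  -- the labelling
  set O5 := MulAction.orbit ↥(normalizer (F.A : Set G)) (⟨z, hz⟩ : F.A) with hO5
  letI : Fintype O5 := Fintype.ofFinite _
  let e₀ : Fin 5 ≃ O5 := (Fintype.equivFinOfCardEq (by
    rw [← Nat.card_eq_fintype_card, Nat.card_coe_set_eq, horb])).symm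
  let e : Fin 5 ≃ O5 := (Equiv.swap 4 (e₀.symm ⟨⟨z, hz⟩, MulAction.mem_orbit_self _⟩)).trans e₀
  have he4 : (e 4 : F.A) = ⟨z, hz⟩ := by simp [e]
  set ψ : ↥(normalizer (F.A : Set G)) →* Equiv.Perm (Fin 5) :=
    (Equiv.permCongrHom e.symm).toMonoidHom.comp (MulAction.toPermHom _ O5) with hψ
  have hψv : ∀ n i, (n • (e i : F.A) : F.A) = (e (ψ n i) : F.A) := by
    intro n i
    simp [hψ, Equiv.permCongrHom]
    rfl
  have hψker : ∀ n, F.π n = 1 → ψ n = 1 := fun n hn => Equiv.ext fun i => e.injective (Subtype.ext (by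
    rw [← hψv, Equiv.Perm.one_apply]
    exact Subtype.ext (F.fix_of_pi_eq_one hn (e i : F.A).2)))
  -- the kernel is no larger
  have hψinj : ∀ n, ψ n = 1 → F.π n = 1 := by
    intro n hn
    have hN : (ψ.ker.map F.π).Normal := Subgroup.Normal.map inferInstance _ F.π_surj
    rcases IsSimpleGroup.eq_bot_or_eq_top_of_normal _ hN with h | h
    · exact mem_bot.1 (h ▸ mem_map_of_mem _ hn)
    · exfalso
      have hall : ∀ m, ψ m = 1 := fun m => by
        obtain ⟨c, hc, hcm⟩ : F.π m ∈ ψ.ker.map F.π := h ▸ mem_top _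
        have : ψ (c⁻¹ * m) = 1 := hψker _ (by rw [map_mul, map_inv, hcm, inv_mul_cancel])
        rwa [map_mul, map_inv, MonoidHom.mem_ker.1 hc, inv_one, one_mul] at this
      have hone : O5 ⊆ {⟨z, hz⟩} := by
        rintro _ ⟨m, rfl⟩
        have := hψv m 4
        rw [hall m, Equiv.Perm.one_apply, he4] at this
        exact this
      have := Set.ncard_le_ncard hone
      rw [horb, Set.ncard_singleton] at this
      omega
  have hkereq : ψ.ker = F.π.ker := SetLike.ext fun n => ⟨hψinj n, hψker n⟩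
  have hψalt : ψ.range = alternatingGroup (Fin 5) := by
    refine eq_alternatingGroup_of_index_eq_two ?_
    have h1 : ψ.ker.index = 60 := by
      rw [hkereq, index_ker, MonoidHom.range_eq_top.2 F.π_surj, card_top,
        nat_card_alternatingGroup, Nat.card_fin]
      rfl
    have h2 := ψ.range.card_mul_index
    rw [← index_ker, h1, Nat.card_perm, Nat.card_fin, show (5 : ℕ).factorial = 120 from rfl] at h2
    omega
  let π' : ↥(normalizer (F.A : Set G)) →* ↥(alternatingGroup (Fin 5)) :=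
    ψ.codRestrict _ fun n => by rw [← hψalt]; exact ⟨n, rfl⟩
  let F1 : Action G :=
    { F with
      π := π'
      π_surj := fun σ => by
        obtain ⟨n, hn⟩ : (σ : Equiv.Perm (Fin 5)) ∈ ψ.range := by rw [hψalt]; exact σ.2
        exact ⟨n, Subtype.ext hn⟩
      π_eq_one := fun n => by
        rw [← F.π_eq_one]
        exact ⟨fun h => hψinj n (congrArg Subtype.val h), fun h => Subtype.ext (hψker n h)⟩ }
  let w : Fin 5 → F.A := fun i => (e i : F.A)
  have hwinj : Function.Injective w := Subtype.val_injective.comp e.injective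
  have hw2 : ∀ i, w i * w i = 1 := fun i => Subtype.ext (F.sq (w i).2)
  have hw1 : ∀ i, w i ≠ 1 := fun i h => by
    obtain ⟨n, hn⟩ := (e i).2
    have h' : (n : G) * z * (n : G)⁻¹ = 1 := congrArg Subtype.val (hn.trans h)
    exact hz1' (conj_eq_one_iff.1 h')
  have hwconj : ∀ (n : ↥(normalizer (F.A : Set G))) (i : Fin 5), (n : G) * (w i : G) * (n : G)⁻¹ = (w (ψ n i) : G) := fun n i =>
    congrArg Subtype.val (hψv n i)
  set p : Finset (Fin 5) → F.A := fun s => ∏ i ∈ s, w i with hp
  have hpsymm : ∀ s t, p (s ∆ t) = p s * p t := by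
    intro s t
    simp only [hp]
    rw [← Fintype.prod_ite_mem (s ∆ t), ← Fintype.prod_ite_mem s, ← Fintype.prod_ite_mem t,
      ← Finset.prod_mul_distrib]
    refine Finset.prod_congr rfl fun i _ => ?_
    by_cases hs : i ∈ s <;> by_cases ht : i ∈ t <;> simp [Finset.mem_symmDiff, hs, ht, hw2]
  have hpconj : ∀ (n : ↥(normalizer (F.A : Set G))) (s : Finset (Fin 5)), (n : G) * (p s : G) * (n : G)⁻¹ = (p (s.image (ψ n)) : G) := by
    intro n s
    induction s using Finset.induction_on with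
    | empty => simp [hp]
    | insert i s hi ih =>
      have hins : p (insert i s) = w i * p s := Finset.prod_insert hi
      have him : p ((insert i s).image (ψ n)) = w (ψ n i) * p (s.image (ψ n)) := by
        rw [Finset.image_insert]
        exact Finset.prod_insert (fun h => hi (by simpa using h))
      rw [hins, him, Subgroup.coe_mul, Subgroup.coe_mul, ← hwconj n i, ← ih]
      group
  have hpu : p Finset.univ = 1 := by
    obtain ⟨ρ, hρ, h5, hne⟩ := order_five_product (Equiv.swap 0 1 * Equiv.swap 2 3) (by decide)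
      (by decide) (by decide)
    obtain ⟨r, hr⟩ := F1.π_surj ⟨_, mem_alternatingGroup.2 (show
      sign (Equiv.swap (0 : Fin 5) 1 * Equiv.swap 2 3 *
        (ρ * (Equiv.swap 0 1 * Equiv.swap 2 3) * ρ⁻¹)) = 1 by simp [hρ])⟩
    refine Subtype.ext (F1.fix_five (r := r) ?_ ?_ (p Finset.univ).2 ?_)
    · rw [hr]; exact Subtype.ext h5
    · rw [hr]; exact fun h => hne (congrArg Subtype.val h)
    · rw [hpconj, Finset.image_univ_equiv]
  have hpcompl : ∀ s, p sᶜ = p s := fun s => by
    rw [show sᶜ = s ∆ Finset.univ by ext i; simp [Finset.mem_symmDiff], hpsymm, hpu, mul_one]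
  have hp1 : ∀ s, p s = 1 → s = ∅ ∨ s = Finset.univ := by
    intro s hs
    rcases subset_cases s with h | h | ⟨i, hi⟩ | ⟨i, j, hij, h⟩
    · exact Or.inl h
    · exact Or.inr h
    · exfalso
      have : p {i} = 1 := by
        rcases hi with rfl | h
        · exact hs
        · rw [← h, hpcompl, hs]
      exact hw1 i (by simpa [hp] using this)
    · exfalso
      have : p {i, j} = 1 := by
        rcases h with rfl | h
        · exact hs
        · rw [← h, hpcompl, hs]
      have h' : w i * w j = 1 := by simpa [hp, Finset.prod_pair hij] using this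
      exact hij (hwinj ((mul_eq_one_iff_eq_inv.1 h').trans (inv_eq_of_mul_eq_one_left (hw2 j))))
  have hpsurj : ∀ a ∈ F.A, ∃ s, (p s : G) = a := by
    intro a ha
    let f : {s : Finset (Fin 5) // (4 : Fin 5) ∉ s} → F.A := fun s => p s
    have hinj : Function.Injective f := by
      rintro ⟨s, hs⟩ ⟨t, ht⟩ h
      have h' : p (s ∆ t) = 1 := by
        rw [hpsymm]; change f ⟨s, hs⟩ * f ⟨t, ht⟩ = 1
        rw [h]; exact Subtype.ext (F.sq (f ⟨t, ht⟩).2)
      rcases hp1 _ h' with h'' | h''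
      · exact Subtype.ext (symmDiff_eq_bot.1 h'')
      · have := Finset.mem_univ (4 : Fin 5)
        rw [← h''] at this
        simp [Finset.mem_symmDiff, hs, ht] at this
    obtain ⟨⟨s, hs4⟩, hsa⟩ := (hinj.bijective_of_nat_card_le (by
      rw [F.hA16, Nat.card_eq_fintype_card]; decide)).2 ⟨a, ha⟩
    exact ⟨s, congrArg Subtype.val hsa⟩
  have hzp : (p {4} : G) = z := by
    change ((∏ i ∈ ({4} : Finset (Fin 5)), w i : F.A) : G) = z
    rw [Finset.prod_singleton]
    exact congrArg Subtype.val he4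
  have hrep : ∀ a ∈ F.A, a ≠ 1 → IsConj z a ∨ IsConj (p {0, 1} : G) a := by
    intro a ha ha1
    obtain ⟨s, rfl⟩ := hpsurj a ha
    rcases subset_cases s with rfl | rfl | ⟨i, hi⟩ | ⟨i, j, hij, h⟩
    · exact absurd (by simp [hp]) ha1
    · exact absurd (by rw [hpu]; rfl) ha1
    · left
      obtain ⟨σ, hσ, hσ4⟩ := even_perm_point i
      obtain ⟨n, hn⟩ := F1.π_surj ⟨σ, mem_alternatingGroup.2 hσ⟩
      refine isConj_iff.2 ⟨n, ?_⟩
      rw [← hzp, hpconj, show ψ n = σ from congrArg Subtype.val hn, Finset.image_singleton, hσ4]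
      rcases hi with rfl | h
      · rfl
      · rw [← h, hpcompl]
    · right
      obtain ⟨σ, hσ, hσe⟩ := even_perm_pair i j hij
      obtain ⟨n, hn⟩ := F1.π_surj ⟨σ, mem_alternatingGroup.2 hσ⟩
      refine isConj_iff.2 ⟨n, ?_⟩
      rw [hpconj, show ψ n = σ from congrArg Subtype.val hn, Finset.image_insert,
        Finset.image_singleton, hσe]
      rcases h with rfl | h
      · rfl
      · rw [← h, hpcompl]
  obtain ⟨u, huT, huA, hu2⟩ : ∃ u ∈ (F.T : Subgroup G), u ∉ F.A ∧ orderOf u = 2 := by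
    by_contra hu
    refine (hcount z (p {0, 1} : G) z fun x hx hxT => ?_).2.1 (IsConj.refl z)
    have hxA : x ∈ F.A := by_contra fun h => hu ⟨x, hxT, h, hx⟩
    exact (hrep x hxA (CfsgLib.Involutions.ne_one hx)).imp id Or.inl
  obtain ⟨n12, n13, n23⟩ := hcount z (p {0, 1} : G) u fun x hx hxT => by
    by_cases hxA : x ∈ F.A
    · exact (hrep x hxA (CfsgLib.Involutions.ne_one hx)).imp id Or.inl
    · exact Or.inr (Or.inr (F.out_conj huT huA hu2 hxT hxA hx))
  refine ⟨{ F1 with
    cd := fun s => (p s : G)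
    cd_mem := fun s => (p s).2
    cd_symm := fun s t => congrArg Subtype.val (hpsymm s t)
    cd_eq_one := fun s => ⟨fun h => hp1 s (Subtype.ext h), fun h => by
      rcases h with rfl | rfl
      · simp [hp]
      · rw [hpu]; rfl⟩
    cd_surj := hpsurj
    cd_conj := hpconj
    T_fix := fun t ht => e.injective (Subtype.ext (by
      change (e (ψ _ 4) : F.A) = e 4
      rw [← hψv, he4]
      exact Subtype.ext (hzfix t ht)))
    out := ⟨u, huT, huA, hu2⟩
    not_conj_pair := by rw [hzp]; exact n12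
    not_conj_out := ?_ }, rfl⟩
  intro v hv hvA hv2 a ha hav
  have huv := F.out_conj huT huA hu2 hv hvA hv2
  have ha1 : a ≠ 1 := fun h => by
    have h2 := CfsgLib.Involutions.orderOf_eq_of_isConj hav
    rw [h, orderOf_one, hv2] at h2
    omega
  rcases hrep a ha ha1 with h | h
  · exact n13 (h.trans (hav.trans huv.symm))
  · exact n23 (h.trans (hav.trans huv.symm))

end Action

end CfsgLib.AEightThreeClasses
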