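import Cfsg.Agent.Lib.AEightThreeClasses.CentA

/-!
A group with a Sylow 2-subgroup of the type of that of the alternating group of degree eight, three
classes of involutions and an elementary abelian subgroup of order sixteen whose normaliser induces
the alternating group of degree five on it: that subgroup is normal modulo the odd core.
-/

set_option autoImplicit false

namespace CfsgLib.AEightThreeClasses

open Subgroup Cfsg

universe u

variable {G : Type u} [Group G] [Finite G]

theorem sup_oddCore_normal (S : Sylow 2 G) (P : Sylow 2 ↥(alternatingGroup (Fin 8)))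
    (hS : Nonempty (↥(S : Subgroup G) ≃* ↥(P : Subgroup ↥(alternatingGroup (Fin 8)))))
    (h3 : Nat.card {c : ConjClasses G // ∃ x ∈ c.carrier, orderOf x = 2} = 3)
    (A : Subgroup G) (hA : IsElementaryAbelian 2 A) (hA16 : Nat.card ↥A = 16)
    (hNA : ∃ (_ : (A.subgroupOf (normalizer (A : Set G)) ⊔
        oddCore ↥(normalizer (A : Set G))).Normal),
      Nonempty (↥(normalizer (A : Set G)) ⧸
        (A.subgroupOf (normalizer (A : Set G)) ⊔ oddCore ↥(normalizer (A : Set G))) ≃*
          ↥(alternatingGroup (Fin 5)))) :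
    (A ⊔ oddCore G).Normal := by
  classical
  haveI : Fact (Nat.Prime 2) := ⟨Nat.prime_two⟩
  set N := normalizer (A : Set G) with hN
  obtain ⟨hn, ⟨e⟩⟩ := hNA
  set AO := A.subgroupOf N ⊔ oddCore ↥N with hAO
  set O : Subgroup G := (oddCore ↥N).map N.subtype with hO
  let π : ↥N →* ↥(alternatingGroup (Fin 5)) := e.toMonoidHom.comp (QuotientGroup.mk' AO)
  have hπ1 : ∀ n, π n = 1 ↔ n ∈ AO := fun n => by
    simp [π]
  haveI hAn : (A.subgroupOf N).Normal := normal_subgroupOf_of_le_normalizer le_rfl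
  have hmemAO : ∀ n, n ∈ AO ↔ ∃ a ∈ A, ∃ o ∈ O, (n : G) = a * o := by
    intro n
    rw [hAO, mem_sup_of_normal_right]
    constructor
    · rintro ⟨a, ha, o, ho, rfl⟩
      exact ⟨a, ha, o, ⟨o, ho, rfl⟩, rfl⟩
    · rintro ⟨a, ha, _, ⟨o, ho, rfl⟩, h⟩
      exact ⟨⟨a, le_normalizer ha⟩, ha, o, ho, Subtype.ext h.symm⟩
  have hOodd : Odd (Nat.card O) := by
    rw [hO, card_map_of_injective N.subtype_injective]; exact CfsgLib.Cores.odd_card_oddCore
  have hOC : O ≤ centralizer (A : Set G) := by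
    rintro _ ⟨o, ho, rfl⟩
    refine mem_centralizer_iff.2 fun a ha => ?_
    have haN : a ∈ N := le_normalizer ha
    have hc : (o : G) * a * (o : G)⁻¹ * a⁻¹ = 1 := by
      refine eq_one_of_mem_odd hOodd ?_ ?_
      · rw [← pow_two]
        exact hA.2 _ (mul_mem ((mem_normalizer_iff.1 o.2 a).1 ha) (inv_mem ha))
      · refine ⟨o * (⟨a, haN⟩ * o⁻¹ * (⟨a, haN⟩)⁻¹),
          mul_mem ho ((inferInstance : (oddCore ↥N).Normal).conj_mem _ (inv_mem ho) _), ?_⟩
        change (o : G) * (a * (o : G)⁻¹ * a⁻¹) = _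
        group
    rw [mul_inv_eq_one, mul_inv_eq_iff_eq_mul] at hc
    exact hc.symm
  have hON : N ≤ normalizer (O : Set G) := fun n hn' => by
    refine CfsgLib.CoprimeAction.mem_normalizer_of_conj_mem ?_
    rintro _ ⟨o, ho, rfl⟩
    exact ⟨⟨n, hn'⟩ * o * ⟨n, hn'⟩⁻¹,
      (inferInstance : (oddCore ↥N).Normal).conj_mem o ho _, rfl⟩
  -- orders
  have h8 : Nat.card ↥(alternatingGroup (Fin 8)) = 2 ^ 6 * 315 := by
    rw [nat_card_alternatingGroup, Nat.card_fin]; rfl
  have hS64 : Nat.card (S : Subgroup G) = 64 := by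
    rw [Nat.card_congr hS.some.toEquiv, P.card_eq_multiplicity, h8,
      Nat.factorization_mul (by norm_num) (by norm_num),
      Finsupp.add_apply, Nat.Prime.factorization_pow Nat.prime_two, Finsupp.single_eq_same,
      Nat.factorization_eq_zero_of_not_dvd (by norm_num : ¬ 2 ∣ 315)]
    rfl
  have hAOcard : Nat.card AO = 16 * Nat.card (oddCore ↥N) := by
    refine Nat.dvd_antisymm ?_ ?_
    · have h := CfsgLib.Cores.card_sup_dvd (A.subgroupOf N) (oddCore ↥N)
      rwa [Nat.card_congr (subgroupOfEquivOfLe (le_normalizer : A ≤ N)).toEquiv, hA16] at h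
    · refine Nat.Coprime.mul_dvd_of_dvd_of_dvd ?_ ?_ ?_
      · exact Nat.Coprime.pow_left 4 (Nat.coprime_two_left.2 CfsgLib.Cores.odd_card_oddCore)
      · have := card_dvd_of_le (le_sup_left : A.subgroupOf N ≤ AO)
        rwa [Nat.card_congr (subgroupOfEquivOfLe (le_normalizer : A ≤ N)).toEquiv, hA16] at this
      · exact card_dvd_of_le le_sup_right
  have hNcard : Nat.card ↥N = 2 ^ 6 * (15 * Nat.card (oddCore ↥N)) := by
    rw [AO.card_eq_card_quotient_mul_card_subgroup, Nat.card_congr e.toEquiv,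
      nat_card_alternatingGroup, Nat.card_fin, hAOcard, show (5 : ℕ).factorial / 2 = 60 from rfl]
    ring
  obtain ⟨R⟩ : Nonempty (Sylow 2 ↥N) := inferInstance
  have hR : Nat.card (R : Subgroup ↥N) = 64 := by
    have hpos : 0 < Nat.card (oddCore ↥N) := Nat.card_pos
    rw [R.card_eq_multiplicity, hNcard, Nat.factorization_mul (by norm_num) (by positivity),
      Finsupp.add_apply, Nat.Prime.factorization_pow Nat.prime_two, Finsupp.single_eq_same,
      Nat.factorization_eq_zero_of_not_dvd]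
    · rfl
    · intro h
      rcases (Nat.Prime.dvd_mul Nat.prime_two).1 h with h | h
      · omega
      · exact (Nat.not_even_iff_odd.2 CfsgLib.Cores.odd_card_oddCore) (even_iff_two_dvd.2 h)
  obtain ⟨T, hT⟩ := (R.2.map N.subtype).exists_le_sylow
  have hT64 : Nat.card (T : Subgroup G) = 64 := by
    rw [Nat.card_congr (T.equiv S).toEquiv, hS64]
  have hTR : (R : Subgroup ↥N).map N.subtype = (T : Subgroup G) := eq_of_le_of_card_ge hT (by
    rw [card_map_of_injective N.subtype_injective, hR, hT64])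
  have hTN : (T : Subgroup G) ≤ N := hTR ▸ map_subtype_le _
  have hAT : A ≤ (T : Subgroup G) := by
    have hAp : IsPGroup 2 (A.subgroupOf N) := fun x => ⟨1, Subtype.ext (Subtype.ext (by
      rw [pow_one]; exact hA.2 _ x.2))⟩
    intro a ha
    rw [← hTR]
    exact ⟨⟨a, le_normalizer ha⟩, IsPGroup.le_sylow_of_normal hAp R ha, rfl⟩
  -- an element with a small centraliser
  have hx : ∃ x ∈ (T : Subgroup G),
      Nat.card ↥((T : Subgroup G) ⊓ centralizer ({x} : Set G)) ≤ 16 := by
    set x8 : ↥(alternatingGroup (Fin 8)) :=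
      ⟨eightElt, Equiv.Perm.mem_alternatingGroup.2 eightElt_sign⟩ with hx8
    have hx8o : orderOf x8 ∣ 2 ^ 2 := orderOf_dvd_of_pow_eq_one (Subtype.ext eightElt_pow)
    obtain ⟨i, -, hi⟩ := (Nat.dvd_prime_pow Nat.prime_two).1 hx8o
    obtain ⟨Q, hQ⟩ := (IsPGroup.of_card (n := i) (G := zpowers x8)
      (by rw [Nat.card_zpowers, hi])).exists_le_sylow
    let φ : (T : Subgroup G) ≃* (Q : Subgroup ↥(alternatingGroup (Fin 8))) :=
      (T.equiv S).trans (hS.some.trans (P.equiv Q))
    set t := φ.symm ⟨x8, hQ (mem_zpowers _)⟩ with ht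
    refine ⟨(t : G), t.2, ?_⟩
    rw [← card_centralizer_eightElt]
    refine Nat.card_le_card_of_injective
      (fun y => ⟨(((φ ⟨y, y.2.1⟩ : (Q : Subgroup ↥(alternatingGroup (Fin 8)))) :
        ↥(alternatingGroup (Fin 8))) : Equiv.Perm (Fin 8)), ?_⟩) ?_
    · have hc : (⟨y, y.2.1⟩ : (T : Subgroup G)) * t = t * ⟨y, y.2.1⟩ :=
        Subtype.ext (mem_cent.1 y.2.2)
      have h := congrArg φ hc
      have hφt : φ t = ⟨x8, hQ (mem_zpowers _)⟩ := by simp only [ht, MulEquiv.apply_symm_apply]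
      rw [map_mul, map_mul, hφt] at h
      have h' := congrArg Subtype.val (congrArg Subtype.val h)
      exact mem_cent.2 h'
    · intro y y' h
      have h1 := congrArg Subtype.val h
      have h2 := φ.injective (Subtype.ext (Subtype.ext h1))
      exact Subtype.ext (congrArg (fun z : (T : Subgroup G) => (z : G)) h2 : _)
  let F : Action G :=
    { T := T, A := A, O := O, π := π
      π_surj := e.surjective.comp (QuotientGroup.mk'_surjective AO)
      π_eq_one := fun n => (hπ1 n).trans (hmemAO n)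
      hA := hA, hA16 := hA16, hO := hOodd, hON := hON, hOC := hOC, hT := hT64, hAT := hAT
      hTN := hTN, hx := hx }
  obtain ⟨F', hF'⟩ := F.exists_frame h3
  have hdec := F'.decomposition
  rw [show F'.A = A from hF'] at hdec
  have hgen : ∀ g : G, ∀ a ∈ A, g * a * g⁻¹ ∈ A ⊔ oddCore G := by
    intro g a ha
    obtain ⟨w, hw, n, hn, rfl⟩ := hdec g
    have ha' : n * a * n⁻¹ ∈ A := (mem_normalizer_iff.1 hn a).1 ha
    have h1 : w * (n * a * n⁻¹) * w⁻¹ * (n * a * n⁻¹)⁻¹ ∈ oddCore G := by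
      rw [show w * (n * a * n⁻¹) * w⁻¹ * (n * a * n⁻¹)⁻¹ =
        w * ((n * a * n⁻¹) * w⁻¹ * (n * a * n⁻¹)⁻¹) by group]
      exact mul_mem hw ((inferInstance : (oddCore G).Normal).conj_mem _ (inv_mem hw) _)
    rw [show w * n * a * (w * n)⁻¹ =
      (w * (n * a * n⁻¹) * w⁻¹ * (n * a * n⁻¹)⁻¹) * (n * a * n⁻¹) by group]
    exact mul_mem (mem_sup_right h1) (mem_sup_left ha')
  refine ⟨fun x hx' g => ?_⟩
  have hle : A ⊔ oddCore G ≤ (A ⊔ oddCore G).comap (MulAut.conj g).toMonoidHom :=
    sup_le (fun a ha => hgen g a ha)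
      (fun w hw => mem_sup_right ((inferInstance : (oddCore G).Normal).conj_mem w hw g))
  exact hle hx'

end CfsgLib.AEightThreeClasses
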